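import Mathlib
import Cfsg.Prelude.Def_Classical
import Cfsg.Agent.Lib.Helper18.UEDefs
import Cfsg.Agent.Lib.Helper18.UODefs
import Cfsg.Agent.Lib.Helper30.UETRANS

/-!
# Project UO (helper18), piece TRANS1: `GL_m(F)` is transitive on nonzero vectors.
-/

set_option autoImplicit false

namespace Cfsg.Agent.Lib.Helper18.UE

open Matrix

universe u

variable {F : Type u} [Field F] {m : ℕ}

-- piece TRANS1
theorem gl_trans1 (u v : Fin m → F) (hu : u ≠ 0) (hv : v ≠ 0) :
    ∃ g : GL (Fin m) F, (g : Matrix (Fin m) (Fin m) F) *ᵥ u = v := by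
  classical
  rcases Nat.lt_or_ge m 2 with hm | hm
  · interval_cases m
    · exact absurd (Subsingleton.elim u 0) hu
    · have hu0 : u 0 ≠ 0 := fun h => hu (by
        funext i
        rw [Subsingleton.elim i 0]
        exact h)
      have hv0 : v 0 ≠ 0 := fun h => hv (by
        funext i
        rw [Subsingleton.elim i 0]
        exact h)
      have hdet : ((v 0 / u 0) • (1 : Matrix (Fin 1) (Fin 1) F)).det ≠ 0 := by
        rw [Matrix.det_smul, Matrix.det_one, mul_one, Fintype.card_fin, pow_one]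
        exact div_ne_zero hv0 hu0
      refine ⟨Matrix.GeneralLinearGroup.mkOfDetNeZero _ hdet, ?_⟩
      show ((v 0 / u 0) • (1 : Matrix (Fin 1) (Fin 1) F)) *ᵥ u = v
      rw [Matrix.smul_mulVec, Matrix.one_mulVec]
      funext i
      rw [Subsingleton.elim i 0, Pi.smul_apply, smul_eq_mul, div_mul_cancel₀ _ hu0]
  · obtain ⟨g, hg⟩ := sl_trans hm u v hu hv
    exact ⟨Matrix.SpecialLinearGroup.toGL g, by simpa using hg⟩

end Cfsg.Agent.Lib.Helper18.UE
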