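import Mathlib
import Cfsg.Agent.Lib.Helper18.LSDefs
import Cfsg.Agent.Lib.Helper18.WRDefs

/-!
# WR piece WTRP (for S2347): the trace of the parity operator is `1`
-/

set_option autoImplicit false

namespace Cfsg.Agent.Lib.Helper18.WR

open Matrix

universe u

variable {F : Type u} [Field F] {n : ℕ}

theorem trace_par [Fintype F] (h2 : (2 : F) ≠ 0) :
    LinearMap.trace ℂ ((Fin n → F) → ℂ) (par : Module.End ℂ ((Fin n → F) → ℂ)) = 1 := by
  classical
  rw [LinearMap.trace_eq_matrix_trace ℂ (Pi.basisFun ℂ (Fin n → F)) par, Matrix.trace]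
  have key : ∀ x : Fin n → F,
      Matrix.diag (LinearMap.toMatrix (Pi.basisFun ℂ (Fin n → F)) (Pi.basisFun ℂ (Fin n → F))
        (par : Module.End ℂ ((Fin n → F) → ℂ))) x = if x = 0 then 1 else 0 := by
    intro x
    rw [Matrix.diag_apply, LinearMap.toMatrix_apply, Pi.basisFun_apply, Pi.basisFun_repr,
      par_apply]
    by_cases hx : x = 0
    · subst hx
      simp
    · rw [if_neg hx, Pi.single_apply, if_neg]
      intro h
      apply hx
      funext i
      have hi : -x i = x i := congrFun h i
      have h3 : (2 : F) * x i = 0 := by linear_combination -hi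
      exact (mul_eq_zero.mp h3).resolve_left h2
  simp_rw [key]
  simp

end Cfsg.Agent.Lib.Helper18.WR
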