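import Mathlib
import Cfsg.Agent.Lib.Helper35.Virt

namespace Cfsg.Agent.Lib.Helper23

/-- Splitting three distinct indices off a finite sum. -/
theorem sum_split_three {I : Type*} [Fintype I] [DecidableEq I] (one χ ψ : I) (h1 : χ ≠ one)
    (h2 : ψ ≠ one) (h3 : χ ≠ ψ) (F : I → ℤ) :
    ∑ i, F i = F one + F χ + F ψ +
      ∑ i ∈ ((Finset.univ.erase one).erase χ).erase ψ, F i := by
  rw [← Finset.add_sum_erase _ _ (Finset.mem_univ one),
    ← Finset.add_sum_erase _ _ (show χ ∈ Finset.univ.erase one from by simp [h1]),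
    ← Finset.add_sum_erase _ _ (show ψ ∈ (Finset.univ.erase one).erase χ from by
      simp [h2, h3.symm])]
  ring

theorem mem_rest_iff {I : Type*} [Fintype I] [DecidableEq I] (one χ ψ i : I) :
    i ∈ ((Finset.univ.erase one).erase χ).erase ψ ↔ i ≠ one ∧ i ≠ χ ∧ i ≠ ψ := by
  simp only [Finset.mem_erase, Finset.mem_univ, and_true]
  tauto

/-- The combinatorial core of the exceptional character argument for `e = 2`. -/
theorem exc_two_comb {I Λ : Type*} [Fintype I] [DecidableEq I] [Fintype Λ] [DecidableEq Λ]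
    (a : Λ → I → ℤ) (d : I → ℤ) (one : I) (bar : Λ → Λ)
    (hd : ∀ i, 0 < d i) (hd1 : d one = 1)
    (ha1 : ∀ l, a l one = 1)
    (hgram : ∀ l l', ∑ i, a l i * a l' i =
      2 + (if l' = l then 1 else 0) + (if l' = bar l then 1 else 0))
    (hbar : ∀ l, bar l ≠ l)
    (hdeg : ∀ l, ∑ i, a l i * d i = 0) (l₁ : Λ) :
    ∃ χ ψ : I, χ ≠ one ∧ ψ ≠ one ∧ d ψ = d χ + 1 ∧
      ((∀ l, a l χ = 1) ∨ (∑ l, a l χ = 2)) := by
  classical
  have hnorm : ∀ l, ∑ i, a l i ^ 2 = 3 := by
    intro l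
    have h := hgram l l
    rw [if_pos rfl, if_neg (fun h => hbar l h.symm)] at h
    simp_rw [pow_two]
    linarith
  -- the structure of `a l₁`
  have hcsum : ∑ i, (if i = one then 0 else a l₁ i) ^ 2 = 2 := by
    have h1 := hnorm l₁
    rw [← Finset.add_sum_erase _ _ (Finset.mem_univ one), ha1] at h1
    rw [← Finset.add_sum_erase _ _ (Finset.mem_univ one), if_pos rfl]
    have h2 : ∑ i ∈ Finset.univ.erase one, (if i = one then 0 else a l₁ i) ^ 2 =
        ∑ i ∈ Finset.univ.erase one, a l₁ i ^ 2 := by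
      refine Finset.sum_congr rfl fun i hi => ?_
      rw [if_neg (Finset.ne_of_mem_erase hi)]
    rw [h2]
    linarith
  obtain ⟨χ₀, ψ₀, hχψ₀, hcχ, hcψ, hrest⟩ :=
    Cfsg.Agent.Lib.Helper35.two_square (fun i => if i = one then 0 else a l₁ i) hcsum
  have hχ1 : χ₀ ≠ one := by
    rintro rfl
    simp at hcχ
  have hψ1 : ψ₀ ≠ one := by
    rintro rfl
    simp at hcψ
  have haχ : a l₁ χ₀ = 1 ∨ a l₁ χ₀ = -1 := by simpa [hχ1] using hcχ
  have haψ : a l₁ ψ₀ = 1 ∨ a l₁ ψ₀ = -1 := by simpa [hψ1] using hcψ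
  have hzero : ∀ i, i ≠ one → i ≠ χ₀ → i ≠ ψ₀ → a l₁ i = 0 := by
    intro i h1 h2 h3
    have := hrest i h2 h3
    simpa [h1] using this
  -- the main argument, for a normalized choice of signs
  have key : ∀ χ ψ : I, χ ≠ one → ψ ≠ one → χ ≠ ψ → a l₁ χ = 1 → a l₁ ψ = -1 →
      (∀ i, i ≠ one → i ≠ χ → i ≠ ψ → a l₁ i = 0) →
      ∃ χ ψ : I, χ ≠ one ∧ ψ ≠ one ∧ d ψ = d χ + 1 ∧
        ((∀ l, a l χ = 1) ∨ (∑ l, a l χ = 2)) := by
    intro χ ψ hχ1 hψ1 hχψ haχ haψ hzero
    have hsplit : ∀ f : I → ℤ, ∑ i, a l₁ i * f i = f one + f χ - f ψ := by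
      intro f
      rw [sum_split_three one χ ψ hχ1 hψ1 hχψ, ha1, haχ, haψ, Finset.sum_eq_zero]
      · ring
      · intro i hi
        rw [mem_rest_iff] at hi
        rw [hzero i hi.1 hi.2.1 hi.2.2, zero_mul]
    have hdψ : d ψ = d χ + 1 := by
      have := hsplit d
      rw [hdeg l₁, hd1] at this
      linarith
    -- the types of the other `l`
    have hsqle : ∀ l, a l χ ^ 2 + a l ψ ^ 2 ≤ 2 := by
      intro l
      have h1 := hnorm l
      rw [sum_split_three one χ ψ hχ1 hψ1 hχψ, ha1] at h1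
      have h2 : 0 ≤ ∑ i ∈ ((Finset.univ.erase one).erase χ).erase ψ, a l i ^ 2 :=
        Finset.sum_nonneg fun i _ => sq_nonneg _
      linarith
    have htype : ∀ l, (a l χ = 1 ∧ a l ψ = -1 ∧ (l = l₁ ∨ l = bar l₁)) ∨
        (a l χ = 1 ∧ a l ψ = 0 ∧ l ≠ l₁ ∧ l ≠ bar l₁) ∨
        (a l χ = 0 ∧ a l ψ = -1 ∧ l ≠ l₁ ∧ l ≠ bar l₁) := by
      intro l
      have h1 := hsplit (a l)
      rw [hgram l₁ l, ha1] at h1
      have h2 := hsqle l
      by_cases hl1 : l = l₁
      · left
        rw [if_pos hl1, if_neg (by rw [hl1]; exact fun h => hbar l₁ h.symm)] at h1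
        have hv : a l ψ = -1 := by nlinarith [sq_nonneg (a l ψ + 1)]
        exact ⟨by linarith, hv, Or.inl hl1⟩
      · by_cases hl2 : l = bar l₁
        · left
          rw [if_neg hl1, if_pos hl2] at h1
          have hv : a l ψ = -1 := by nlinarith [sq_nonneg (a l ψ + 1)]
          exact ⟨by linarith, hv, Or.inr hl2⟩
        · right
          rw [if_neg hl1, if_neg hl2] at h1
          have hu : a l χ = a l ψ + 1 := by linarith
          have hv : a l ψ = 0 ∨ a l ψ = -1 := by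
            have h3 : a l ψ * (a l ψ + 1) ≤ 0 := by nlinarith
            have h4 : -1 ≤ a l ψ := by nlinarith
            have h5 : a l ψ ≤ 0 := by nlinarith
            omega
          rcases hv with hv | hv
          · left
            exact ⟨by rw [hu, hv]; norm_num, hv, hl1, hl2⟩
          · right
            exact ⟨by rw [hu, hv]; norm_num, hv, hl1, hl2⟩
    -- no mixing of the two types
    have hmix : ∀ l l', a l χ = 1 → a l ψ = 0 → a l' χ = 0 → a l' ψ = -1 → False := by
      intro l l' h1 h2 h3 h4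
      have hn : ∑ i, (a l i - a l' i) ^ 2 ≤ 2 := by
        have e : ∑ i, (a l i - a l' i) ^ 2 =
            ∑ i, a l i ^ 2 + ∑ i, a l' i ^ 2 - 2 * ∑ i, a l i * a l' i := by
          rw [Finset.mul_sum, ← Finset.sum_add_distrib, ← Finset.sum_sub_distrib]
          refine Finset.sum_congr rfl fun i _ => ?_
          ring
        rw [e, hnorm l, hnorm l', hgram l l']
        have : (0 : ℤ) ≤ (if l' = l then 1 else 0) + (if l' = bar l then 1 else 0) := by
          split_ifs <;> norm_num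
        linarith
      rw [sum_split_three one χ ψ hχ1 hψ1 hχψ, ha1, ha1, h1, h2, h3, h4] at hn
      have hrest0 : ∑ i ∈ ((Finset.univ.erase one).erase χ).erase ψ, (a l i - a l' i) ^ 2 = 0 := by
        have h5 : 0 ≤ ∑ i ∈ ((Finset.univ.erase one).erase χ).erase ψ, (a l i - a l' i) ^ 2 :=
          Finset.sum_nonneg fun i _ => sq_nonneg _
        linarith
      have hz : ∀ i ∈ ((Finset.univ.erase one).erase χ).erase ψ, a l i - a l' i = 0 := by
        intro i hi
        have := (Finset.sum_eq_zero_iff_of_nonneg (fun i _ => sq_nonneg _)).mp hrest0 i hi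
        exact pow_eq_zero_iff (two_ne_zero) |>.mp this
      have hdd : ∑ i, (a l i - a l' i) * d i = 0 := by
        have e : ∑ i, (a l i - a l' i) * d i = ∑ i, a l i * d i - ∑ i, a l' i * d i := by
          rw [← Finset.sum_sub_distrib]
          refine Finset.sum_congr rfl fun i _ => ?_
          ring
        rw [e, hdeg l, hdeg l', sub_zero]
      rw [sum_split_three one χ ψ hχ1 hψ1 hχψ, ha1, ha1, h1, h2, h3, h4,
        Finset.sum_eq_zero (fun i hi => by rw [hz i hi, zero_mul])] at hdd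
      have := hd χ
      have := hd ψ
      linarith
    refine ⟨χ, ψ, hχ1, hψ1, hdψ, ?_⟩
    by_cases hex : ∃ l, a l χ = 1 ∧ a l ψ = 0
    · left
      obtain ⟨l₀, h1, h2⟩ := hex
      intro l
      rcases htype l with h | h | h
      · exact h.1
      · exact h.1
      · exact (hmix l₀ l h1 h2 h.1 h.2.1).elim
    · right
      have hval : ∀ l, a l χ = if (l = l₁ ∨ l = bar l₁) then 1 else 0 := by
        intro l
        rcases htype l with h | h | h
        · rw [if_pos h.2.2, h.1]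
        · exact (hex ⟨l, h.1, h.2.1⟩).elim
        · rw [if_neg (by push Not; exact ⟨h.2.2.1, h.2.2.2⟩), h.1]
      rw [Finset.sum_congr rfl (fun l _ => hval l), Finset.sum_boole]
      have hfil : Finset.univ.filter (fun l => l = l₁ ∨ l = bar l₁) = {l₁, bar l₁} := by
        ext l
        simp
      rw [hfil, Finset.card_pair (fun h => hbar l₁ h.symm)]
      norm_num
  rcases haχ with h1 | h1 <;> rcases haψ with h2 | h2
  · exfalso
    have hs : ∑ i, a l₁ i * d i = d one + d χ₀ + d ψ₀ := by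
      rw [sum_split_three one χ₀ ψ₀ hχ1 hψ1 hχψ₀, ha1, h1, h2, Finset.sum_eq_zero]
      · ring
      · intro i hi
        rw [mem_rest_iff] at hi
        rw [hzero i hi.1 hi.2.1 hi.2.2, zero_mul]
    rw [hdeg l₁, hd1] at hs
    have := hd χ₀
    have := hd ψ₀
    linarith
  · exact key χ₀ ψ₀ hχ1 hψ1 hχψ₀ h1 h2 hzero
  · exact key ψ₀ χ₀ hψ1 hχ1 hχψ₀.symm h2 h1 (fun i h1 h2 h3 => hzero i h1 h3 h2)
  · exfalso
    have hs : ∑ i, a l₁ i * d i = d one - d χ₀ - d ψ₀ := by
      rw [sum_split_three one χ₀ ψ₀ hχ1 hψ1 hχψ₀, ha1, h1, h2, Finset.sum_eq_zero]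
      · ring
      · intro i hi
        rw [mem_rest_iff] at hi
        rw [hzero i hi.1 hi.2.1 hi.2.2, zero_mul]
    rw [hdeg l₁, hd1] at hs
    have := hd χ₀
    have := hd ψ₀
    linarith

end Cfsg.Agent.Lib.Helper23
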