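import Mathlib
import Cfsg.Agent.Lib.Helper4.CharClosure
import Cfsg.Agent.Lib.Helper35.Virt
import Cfsg.Agent.Lib.Helper35.Abel
import Cfsg.Agent.Lib.Helper23.ExcComb
import Cfsg.Agent.Lib.Helper23.Syl

namespace Cfsg.Agent.Lib.Helper23

open Cfsg Cfsg.Agent.Lib.Helper4
open scoped ComplexConjugate

section
variable {G : Type*} [Group G] [Fintype G]

/-- Collapsing the double sum via column orthogonality, for a subgroup `P` of prime order whose
nontrivial elements are self-centralizing and fuse only with their inverses. -/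
theorem exc_key [Fintype (IrrCharacter G)] (p : ℕ) (P : Subgroup G) [Fintype P]
    (hP : Nat.card P = p) (hp0 : p ≠ 0)
    (hC : ∀ y ∈ P, y ≠ 1 → Nat.card (Subgroup.centralizer ({y} : Set G)) = p)
    (hF : ∀ y ∈ P, y ≠ 1 → ∀ y' ∈ P, (IsConj y y' ↔ y' = y ∨ y' = y⁻¹))
    (hinv : ∀ y : P, y ≠ 1 → y⁻¹ ≠ y)
    (f f' : P → ℂ) (hf1 : f 1 = 0) :
    ∑ χ : IrrCharacter G, classInner (fun h : P => (χ : G → ℂ) h) f *
        conj (classInner (fun h : P => (χ : G → ℂ) h) f') =
      classInner (fun y => f' y + f' y⁻¹) f := by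
  classical
  have hcardP : (Nat.card P : ℂ) = (p : ℂ) := by rw [hP]
  have hp0' : (p : ℂ) ≠ 0 := Nat.cast_ne_zero.mpr hp0
  simp only [classInner]
  have h1 : ∀ χ : IrrCharacter G,
      ((Nat.card P : ℂ)⁻¹ * ∑ y : P, (χ : G → ℂ) y * conj (f y)) *
        conj ((Nat.card P : ℂ)⁻¹ * ∑ y : P, (χ : G → ℂ) y * conj (f' y)) =
      (Nat.card P : ℂ)⁻¹ * (Nat.card P : ℂ)⁻¹ *
        ∑ y : P, ∑ y' : P, conj (f y) * f' y' *
          ((χ : G → ℂ) y * conj ((χ : G → ℂ) y')) := by
    intro χ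
    rw [map_mul, map_inv₀, Complex.conj_natCast, map_sum, mul_mul_mul_comm, Finset.sum_mul_sum]
    congr 1
    refine Finset.sum_congr rfl fun y _ => Finset.sum_congr rfl fun y' _ => ?_
    rw [map_mul, Complex.conj_conj]
    ring
  rw [Finset.sum_congr rfl (fun χ _ => h1 χ), ← Finset.mul_sum, Finset.sum_comm]
  have h2 : ∀ y : P, ∑ χ : IrrCharacter G, ∑ y' : P, conj (f y) * f' y' *
      ((χ : G → ℂ) y * conj ((χ : G → ℂ) y')) = (p : ℂ) * ((f' y + f' y⁻¹) * conj (f y)) := by
    intro y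
    rw [Finset.sum_comm]
    have h3 : ∀ y' : P, ∑ χ : IrrCharacter G, conj (f y) * f' y' *
        ((χ : G → ℂ) y * conj ((χ : G → ℂ) y')) = conj (f y) * f' y' *
        (if IsConj (y : G) (y' : G) then
          (Nat.card (Subgroup.centralizer ({(y : G)} : Set G)) : ℂ) else 0) := by
      intro y'
      rw [← Finset.mul_sum, col_orth]
    rw [Finset.sum_congr rfl (fun y' _ => h3 y')]
    by_cases hy : y = 1
    · subst hy
      simp [hf1]
    · have hy' : (y : G) ≠ 1 := fun h => hy (Subtype.ext h)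
      have h4 : ∀ y' : P, (IsConj (y : G) (y' : G)) ↔ (y' = y ∨ y' = y⁻¹) := by
        intro y'
        rw [hF y y.2 hy' y' y'.2]
        constructor
        · rintro (h | h)
          · exact Or.inl (Subtype.ext h)
          · exact Or.inr (Subtype.ext h)
        · rintro (h | h)
          · exact Or.inl (congrArg Subtype.val h)
          · exact Or.inr (congrArg Subtype.val h)
      have h5 : ∀ y' : P, conj (f y) * f' y' *
          (if IsConj (y : G) (y' : G) then
            (Nat.card (Subgroup.centralizer ({(y : G)} : Set G)) : ℂ) else 0) =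
          if (y' = y ∨ y' = y⁻¹) then conj (f y) * f' y' * (p : ℂ) else 0 := by
        intro y'
        rw [hC y y.2 hy']
        by_cases hc : y' = y ∨ y' = y⁻¹
        · rw [if_pos ((h4 y').mpr hc), if_pos hc]
        · rw [if_neg (fun h => hc ((h4 y').mp h)), if_neg hc, mul_zero]
      rw [Finset.sum_congr rfl (fun y' _ => h5 y'), ← Finset.sum_filter]
      have hfil : Finset.univ.filter (fun y' : P => y' = y ∨ y' = y⁻¹) = {y, y⁻¹} := by
        ext y'
        simp
      rw [hfil, Finset.sum_pair (fun h => hinv y hy h.symm)]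
      ring
  rw [Finset.sum_congr rfl (fun y _ => h2 y), ← Finset.mul_sum, hcardP]
  field_simp

theorem exc_deg [Fintype (IrrCharacter G)] (P : Subgroup G) [Fintype P]
    (f : P → ℂ) (hf1 : f 1 = 0) :
    ∑ χ : IrrCharacter G, classInner (fun h : P => (χ : G → ℂ) h) f * (χ : G → ℂ) 1 = 0 := by
  classical
  simp only [classInner]
  have h1 : ∀ χ : IrrCharacter G,
      ((Nat.card P : ℂ)⁻¹ * ∑ y : P, (χ : G → ℂ) y * conj (f y)) * (χ : G → ℂ) 1 =
      (Nat.card P : ℂ)⁻¹ * ∑ y : P, conj (f y) * ((χ : G → ℂ) y * (χ : G → ℂ) 1) := by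
    intro χ
    rw [mul_assoc, Finset.sum_mul]
    congr 1
    refine Finset.sum_congr rfl fun y _ => ?_
    ring
  rw [Finset.sum_congr rfl (fun χ _ => h1 χ), ← Finset.mul_sum, Finset.sum_comm]
  have h2 : ∀ y : P, ∑ χ : IrrCharacter G,
      conj (f y) * ((χ : G → ℂ) y * (χ : G → ℂ) 1) = 0 := by
    intro y
    rw [← Finset.mul_sum, col_orth_one]
    by_cases hy : y = 1
    · subst hy
      simp [hf1]
    · have hy' : (y : G) ≠ 1 := fun h => hy (Subtype.ext h)
      rw [if_neg hy', mul_zero]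
  rw [Finset.sum_congr rfl (fun y _ => h2 y)]
  simp

/-- Exceptional characters for a self-centralizing subgroup `P` of odd prime order `p` with
`|N(P) : P| = 2`: there are nonprincipal irreducible characters of degrees `d`, `d + 1` with
`d ≡ 1` or `d ≡ -2` modulo `p`. -/
theorem exc_two (p : ℕ) [hp : Fact p.Prime] (hp2 : p ≠ 2) (P : Subgroup G)
    (hP : Nat.card P = p)
    (hC : ∀ y ∈ P, y ≠ 1 → Nat.card (Subgroup.centralizer ({y} : Set G)) = p)
    (hF : ∀ y ∈ P, y ≠ 1 → ∀ y' ∈ P, (IsConj y y' ↔ y' = y ∨ y' = y⁻¹)) :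
    ∃ χ ψ : IrrCharacter G, χ ≠ trivIrr ∧ ψ ≠ trivIrr ∧ irrDeg ψ = irrDeg χ + 1 ∧
      (irrDeg χ % p = 1 ∨ (irrDeg χ + 2) % p = 0) := by
  classical
  haveI : Finite (IrrCharacter G) := irr_finite
  letI : Fintype (IrrCharacter G) := Fintype.ofFinite _
  letI : Fintype P := Fintype.ofFinite _
  haveI : Finite (IrrCharacter P) := irr_finite
  letI : Fintype (IrrCharacter P) := Fintype.ofFinite _
  have hp0 : p ≠ 0 := hp.out.ne_zero
  have hp1 : 1 < p := hp.out.one_lt
  have hodd : Odd (Nat.card P) := by rw [hP]; exact hp.out.odd_of_ne_two hp2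
  have hcyc : IsCyclic P := isCyclic_of_prime_card hP
  have hcomm : ∀ a b : P, a * b = b * a := fun a b =>
    (isMulCommutative_of_isCyclic (α := P)).is_comm.comm a b
  have hinv : ∀ y : P, y ≠ 1 → y⁻¹ ≠ y := fun y hy => inv_ne_self_of_odd hodd y hy
  have hbar : ∀ l : IrrCharacter P, l ≠ trivIrr → irrConj l ≠ l := by
    intro l hl h
    exact hl (real_irr_eq_triv hodd l ((irrConj_eq_self_iff l).mp h))
  have hbar1 : ∀ l : IrrCharacter P, l ≠ trivIrr → irrConj l ≠ trivIrr := by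
    intro l hl h
    apply hl
    have := congrArg irrConj h
    rwa [irrConj_irrConj, irrConj_triv] at this
  have hl1 : ∀ l : IrrCharacter P, (l : P → ℂ) 1 = 1 := fun l =>
    Cfsg.Agent.Lib.Helper35.irr_one_of_comm hcomm l
  have hcardIrr : Fintype.card (IrrCharacter P) = p := by
    rw [← Nat.card_eq_fintype_card, card_irr,
      Cfsg.Agent.Lib.Helper35.card_conjClasses_of_comm hcomm, hP]
  -- multiplicities
  choose M hM using (fun χ : IrrCharacter G =>
    exists_decomp_of_isCharacter (fun h : P => (χ : G → ℂ) h)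
      (isCharacter_restrict P (χ : G → ℂ) (isCharacter_of_irr χ)))
  have hMin : ∀ (χ : IrrCharacter G) (l : IrrCharacter P),
      classInner (fun h : P => (χ : G → ℂ) h) (l : P → ℂ) = (M χ l : ℂ) := by
    intro χ l
    rw [hM χ]
    exact classInner_sum_irr _ l
  have hMtriv : ∀ l : IrrCharacter P,
      (M trivIrr l : ℂ) = if (trivIrr : IrrCharacter P) = l then 1 else 0 := by
    intro l
    rw [← hMin]
    exact classInner_irr trivIrr l
  have hsumM : ∀ χ : IrrCharacter G, ∑ l : IrrCharacter P, M χ l = irrDeg χ := by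
    intro χ
    have h1 := congrFun (hM χ) 1
    simp only [Finset.sum_apply, Pi.smul_apply, smul_eq_mul, hl1, mul_one] at h1
    have h2 : (χ : G → ℂ) ((1 : P) : G) = (irrDeg χ : ℂ) := irrDeg_spec χ
    rw [h2] at h1
    exact_mod_cast h1.symm
  -- the vectors `a l`
  let a : {l : IrrCharacter P // l ≠ trivIrr} → IrrCharacter G → ℤ :=
    fun l χ => (M χ trivIrr : ℤ) - (M χ l.1 : ℤ)
  have hacast : ∀ (l : {l : IrrCharacter P // l ≠ trivIrr}) (χ : IrrCharacter G),
      ((a l χ : ℤ) : ℂ) = classInner (fun h : P => (χ : G → ℂ) h)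
        ((trivIrr : IrrCharacter P).1 - l.1.1) := by
    intro l χ
    rw [Cfsg.Agent.Lib.Helper35.classInner_sub_right, hMin, hMin]
    simp [a]
  have hf1 : ∀ l : {l : IrrCharacter P // l ≠ trivIrr},
      ((trivIrr : IrrCharacter P).1 - l.1.1) 1 = 0 := by
    intro l
    rw [Pi.sub_apply, trivIrr_apply, hl1, sub_self]
  obtain ⟨l₀, hl₀⟩ : ∃ l : IrrCharacter P, l ≠ trivIrr :=
    Fintype.exists_ne_of_one_lt_card (by rw [hcardIrr]; exact hp1) trivIrr
  have ha1 : ∀ l : {l : IrrCharacter P // l ≠ trivIrr}, a l trivIrr = 1 := by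
    intro l
    have h1 : M trivIrr trivIrr = 1 := by
      exact_mod_cast (hMtriv trivIrr).trans (if_pos rfl)
    have h2 : M trivIrr l.1 = 0 := by
      exact_mod_cast (hMtriv l.1).trans (if_neg (Ne.symm l.2))
    simp [a, h1, h2]
  have hgram : ∀ l l' : {l : IrrCharacter P // l ≠ trivIrr},
      ∑ χ : IrrCharacter G, a l χ * a l' χ =
        2 + (if l' = l then 1 else 0) +
          (if l' = ⟨irrConj l.1, hbar1 l.1 l.2⟩ then 1 else 0) := by
    intro l l'
    have hc : ((∑ χ : IrrCharacter G, a l χ * a l' χ : ℤ) : ℂ) =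
        classInner (fun y => ((trivIrr : IrrCharacter P).1 - l'.1.1) y +
          ((trivIrr : IrrCharacter P).1 - l'.1.1) y⁻¹)
          ((trivIrr : IrrCharacter P).1 - l.1.1) := by
      rw [← exc_key p P hP hp0 hC hF hinv _ _ (hf1 l)]
      push_cast
      refine Finset.sum_congr rfl fun χ _ => ?_
      rw [← hacast l χ, ← hacast l' χ, map_intCast]
    have hfun : (fun y => ((trivIrr : IrrCharacter P).1 - l'.1.1) y +
        ((trivIrr : IrrCharacter P).1 - l'.1.1) y⁻¹) =
        (2 : ℂ) • (trivIrr : IrrCharacter P).1 - l'.1.1 - (irrConj l'.1).1 := by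
      funext y
      simp only [Pi.sub_apply, Pi.smul_apply, trivIrr_apply, smul_eq_mul, irrConj_apply]
      rw [irr_inv]
      ring
    rw [hfun] at hc
    rw [Cfsg.Agent.Lib.Helper35.classInner_sub_left, Cfsg.Agent.Lib.Helper35.classInner_sub_left,
      Cfsg.Agent.Lib.Helper35.classInner_smul_left,
      Cfsg.Agent.Lib.Helper35.classInner_sub_right,
      Cfsg.Agent.Lib.Helper35.classInner_sub_right,
      Cfsg.Agent.Lib.Helper35.classInner_sub_right,
      classInner_irr, classInner_irr, classInner_irr, classInner_irr, classInner_irr,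
      classInner_irr, if_pos rfl, if_neg (Ne.symm l.2), if_neg l'.2,
      if_neg (hbar1 l'.1 l'.2)] at hc
    have e1 : (l' = l) ↔ (l'.1 = l.1) := Subtype.ext_iff
    have e2 : (l' = ⟨irrConj l.1, hbar1 l.1 l.2⟩) ↔ (irrConj l'.1 = l.1) := by
      rw [Subtype.ext_iff]
      constructor
      · intro h
        show irrConj l'.1 = l.1
        rw [show l'.1 = irrConj l.1 from h, irrConj_irrConj]
      · intro h
        show l'.1 = irrConj l.1
        rw [← h, irrConj_irrConj]
    by_cases h1 : l'.1 = l.1 <;> by_cases h2 : irrConj l'.1 = l.1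
    · rw [if_pos (e1.mpr h1), if_pos (e2.mpr h2)]
      rw [if_pos h1, if_pos h2] at hc
      have : ((∑ χ : IrrCharacter G, a l χ * a l' χ : ℤ) : ℂ) = ((2 + 1 + 1 : ℤ) : ℂ) := by
        rw [hc]; push_cast; ring
      exact_mod_cast this
    · rw [if_pos (e1.mpr h1), if_neg (fun h => h2 (e2.mp h))]
      rw [if_pos h1, if_neg h2] at hc
      have : ((∑ χ : IrrCharacter G, a l χ * a l' χ : ℤ) : ℂ) = ((2 + 1 + 0 : ℤ) : ℂ) := by
        rw [hc]; push_cast; ring
      exact_mod_cast this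
    · rw [if_neg (fun h => h1 (e1.mp h)), if_pos (e2.mpr h2)]
      rw [if_neg h1, if_pos h2] at hc
      have : ((∑ χ : IrrCharacter G, a l χ * a l' χ : ℤ) : ℂ) = ((2 + 0 + 1 : ℤ) : ℂ) := by
        rw [hc]; push_cast; ring
      exact_mod_cast this
    · rw [if_neg (fun h => h1 (e1.mp h)), if_neg (fun h => h2 (e2.mp h))]
      rw [if_neg h1, if_neg h2] at hc
      have : ((∑ χ : IrrCharacter G, a l χ * a l' χ : ℤ) : ℂ) = ((2 + 0 + 0 : ℤ) : ℂ) := by
        rw [hc]; push_cast; ring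
      exact_mod_cast this
  have hdeg : ∀ l : {l : IrrCharacter P // l ≠ trivIrr},
      ∑ χ : IrrCharacter G, a l χ * (irrDeg χ : ℤ) = 0 := by
    intro l
    have hc : ((∑ χ : IrrCharacter G, a l χ * (irrDeg χ : ℤ) : ℤ) : ℂ) = 0 := by
      rw [← exc_deg P _ (hf1 l)]
      push_cast
      refine Finset.sum_congr rfl fun χ _ => ?_
      rw [← hacast l χ, irrDeg_spec]
    exact_mod_cast hc
  obtain ⟨χ, ψ, hχ, hψ, hdψ, hcase⟩ := exc_two_comb a (fun χ => (irrDeg χ : ℤ)) trivIrr
    (fun l => ⟨irrConj l.1, hbar1 l.1 l.2⟩)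
    (fun χ => by exact_mod_cast irrDeg_pos χ)
    (by rw [irrDeg_triv]; rfl) ha1 hgram
    (fun l h => hbar l.1 l.2 (congrArg Subtype.val h)) hdeg ⟨l₀, hl₀⟩
  refine ⟨χ, ψ, hχ, hψ, by exact_mod_cast hdψ, ?_⟩
  -- sums over the nontrivial characters of `P`
  have hsub : ∀ F : IrrCharacter P → ℤ,
      ∑ l : {l : IrrCharacter P // l ≠ trivIrr}, F l.1 =
        ∑ l ∈ Finset.univ.erase (trivIrr : IrrCharacter P), F l :=
    fun F => (Finset.sum_subtype (Finset.univ.erase (trivIrr : IrrCharacter P))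
      (fun x => by simp) F).symm
  have hcarderase : (Finset.univ.erase (trivIrr : IrrCharacter P)).card = p - 1 := by
    rw [Finset.card_erase_of_mem (Finset.mem_univ _), Finset.card_univ, hcardIrr]
  have hsumZ : (M χ trivIrr : ℤ) +
      ∑ l ∈ Finset.univ.erase (trivIrr : IrrCharacter P), (M χ l : ℤ) = (irrDeg χ : ℤ) := by
    rw [Finset.add_sum_erase Finset.univ (fun l => (M χ l : ℤ)) (Finset.mem_univ _)]
    exact_mod_cast hsumM χ
  have hsuma : ∑ l : {l : IrrCharacter P // l ≠ trivIrr}, a l χ =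
      ((p - 1 : ℕ) : ℤ) * (M χ trivIrr : ℤ) -
        ∑ l ∈ Finset.univ.erase (trivIrr : IrrCharacter P), (M χ l : ℤ) := by
    rw [hsub (fun l => (M χ trivIrr : ℤ) - (M χ l : ℤ)), Finset.sum_sub_distrib,
      Finset.sum_const, hcarderase, nsmul_eq_mul]
  have hpcast : ((p - 1 : ℕ) : ℤ) = (p : ℤ) - 1 := by
    rw [Nat.cast_sub hp1.le]
    norm_num
  rcases hcase with hA | hB
  · left
    -- every nontrivial multiplicity is `M χ 1 - 1`
    have hsum1 : ∑ l : {l : IrrCharacter P // l ≠ trivIrr}, a l χ = ((p - 1 : ℕ) : ℤ) := by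
      rw [Finset.sum_congr rfl (fun l _ => hA l), Finset.sum_const, Finset.card_univ,
        Fintype.card_subtype_compl, hcardIrr]
      simp
    rw [hsuma, hpcast] at hsum1
    have hA0 := hA ⟨l₀, hl₀⟩
    have hm1 : (1 : ℤ) ≤ (M χ trivIrr : ℤ) := by
      have : (0 : ℤ) ≤ (M χ l₀ : ℤ) := Int.natCast_nonneg _
      simp only [a] at hA0
      linarith
    obtain ⟨k, hk⟩ : ∃ k : ℕ, M χ trivIrr = k + 1 :=
      ⟨M χ trivIrr - 1, by omega⟩
    have hdk : (irrDeg χ : ℤ) = 1 + (p : ℤ) * (k : ℤ) := by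
      have hk' : (M χ trivIrr : ℤ) = (k : ℤ) + 1 := by exact_mod_cast hk
      rw [hk'] at hsum1 hsumZ
      linarith
    have hdk' : irrDeg χ = 1 + p * k := by exact_mod_cast hdk
    rw [hdk', Nat.add_mul_mod_self_left, Nat.mod_eq_of_lt hp1]
  · right
    rw [hsuma, hpcast] at hB
    have hdk : ((irrDeg χ + 2 : ℕ) : ℤ) = (p : ℤ) * (M χ trivIrr : ℤ) := by
      push_cast
      linarith
    have hdk' : irrDeg χ + 2 = p * M χ trivIrr := by exact_mod_cast hdk
    rw [hdk', Nat.mul_mod_right]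

end

end Cfsg.Agent.Lib.Helper23
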