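import Mathlib
import Cfsg.Agent.Lib.Helper23.ExcChar
import Cfsg.Agent.Lib.Helper23.SignArg

namespace Cfsg.Agent.Lib.Helper23

open Cfsg Cfsg.Agent.Lib.Helper4 Subgroup
open scoped commutatorElement

/-- A simple non-abelian group is perfect. -/
theorem commutator_eq_top_of_simple {G : Type*} [Group G] [IsSimpleGroup G]
    (hG : ¬ IsMulCommutative G) : commutator G = ⊤ := by
  have hnorm : (commutator G).Normal := by
    rw [_root_.commutator_def]
    infer_instance
  rcases hnorm.eq_bot_or_eq_top with h | h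
  · exfalso
    apply hG
    refine ⟨⟨fun (a b : G) => ?_⟩⟩
    have h1 : ⁅a, b⁆ ∈ commutator G := by
      rw [_root_.commutator_def]
      exact Subgroup.commutator_mem_commutator (Subgroup.mem_top a) (Subgroup.mem_top b)
    rw [h, Subgroup.mem_bot] at h1
    exact commutatorElement_eq_one_iff_mul_comm.mp h1
  · exact h

/-- Consequence of `exc_two` for a perfect group. -/
theorem exc_two_dvd {G : Type*} [Group G] [Finite G] (p : ℕ) [hp : Fact p.Prime] (hp2 : p ≠ 2)
    (P : Subgroup G) (hP : Nat.card P = p)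
    (hC : ∀ y ∈ P, y ≠ 1 → Nat.card (Subgroup.centralizer ({y} : Set G)) = p)
    (hF : ∀ y ∈ P, y ≠ 1 → ∀ y' ∈ P, (IsConj y y' ↔ y' = y ∨ y' = y⁻¹))
    (hperf : commutator G = ⊤) :
    ∃ d : ℕ, 2 ≤ d ∧ d ∣ Nat.card G ∧ (d + 1) ∣ Nat.card G ∧
      (d % p = 1 ∨ (d + 2) % p = 0) := by
  cases nonempty_fintype G
  have hfin : Finite (IrrCharacter G) := irr_finite
  obtain ⟨χ, ψ, hχ, hψ, hdψ, hmod⟩ := exc_two p hp2 P hP hC hF
  refine ⟨irrDeg χ, ?_, irrDeg_dvd χ, hdψ ▸ irrDeg_dvd ψ, hmod⟩
  have hpos := irrDeg_pos χ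
  by_contra hlt
  have h1 : irrDeg χ = 1 := by omega
  have hχ1 : (χ : G → ℂ) 1 = 1 := by
    rw [irrDeg_spec, h1]
    norm_num
  have hcl := card_linear (G := G)
  rw [hperf, Subgroup.index_top] at hcl
  have hsub : Subsingleton {χ : IrrCharacter G // (χ : G → ℂ) 1 = 1} :=
    (Nat.card_eq_one_iff_unique.mp hcl).1
  have := hsub.elim ⟨χ, hχ1⟩ ⟨trivIrr, trivIrr_apply 1⟩
  exact hχ (congrArg Subtype.val this)

/-- Fusion in a self-centralizing subgroup of prime order with normalizer of twice its order. -/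
theorem prime_fusion_two {G : Type*} [Group G] [Finite G] {p : ℕ} [hp : Fact p.Prime]
    (P : Subgroup G) (hPc : Nat.card P = p)
    (hCP : centralizer (P : Set G) = P)
    (hN : Nat.card (normalizer (P : Set G)) = 2 * p) :
    (∀ y ∈ P, y ≠ 1 → Nat.card (centralizer ({y} : Set G)) = p) ∧
    (∀ y ∈ P, y ≠ 1 → ∀ y' ∈ P, (IsConj y y' ↔ y' = y ∨ y' = y⁻¹)) := by
  have hp1 := hp.out.one_lt
  -- elements of `P` commute
  have hcomm : ∀ a ∈ P, ∀ b ∈ P, a * b = b * a := by
    intro a ha b hb
    have : b ∈ centralizer (P : Set G) := by rw [hCP]; exact hb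
    exact (mem_centralizer_iff.mp this) a ha
  -- a nontrivial element generates `P`
  have hgen : ∀ y ∈ P, y ≠ 1 → zpowers y = P := by
    intro y hy hy1
    apply Subgroup.eq_of_le_of_card_ge ((zpowers_le).mpr hy)
    rw [Nat.card_zpowers, hPc]
    have hd : orderOf y ∣ p := by
      have h1 : orderOf (⟨y, hy⟩ : P) ∣ Nat.card P := orderOf_dvd_natCard _
      rwa [hPc, ← Subgroup.orderOf_coe] at h1
    rcases (Nat.dvd_prime hp.out).mp hd with h1 | h1
    · exact absurd (orderOf_eq_one_iff.mp h1) hy1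
    · exact h1.ge
  have hcent : ∀ y ∈ P, y ≠ 1 → centralizer ({y} : Set G) = P := by
    intro y hy hy1
    apply le_antisymm
    · intro c hc
      rw [← hCP, mem_centralizer_iff]
      intro w hw
      rw [SetLike.mem_coe, ← hgen y hy hy1] at hw
      obtain ⟨k, rfl⟩ := hw
      rw [mem_centralizer_iff] at hc
      exact (Commute.zpow_left (show Commute y c from hc y rfl) k).eq
    · intro c hc
      rw [mem_centralizer_iff]
      intro w hw
      rw [Set.mem_singleton_iff] at hw
      subst hw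
      exact hcomm w hy c hc
  have hPN : P ≤ normalizer (P : Set G) := le_normalizer
  have hidx : (P.subgroupOf (normalizer (P : Set G))).index = 2 := by
    have h1 := (P.subgroupOf (normalizer (P : Set G))).card_mul_index
    have h2 : Nat.card (P.subgroupOf (normalizer (P : Set G))) = Nat.card P :=
      Nat.card_congr (Subgroup.subgroupOfEquivOfLe hPN).toEquiv
    rw [h2, hPc, hN] at h1
    have : p * (P.subgroupOf (normalizer (P : Set G))).index = p * 2 := by rw [h1]; ring
    exact Nat.eq_of_mul_eq_mul_left hp.out.pos this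
  -- elements of `N ∖ P` invert `P`
  have hinvert : ∀ g ∈ normalizer (P : Set G), g ∉ P → ∀ y ∈ P, g * y * g⁻¹ = y⁻¹ := by
    intro g hg hgP y hy
    have hgg : g * g ∈ P := by
      have := Subgroup.mul_self_mem_of_index_two hidx (⟨g, hg⟩ : normalizer (P : Set G))
      exact Subgroup.mem_subgroupOf.mp this
    have hy1 : g * y * g⁻¹ ∈ P := (mem_normalizer_iff.mp hg y).mp hy
    have hz : y * (g * y * g⁻¹) ∈ P := mul_mem hy hy1
    have hgz : g * (y * (g * y * g⁻¹)) * g⁻¹ = y * (g * y * g⁻¹) := by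
      have e1 : g * (y * (g * y * g⁻¹)) * g⁻¹ = (g * y * g⁻¹) * ((g * g) * y * (g * g)⁻¹) := by
        group
      have e2 : (g * g) * y * (g * g)⁻¹ = y := by
        rw [hcomm (g * g) hgg y hy, mul_assoc, mul_inv_cancel, mul_one]
      rw [e1, e2, hcomm _ hy1 y hy]
    by_cases hz1 : y * (g * y * g⁻¹) = 1
    · exact eq_inv_of_mul_eq_one_right hz1
    · exfalso
      apply hgP
      rw [← hcent _ hz hz1, mem_centralizer_iff]
      intro w hw
      rw [Set.mem_singleton_iff] at hw
      rw [hw]
      generalize y * (g * y * g⁻¹) = z at hgz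
      calc z * g = (g * z * g⁻¹) * g := by rw [hgz]
        _ = g * z := by group
  refine ⟨fun y hy hy1 => by rw [hcent y hy hy1, hPc], ?_⟩
  intro y hy hy1 y' hy'
  constructor
  · intro hc
    obtain ⟨g, hg⟩ := isConj_iff.mp hc
    have hy'1 : y' ≠ 1 := by
      rintro rfl
      apply hy1
      calc y = g⁻¹ * (g * y * g⁻¹) * g := by group
        _ = 1 := by rw [hg]; group
    have hgN : g ∈ normalizer (P : Set G) := by
      rw [mem_normalizer_iff]
      intro h
      constructor
      · intro hh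
        rw [← hgen y hy hy1] at hh
        obtain ⟨k, rfl⟩ := hh
        have e : g * y ^ k * g⁻¹ = (g * y * g⁻¹) ^ k := by rw [conj_zpow]
        rw [e, hg]
        exact zpow_mem hy' k
      · intro hh
        rw [← hgen y' hy' hy'1] at hh
        obtain ⟨k, hk⟩ := hh
        have hk' : y' ^ k = g * h * g⁻¹ := hk
        have e : h = (g⁻¹ * y' * g) ^ k := by
          have e1 : (g⁻¹ * y' * g) ^ k = g⁻¹ * y' ^ k * g := by
            have := conj_zpow (a := g⁻¹) (b := y') (i := k)
            rw [inv_inv] at this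
            exact this
          rw [e1, hk']
          group
        have e2 : g⁻¹ * y' * g = y := by rw [← hg]; group
        rw [e, e2]
        exact zpow_mem hy k
    by_cases hgP : g ∈ P
    · left
      rw [← hg, hcomm g hgP y hy, mul_assoc, mul_inv_cancel, mul_one]
    · right
      rw [← hg]
      exact hinvert g hgN hgP y hy
  · rintro (rfl | rfl)
    · exact IsConj.refl _
    · have hlt : P < normalizer (P : Set G) := by
        refine lt_of_le_of_ne hPN ?_
        intro heq
        rw [← heq, hPc] at hN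
        omega
      obtain ⟨g, hgN, hgP⟩ := SetLike.exists_of_lt hlt
      exact isConj_iff.mpr ⟨g, hinvert g hgN hgP y hy⟩

/-- In a non-abelian simple group with `|G| = p * m`, `p ∤ m`, `p` odd and `2 * n_p = m`
(so that `|N(P)| = 2p`), there is `d ≥ 2` with `d ∣ |G|`, `d + 1 ∣ |G|` and `d ≡ 1` or
`d ≡ -2` modulo `p`. -/
theorem simple_exc_two {G : Type*} [Group G] [Finite G] [IsSimpleGroup G]
    (hG : ¬ IsMulCommutative G) {p m : ℕ} [hp : Fact p.Prime] (hp2 : p ≠ 2)
    (h : Nat.card G = p * m) (hm : ¬ p ∣ m) (hn : Nat.card (Sylow p G) * 2 = m) :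
    ∃ d : ℕ, 2 ≤ d ∧ d ∣ Nat.card G ∧ (d + 1) ∣ Nat.card G ∧
      (d % p = 1 ∨ (d + 2) % p = 0) := by
  obtain ⟨P⟩ : Nonempty (Sylow p G) := inferInstance
  have h1 : Nat.card G = p ^ 1 * m := by rw [h, pow_one]
  have hPc : Nat.card (P : Subgroup G) = p := by
    have := sylow_card_of_eq h1 hm P
    rwa [pow_one] at this
  have hnpos : 0 < Nat.card (Sylow p G) := Nat.card_pos
  have hrel := relIndex_sylow_normalizer_mul h1 hm P
  have hrel2 : (P : Subgroup G).relIndex (normalizer ((P : Subgroup G) : Set G)) = 2 := by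
    rw [← hn, mul_comm] at hrel
    exact Nat.eq_of_mul_eq_mul_left hnpos hrel
  have hCP : centralizer ((P : Subgroup G) : Set G) = P :=
    simple_centralizer_sylow_eq hG P hPc (by rw [hrel2]; norm_num)
  have hN : Nat.card (normalizer ((P : Subgroup G) : Set G)) = 2 * p := by
    have h5 := card_normalizer_sylow_mul P
    rw [h, ← hn] at h5
    have : Nat.card (normalizer ((P : Subgroup G) : Set G)) * Nat.card (Sylow p G) =
        (2 * p) * Nat.card (Sylow p G) := by rw [h5]; ring
    exact Nat.eq_of_mul_eq_mul_right hnpos this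
  obtain ⟨hC, hF⟩ := prime_fusion_two (P : Subgroup G) hPc hCP hN
  exact exc_two_dvd p hp2 (P : Subgroup G) hPc hC hF (commutator_eq_top_of_simple hG)

end Cfsg.Agent.Lib.Helper23
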