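import Mathlib
import Cfsg.Agent.Lib.Helper32.BG10Basic

/-! # B&G Section 10, piece Q12B (helper23 for helper15, S1415):
a Hall `τ₁(M)`-subgroup of a complement `E` of `M_σ` is cyclic. -/

set_option autoImplicit false

open Cfsg Cfsg.Agent.Lib.Helper32 Cfsg.Agent.Lib.Helper32.BG10

open scoped commutatorElement

namespace Cfsg.Agent.Lib.Helper23.BG10

universe u

variable {G : Type u} [Group G] [Finite G]

theorem bg10_12b (hG : IsMinSimpleOddOrder G) {M : Subgroup G} (hM : IsCoatom M)
    {E : Subgroup G} (hE : IsComplIn E (sigmaCore M) M) (E₁ : Subgroup G)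
    (h1 : IsPiHallOf (tau1 M) E₁ E) : IsCyclic E₁ := by
  obtain ⟨hE1E, hprimes, _⟩ := h1
  have hE1M : E₁ ≤ M := hE1E.trans hE.1
  -- (1) `E₁ ⊓ ⁅M,M⁆ = ⊥`
  have hdisj : E₁ ⊓ ⁅M, M⁆ = ⊥ := by
    rw [← Subgroup.card_eq_one]
    by_contra hne
    obtain ⟨p, hp, hpd⟩ := Nat.exists_prime_and_dvd hne
    have h1 : p ∣ Nat.card E₁ := hpd.trans (Subgroup.card_dvd_of_le inf_le_left)
    have h2 : p ∣ Nat.card ↥⁅M, M⁆ := hpd.trans (Subgroup.card_dvd_of_le inf_le_right)
    exact (hprimes p hp h1).2.2.2.1 h2
  -- (2) `E₁` is commutative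
  have hcomm : ∀ a ∈ E₁, ∀ b ∈ E₁, a * b = b * a := by
    intro a ha b hb
    have h1 : ⁅a, b⁆ ∈ E₁ ⊓ ⁅M, M⁆ := by
      have h2 : ⁅a, b⁆ ∈ E₁ := by
        rw [commutatorElement_def]
        exact mul_mem (mul_mem (mul_mem ha hb) (inv_mem ha)) (inv_mem hb)
      exact Subgroup.mem_inf.mpr ⟨h2, Subgroup.commutator_mem_commutator (hE1M ha) (hE1M hb)⟩
    rw [hdisj, Subgroup.mem_bot] at h1
    exact commutatorElement_eq_one_iff_mul_comm.mp h1
  let _ : CommGroup ↥E₁ :=
    { (inferInstance : Group ↥E₁) with
      mul_comm := fun a b => Subtype.ext (hcomm a a.2 b b.2) }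
  have hnil : Group.IsNilpotent ↥E₁ := CommGroup.isNilpotent
  -- (3) every Sylow subgroup is cyclic
  have hZ : IsZGroup ↥E₁ := by
    rw [isZGroup_iff]
    intro p hp S
    have hfp : Fact p.Prime := ⟨hp⟩
    by_cases hpd : p ∣ Nat.card ↥E₁
    · have htau := hprimes p hp hpd
      have hp2 : p ≠ 2 := by
        rintro rfl
        have hodd : Odd (Nat.card G) := hG.1
        have h2 : 2 ∣ Nat.card G := hpd.trans (Subgroup.card_subgroup_dvd_card E₁)
        exact (Nat.not_even_iff_odd.mpr hodd) (even_iff_two_dvd.mpr h2)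
      have hS'p : IsPGroup p ↥((S : Subgroup ↥E₁).map E₁.subtype) := S.isPGroup'.map _
      have hS'M : (S : Subgroup ↥E₁).map E₁.subtype ≤ M :=
        (Subgroup.map_subtype_le _).trans hE1M
      have hcyc : IsCyclic ↥((S : Subgroup ↥E₁).map E₁.subtype) := by
        by_contra hnc
        have hr := not_rankLE_one_of_not_cyclic hp2 hS'p hnc
        obtain ⟨q, A, hq, hAS, hAc, hAe, hAcard⟩ :=
          exists_elemAb_of_not_rankLE ((S : Subgroup ↥E₁).map E₁.subtype) 1 hr
        have hAp : IsPGroup p ↥A := hS'p.to_le hAS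
        obtain ⟨m, hm⟩ := IsPGroup.iff_card.mp hAp
        have hqp : q = p := by
          have h1 : p ∣ q ^ (1 + 1) := by
            rw [← hAcard, hm]
            cases m with
            | zero =>
              exfalso
              rw [pow_zero] at hm
              rw [hm] at hAcard
              have h3 : 1 < q ^ (1 + 1) := Nat.one_lt_pow (by norm_num) hq.one_lt
              omega
            | succ m => exact dvd_pow_self p (Nat.succ_ne_zero m)
          exact ((Nat.prime_dvd_prime_iff_eq hp hq).mp (hp.dvd_of_dvd_pow h1)).symm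
        subst hqp
        have hAM : A ≤ M := hAS.trans hS'M
        have hc : IsMulCommutative ↥(A.subgroupOf M) := by
          refine ⟨⟨fun a b => ?_⟩⟩
          apply Subtype.ext
          apply Subtype.ext
          exact hAc _ a.2 _ b.2
        have he : ∀ a ∈ A.subgroupOf M, a ^ q = 1 := by
          intro a ha
          apply Subtype.ext
          rw [Subgroup.coe_pow, Subgroup.coe_one]
          exact hAe _ ha
        have hle := htau.2.2.2.2 (A.subgroupOf M) hc he
        rw [Nat.card_congr (Subgroup.subgroupOfEquivOfLe hAM).toEquiv, hAcard] at hle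
        have := hq.one_lt
        rw [pow_one, pow_succ, pow_one] at hle
        nlinarith
      exact isCyclic_of_surjective
        (Subgroup.equivMapOfInjective (S : Subgroup ↥E₁) E₁.subtype E₁.subtype_injective).symm
        (Subgroup.equivMapOfInjective (S : Subgroup ↥E₁) E₁.subtype
          E₁.subtype_injective).symm.surjective
    · obtain ⟨k, hk⟩ := IsPGroup.iff_card.mp S.isPGroup'
      cases k with
      | zero =>
        rw [pow_zero] at hk
        have : Subsingleton ↥(S : Subgroup ↥E₁) := (Nat.card_eq_one_iff_unique.mp hk).1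
        exact isCyclic_of_subsingleton
      | succ k =>
        exfalso
        apply hpd
        have h1 : p ∣ Nat.card ↥(S : Subgroup ↥E₁) := by
          rw [hk]; exact dvd_pow_self p (Nat.succ_ne_zero k)
        exact h1.trans (Subgroup.card_subgroup_dvd_card _)
  exact inferInstance

end Cfsg.Agent.Lib.Helper23.BG10
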