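import Mathlib
import Cfsg.Agent.Lib.Helper5.BQ0
import Cfsg.Agent.Lib.Helper10.BR1
import Cfsg.Agent.Lib.Helper5.BRL1

set_option autoImplicit false

namespace Cfsg.Agent.Lib.Helper5.BQ

open Cfsg
open Cfsg.Agent.Lib.Helper83 (trivIrr)
open Cfsg.Agent.Lib.Helper10.BR (psum DOut)
open scoped ComplexConjugate

section T

variable {G : Type*} [Group G] [Fintype G] {p e t n : ℕ} {P : Subgroup G} {ε : ℤ} {x₀ : ℕ}
  {A B Y D : Finset (IrrCharacter G)}

/-- BQ-P2b -/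
theorem kB_zero (h : GTab G p e t n P ε x₀ A B Y D)
    (hlinB : ∀ χ ∈ B, psum P (χ : G → ℂ) 1 = 0)
    (havg : ∀ ψ : G → ℂ, ∑ᶠ y : Subgroup.normalizer (P : Set G), psum P ψ (y : G) =
      (Nat.card P : ℂ) * psum (Subgroup.normalizer (P : Set G)) ψ 1) :
    ∀ χ ∈ B, psum (Subgroup.normalizer (P : Set G)) (χ : G → ℂ) 1 = 0 := by
  intro χ hχ
  have hp0 : (Nat.card P : ℂ) ≠ 0 := by
    rw [h.cardP]
    have := h.hp.pos
    exact_mod_cast this.ne'
  have h1 := havg (χ : G → ℂ)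
  have h2 : ∑ᶠ y : Subgroup.normalizer (P : Set G), psum P (χ : G → ℂ) (y : G) = 0 := by
    have : ∀ y : Subgroup.normalizer (P : Set G), psum P (χ : G → ℂ) (y : G) = 0 := fun y =>
      Cfsg.Agent.Lib.Helper10.BR.psum_zero P (χ : G → ℂ)
        (Cfsg.Agent.Lib.Helper10.BR.isChar_irr χ) (hlinB χ hχ) (y : G)
    simp only [this]
    exact finsum_zero
  rw [h2] at h1
  exact (mul_eq_zero.1 h1.symm).resolve_left hp0

end T

end Cfsg.Agent.Lib.Helper5.BQ
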