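import Mathlib
import Cfsg.Agent.Lib.Helper5.BQ0
import Cfsg.Agent.Lib.Helper10.BR1

set_option autoImplicit false

namespace Cfsg.Agent.Lib.Helper5.BQ

open Cfsg
open Cfsg.Agent.Lib.Helper83 (trivIrr)
open Cfsg.Agent.Lib.Helper10.BR (psum DOut)
open scoped ComplexConjugate

section T

variable {G : Type*} [Group G] [Fintype G] {p e t n : ℕ} {P : Subgroup G} {ε : ℤ} {x₀ : ℕ}
  {A B Y D : Finset (IrrCharacter G)}

/-- BQ-P8 -/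
theorem D_val (h : GTab G p e t n P ε x₀ A B Y D)
    (hlinD : ∀ ψ ∈ D, psum P (ψ : G → ℂ) 1 = (ψ : G → ℂ) 1)
    (hD : ∀ ψ ∈ D, (p : ℂ) * psum (Subgroup.normalizer (P : Set G)) (ψ : G → ℂ) 1 =
      ((e * p : ℕ) : ℂ) * (ψ : G → ℂ) 1)
    (hce : ∀ ψ : G → ℂ, IsCharacter G ψ →
      psum (Subgroup.normalizer (P : Set G)) ψ 1 = (e : ℂ) * psum P ψ 1 →
      ∀ y ∈ Subgroup.normalizer (P : Set G), psum P ψ y = psum P ψ 1)
    (hout : ∀ ψ : G → ℂ, IsClassFunction G ψ → ∀ y ∈ Subgroup.normalizer (P : Set G),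
      y ∉ P → psum P ψ y = (p : ℂ) * ψ y) :
    ∀ ψ ∈ D, ∀ y ∈ Subgroup.normalizer (P : Set G), y ∉ P →
      (p : ℂ) * (ψ : G → ℂ) y = (ψ : G → ℂ) 1 := by
  intro ψ hψ y hy hyP
  have hp0 : (p : ℂ) ≠ 0 := by
    have := h.hp.pos
    exact_mod_cast this.ne'
  have hK : psum (Subgroup.normalizer (P : Set G)) (ψ : G → ℂ) 1 = (e : ℂ) * psum P (ψ : G → ℂ) 1 := by
    rw [hlinD ψ hψ]
    have h1 := hD ψ hψ
    have h2 : (p : ℂ) * psum (Subgroup.normalizer (P : Set G)) (ψ : G → ℂ) 1 =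
        (p : ℂ) * ((e : ℂ) * (ψ : G → ℂ) 1) := by
      rw [h1]; push_cast; ring
    exact mul_left_cancel₀ hp0 h2
  have h3 := hce (ψ : G → ℂ) (Cfsg.Agent.Lib.Helper10.BR.isChar_irr ψ) hK y hy
  have h4 := hout (ψ : G → ℂ) (Cfsg.Agent.Lib.Helper10.BR.isClass_irr ψ) y hy hyP
  rw [← h4, h3, hlinD ψ hψ]

end T

end Cfsg.Agent.Lib.Helper5.BQ
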