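import Mathlib
import Cfsg.Agent.Lib.Helper80.CTDefs

set_option autoImplicit false

namespace Cfsg.Agent.Lib.Helper23.CTPSLCT

open Cfsg.Agent.Lib.Helper80.CT

theorem exists_scalar {F : Type*} [Field F] (a b c d x y z w : F)
    (hB : ¬ (b = 0 ∧ c = 0 ∧ a = d)) (h1 : y * c = b * z) (h2 : b * (x - w) = y * (a - d))
    (h3 : z * (a - d) = c * (x - w)) : ∃ l : F, y = l * b ∧ z = l * c ∧ x - w = l * (a - d) := by
  by_cases hb : b = 0
  · by_cases hc : c = 0
    · have had : a - d ≠ 0 := fun h => hB ⟨hb, hc, sub_eq_zero.1 h⟩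
      refine ⟨(x - w) / (a - d), ?_, ?_, ?_⟩
      · rw [hb, mul_zero]
        have : y * (a - d) = 0 := by rw [← h2, hb, zero_mul]
        exact (mul_eq_zero.1 this).resolve_right had
      · rw [hc, mul_zero]
        have : z * (a - d) = 0 := by rw [h3, hc, zero_mul]
        exact (mul_eq_zero.1 this).resolve_right had
      · rw [div_mul_cancel₀ _ had]
    · refine ⟨z / c, ?_, ?_, ?_⟩
      · rw [hb, mul_zero]
        have : y * c = 0 := by rw [h1, hb, zero_mul]
        exact (mul_eq_zero.1 this).resolve_right hc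
      · rw [div_mul_cancel₀ _ hc]
      · rw [div_mul_eq_mul_div, eq_div_iff hc]
        linear_combination -h3
  · refine ⟨y / b, ?_, ?_, ?_⟩
    · rw [div_mul_cancel₀ _ hb]
    · rw [div_mul_eq_mul_div, eq_div_iff hb]
      linear_combination -h1
    · rw [div_mul_eq_mul_div, eq_div_iff hb]
      linear_combination h2

theorem mat_comm_trans {F : Type*} [Field F] (A B C : Matrix (Fin 2) (Fin 2) F)
    (hB : ¬ (B 0 1 = 0 ∧ B 1 0 = 0 ∧ B 0 0 = B 1 1)) (hAB : A * B = B * A)
    (hBC : B * C = C * B) : A * C = C * A := by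
  have e00 := congrFun (congrFun hAB 0) 0
  have e01 := congrFun (congrFun hAB 0) 1
  have e10 := congrFun (congrFun hAB 1) 0
  have f00 := congrFun (congrFun hBC 0) 0
  have f01 := congrFun (congrFun hBC 0) 1
  have f10 := congrFun (congrFun hBC 1) 0
  simp only [Matrix.mul_apply, Fin.sum_univ_two] at e00 e01 e10 f00 f01 f10
  obtain ⟨l, hl1, hl2, hl3⟩ := exists_scalar (B 0 0) (B 0 1) (B 1 0) (B 1 1)
    (A 0 0) (A 0 1) (A 1 0) (A 1 1) hB (by linear_combination e00)
    (by linear_combination e01) (by linear_combination e10)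
  obtain ⟨m, hm1, hm2, hm3⟩ := exists_scalar (B 0 0) (B 0 1) (B 1 0) (B 1 1)
    (C 0 0) (C 0 1) (C 1 0) (C 1 1) hB (by linear_combination -f00)
    (by linear_combination -f01) (by linear_combination -f10)
  have hA00 : A 0 0 = A 1 1 + l * (B 0 0 - B 1 1) := by linear_combination hl3
  have hC00 : C 0 0 = C 1 1 + m * (B 0 0 - B 1 1) := by linear_combination hm3
  have g00 : A 0 0 * C 0 0 + A 0 1 * C 1 0 = C 0 0 * A 0 0 + C 0 1 * A 1 0 := by
    rw [hl1, hl2, hm1, hm2]; ring
  have g01 : A 0 0 * C 0 1 + A 0 1 * C 1 1 = C 0 0 * A 0 1 + C 0 1 * A 1 1 := by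
    rw [hl1, hm1, hA00, hC00]; ring
  have g10 : A 1 0 * C 0 0 + A 1 1 * C 1 0 = C 1 0 * A 0 0 + C 1 1 * A 1 0 := by
    rw [hl2, hm2, hA00, hC00]; ring
  have g11 : A 1 0 * C 0 1 + A 1 1 * C 1 1 = C 1 0 * A 0 1 + C 1 1 * A 1 1 := by
    rw [hl1, hl2, hm1, hm2]; ring
  ext i j
  fin_cases i <;> fin_cases j
  · show (A * C) 0 0 = (C * A) 0 0
    rw [Matrix.mul_apply, Matrix.mul_apply, Fin.sum_univ_two, Fin.sum_univ_two]
    exact g00
  · show (A * C) 0 1 = (C * A) 0 1
    rw [Matrix.mul_apply, Matrix.mul_apply, Fin.sum_univ_two, Fin.sum_univ_two]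
    exact g01
  · show (A * C) 1 0 = (C * A) 1 0
    rw [Matrix.mul_apply, Matrix.mul_apply, Fin.sum_univ_two, Fin.sum_univ_two]
    exact g10
  · show (A * C) 1 1 = (C * A) 1 1
    rw [Matrix.mul_apply, Matrix.mul_apply, Fin.sum_univ_two, Fin.sum_univ_two]
    exact g11

/-- piece PSLCT -/
theorem PSL_isCT (F : Type) [Field F] [Fintype F] (f : ℕ) (hF : Fintype.card F = 2 ^ f) :
    IsCT (Matrix.ProjectiveSpecialLinearGroup (Fin 2) F) := by
  classical
  have h2 : (2 : F) = 0 := by
    have h := Nat.cast_card_eq_zero F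
    rw [hF] at h
    push_cast at h
    have hf0 : f ≠ 0 := by
      rintro rfl
      rw [pow_zero] at hF
      have := Fintype.one_lt_card (α := F)
      omega
    exact (pow_eq_zero_iff hf0).1 h
  -- a non-identity element of SL₂ is not scalar
  have hns : ∀ B : Matrix.SpecialLinearGroup (Fin 2) F, B ≠ 1 →
      ¬ ((B : Matrix (Fin 2) (Fin 2) F) 0 1 = 0 ∧ (B : Matrix (Fin 2) (Fin 2) F) 1 0 = 0 ∧
        (B : Matrix (Fin 2) (Fin 2) F) 0 0 = (B : Matrix (Fin 2) (Fin 2) F) 1 1) := by
    rintro B hB1 ⟨h01, h10, h00⟩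
    apply hB1
    have hdet := B.2
    rw [Matrix.det_fin_two, h01, h10, ← h00] at hdet
    have ha : (B : Matrix (Fin 2) (Fin 2) F) 0 0 = 1 := by
      have : ((B : Matrix (Fin 2) (Fin 2) F) 0 0 - 1) ^ 2 = 0 := by
        linear_combination hdet - (B : Matrix (Fin 2) (Fin 2) F) 0 0 * h2 + h2
      have := pow_eq_zero_iff (two_ne_zero) |>.1 this
      exact sub_eq_zero.1 this
    ext i j
    fin_cases i <;> fin_cases j
    · simpa using ha
    · simpa using h01
    · simpa using h10
    · simpa using (h00.symm.trans ha)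
  have hcenter : Subgroup.center (Matrix.SpecialLinearGroup (Fin 2) F) = ⊥ := by
    rw [eq_bot_iff]
    intro A hA
    rw [Subgroup.mem_bot]
    by_contra hA1
    apply hns A hA1
    rw [Matrix.SpecialLinearGroup.mem_center_iff] at hA
    obtain ⟨r, hr, hrA⟩ := hA
    rw [← hrA]
    simp
  have hinj : ∀ A B : Matrix.SpecialLinearGroup (Fin 2) F,
      (QuotientGroup.mk A : Matrix.ProjectiveSpecialLinearGroup (Fin 2) F) = QuotientGroup.mk B →
        A = B := by
    intro A B h
    rw [QuotientGroup.eq, hcenter, Subgroup.mem_bot] at h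
    exact (inv_mul_eq_one.1 h)
  intro a b c ha hb hc hab hbc
  induction a using QuotientGroup.induction_on with
  | _ A =>
  induction b using QuotientGroup.induction_on with
  | _ B =>
  induction c using QuotientGroup.induction_on with
  | _ C =>
  have hB1 : B ≠ 1 := by
    rintro rfl
    exact hb rfl
  have hAB : A * B = B * A := hinj _ _ hab
  have hBC : B * C = C * B := hinj _ _ hbc
  have hAC : A * C = C * A := by
    apply Subtype.ext
    exact mat_comm_trans _ _ _ (hns B hB1) (congrArg Subtype.val hAB) (congrArg Subtype.val hBC)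
  exact congrArg (QuotientGroup.mk : Matrix.SpecialLinearGroup (Fin 2) F →
    Matrix.ProjectiveSpecialLinearGroup (Fin 2) F) hAC

end Cfsg.Agent.Lib.Helper23.CTPSLCT
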