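import Mathlib

/-!
# Piece CT-BETA for S4561 (helper83): a perfect pairing of a group of prime order with
`Multiplicative (ZMod p)`.
-/

set_option autoImplicit false

namespace Cfsg.Agent.Lib.Helper23.Ct

open ZMod

/-- the standard additive character of `ZMod p`, as a unit -/
noncomputable def stdU (p : ℕ) [NeZero p] (x : ZMod p) : ℂˣ :=
  Units.mkOfMulEqOne (stdAddChar x) (stdAddChar (-x))
    (by rw [← AddChar.map_add_eq_mul, add_neg_cancel, AddChar.map_zero_eq_one])

theorem stdU_val (p : ℕ) [NeZero p] (x : ZMod p) : ((stdU p x : ℂˣ) : ℂ) = stdAddChar x := rfl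

theorem stdU_add (p : ℕ) [NeZero p] (x y : ZMod p) : stdU p (x + y) = stdU p x * stdU p y := by
  apply Units.ext
  rw [Units.val_mul, stdU_val, stdU_val, stdU_val, AddChar.map_add_eq_mul]

theorem stdU_zero (p : ℕ) [NeZero p] : stdU p 0 = 1 := by
  apply Units.ext
  rw [stdU_val, AddChar.map_zero_eq_one, Units.val_one]

theorem stdU_ne_one (p : ℕ) [NeZero p] {x : ZMod p} (hx : x ≠ 0) : stdU p x ≠ 1 := by
  intro h
  apply hx
  have h1 : (stdAddChar x : ℂ) = stdAddChar (0 : ZMod p) := by
    rw [AddChar.map_zero_eq_one, ← stdU_val, h, Units.val_one]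
  exact injective_stdAddChar h1

theorem ct_beta {C : Type*} [Group C] [Fintype C] (p : ℕ) [Fact p.Prime]
    (hC : Nat.card C = p) :
    ∃ β : C →* (Multiplicative (ZMod p) →* ℂˣ),
      (∀ a : Multiplicative (ZMod p),
        ∑ r : C, ((β r a : ℂˣ) : ℂ) = if a = 1 then (p : ℂ) else 0) ∧
      (∀ r : C, r ≠ 1 → ∃ a : Multiplicative (ZMod p), β r a ≠ 1) := by
  classical
  have : NeZero p := ⟨(Fact.out : p.Prime).ne_zero⟩
  have hA : Nat.card (Multiplicative (ZMod p)) = p := by
    rw [Nat.card_eq_fintype_card]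
    exact (Fintype.card_congr Multiplicative.toAdd).trans (ZMod.card p)
  let e : C ≃* Multiplicative (ZMod p) := mulEquivOfPrimeCardEq hC hA
  let t : C → ZMod p := fun r => Multiplicative.toAdd (e r)
  have ht_one : t 1 = 0 := by
    show Multiplicative.toAdd (e 1) = 0
    rw [map_one]
    rfl
  have ht_mul : ∀ r s : C, t (r * s) = t r + t s := by
    intro r s
    show Multiplicative.toAdd (e (r * s)) = _
    rw [map_mul]
    rfl
  let β₀ : C → (Multiplicative (ZMod p) →* ℂˣ) := fun r =>
    { toFun := fun a => stdU p (t r * (Multiplicative.toAdd a : ZMod p))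
      map_one' := by
        show stdU p (t r * (Multiplicative.toAdd (1 : Multiplicative (ZMod p)) : ZMod p)) = 1
        rw [toAdd_one, mul_zero, stdU_zero]
      map_mul' := fun a b => by
        show stdU p (t r * (Multiplicative.toAdd (a * b) : ZMod p)) =
          stdU p (t r * (Multiplicative.toAdd a : ZMod p)) * stdU p (t r * (Multiplicative.toAdd b : ZMod p))
        rw [toAdd_mul, mul_add, stdU_add] }
  let β : C →* (Multiplicative (ZMod p) →* ℂˣ) :=
    { toFun := β₀
      map_one' := by
        ext a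
        show ((stdU p (t 1 * (Multiplicative.toAdd a : ZMod p)) : ℂˣ) : ℂ) = _
        rw [ht_one, zero_mul, stdU_zero]
        rfl
      map_mul' := fun r s => by
        ext a
        show ((stdU p (t (r * s) * (Multiplicative.toAdd a : ZMod p)) : ℂˣ) : ℂ) =
          ((stdU p (t r * (Multiplicative.toAdd a : ZMod p)) * stdU p (t s * (Multiplicative.toAdd a : ZMod p)) : ℂˣ) : ℂ)
        rw [ht_mul, add_mul, stdU_add] }
  refine ⟨β, ?_, ?_⟩
  · intro a
    obtain ⟨b, hb⟩ : ∃ b : ZMod p, b = Multiplicative.toAdd a := ⟨_, rfl⟩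
    have h1 : ∑ r : C, ((β r a : ℂˣ) : ℂ) = ∑ x : ZMod p, (stdAddChar (x * b) : ℂ) := by
      refine Fintype.sum_equiv (e.toEquiv.trans Multiplicative.toAdd) _ _ ?_
      intro r
      rw [hb]
      rfl
    rw [h1, AddChar.sum_mulShift b (isPrimitive_stdAddChar p), ZMod.card]
    by_cases ha : a = 1
    · have hb0 : b = 0 := by rw [hb, ha]; rfl
      rw [if_pos ha, if_pos hb0]
    · have hb0 : b ≠ 0 := by
        intro h0
        apply ha
        apply Multiplicative.toAdd.injective
        rw [← hb, h0]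
        rfl
      rw [if_neg ha, if_neg hb0, Nat.cast_zero]
  · intro r hr
    refine ⟨Multiplicative.ofAdd (1 : ZMod p), ?_⟩
    show stdU p (t r * (Multiplicative.toAdd (Multiplicative.ofAdd (1 : ZMod p)) : ZMod p)) ≠ 1
    rw [toAdd_ofAdd, mul_one]
    apply stdU_ne_one
    intro h0
    apply hr
    have h1 : e r = 1 := Multiplicative.toAdd.injective h0
    exact e.injective (by rw [h1, map_one])

end Cfsg.Agent.Lib.Helper23.Ct
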