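import Mathlib

/-!
# Piece CT-NORM for S4561 (helper83): a norm computation over functions `C → H × A`.
-/

set_option autoImplicit false

namespace Cfsg.Agent.Lib.Helper23.Ct

open scoped ComplexConjugate

/-- the number of functions `C → A` with trivial product -/
theorem ct_count {C A : Type*} [Fintype C] [DecidableEq C] [Nonempty C] [CommGroup A]
    [Fintype A] [DecidableEq A] :
    (Finset.univ.filter (fun f : C → A => ∏ y, f y = 1)).card =
      Fintype.card A ^ (Fintype.card C - 1) := by
  classical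
  let φ : (C → A) →* A :=
    { toFun := fun f => ∏ y, f y
      map_one' := by simp
      map_mul' := fun f g => by simp [Finset.prod_mul_distrib] }
  have hsurj : Function.Surjective φ := by
    intro a
    obtain ⟨y0⟩ := ‹Nonempty C›
    refine ⟨Pi.mulSingle y0 a, ?_⟩
    show ∏ y, Pi.mulSingle y0 a y = a
    rw [Finset.prod_pi_mulSingle']
    simp
  have h1 : Nat.card (C → A) = Nat.card ((C → A) ⧸ φ.ker) * Nat.card φ.ker :=
    Subgroup.card_eq_card_quotient_mul_card_subgroup φ.ker
  have h2 : Nat.card ((C → A) ⧸ φ.ker) = Fintype.card A := by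
    rw [Nat.card_congr (QuotientGroup.quotientKerEquivOfSurjective φ hsurj).toEquiv,
      Nat.card_eq_fintype_card]
  have h3 : Nat.card (C → A) = Fintype.card A ^ Fintype.card C := by
    rw [Nat.card_eq_fintype_card, Fintype.card_fun]
  have h4 : Nat.card φ.ker = (Finset.univ.filter (fun f : C → A => ∏ y, f y = 1)).card := by
    rw [Nat.card_eq_fintype_card]
    apply Fintype.card_of_subtype
    intro f
    rw [Finset.mem_filter, MonoidHom.mem_ker]
    simp only [Finset.mem_univ, true_and]
    rfl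
  rw [h2, h3, h4] at h1
  have hC : 0 < Fintype.card C := Fintype.card_pos
  have hA : 0 < Fintype.card A := Fintype.card_pos
  have h5 : Fintype.card A ^ Fintype.card C = Fintype.card A * Fintype.card A ^ (Fintype.card C - 1) := by
    rw [← pow_succ']
    congr 1
    omega
  rw [h5] at h1
  exact (Nat.eq_of_mul_eq_mul_left hA h1).symm

theorem ct_norm_sum {H C A : Type*} [Fintype H] [Fintype C] [DecidableEq C] [Nonempty C]
    [CommGroup A] [Fintype A] [DecidableEq A]
    (X : H → ℂ) (hX : ∑ h, X h * conj (X h) = (Fintype.card H : ℂ))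
    (μ : (C → H × A) → ℂ) (hμ : ∀ f, μ f * conj (μ f) = 1) (c : ℂ) (hc : conj c = c) :
    ∑ f : C → H × A,
      ((if ∏ y, (f y).2 = 1 then c else 0) * (∏ y, X (f y).1) * μ f) *
        conj ((if ∏ y, (f y).2 = 1 then c else 0) * (∏ y, X (f y).1) * μ f) =
      c ^ 2 * (Fintype.card H : ℂ) ^ Fintype.card C *
        (Fintype.card A : ℂ) ^ (Fintype.card C - 1) := by
  classical
  have hterm : ∀ f : C → H × A,
      ((if ∏ y, (f y).2 = 1 then c else 0) * (∏ y, X (f y).1) * μ f) *
        conj ((if ∏ y, (f y).2 = 1 then c else 0) * (∏ y, X (f y).1) * μ f) =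
      (if ∏ y, (f y).2 = 1 then c ^ 2 else 0) * ∏ y, (X (f y).1 * conj (X (f y).1)) := by
    intro f
    by_cases h : ∏ y, (f y).2 = 1
    · rw [if_pos h, if_pos h, map_mul, map_mul, hc, map_prod, Finset.prod_mul_distrib]
      have h1 := hμ f
      linear_combination (c ^ 2 * (∏ y, X (f y).1) * ∏ y, conj (X (f y).1)) * h1
    · rw [if_neg h, if_neg h]
      simp
  rw [Finset.sum_congr rfl (fun f _ => hterm f)]
  have hre : ∑ f : C → H × A,
      (if ∏ y, (f y).2 = 1 then c ^ 2 else 0) * ∏ y, (X (f y).1 * conj (X (f y).1)) =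
      ∑ q : (C → H) × (C → A),
        (if ∏ y, q.2 y = 1 then c ^ 2 else 0) * ∏ y, (X (q.1 y) * conj (X (q.1 y))) :=
    Fintype.sum_equiv (Equiv.arrowProdEquivProdArrow _ _ _) _ _ (fun f => rfl)
  rw [hre, Fintype.sum_prod_type]
  simp only [← Finset.sum_mul, ← Finset.mul_sum]
  have hS : ∑ f2 : C → A, (if ∏ y, f2 y = 1 then c ^ 2 else 0) =
      (Fintype.card A : ℂ) ^ (Fintype.card C - 1) * c ^ 2 := by
    rw [Finset.sum_ite, Finset.sum_const, Finset.sum_const_zero, add_zero, nsmul_eq_mul,
      ct_count]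
    push_cast
    ring
  have hP : ∑ f1 : C → H, ∏ y, (X (f1 y) * conj (X (f1 y))) =
      (Fintype.card H : ℂ) ^ Fintype.card C := by
    rw [← Fintype.prod_sum (fun (_ : C) (h : H) => X h * conj (X h)), Finset.prod_const,
      Finset.card_univ, hX]
  rw [hS, hP]
  ring

end Cfsg.Agent.Lib.Helper23.Ct
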