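import Mathlib
import Cfsg.Agent.S0144

set_option autoImplicit false

namespace Cfsg.Agent.Lib.Helper23

/-- Burnside's `p^a q^b` theorem in the form: at most two prime divisors. -/
theorem epo_solvable_of_primeFactors_le_two {H : Type*} [Group H] [Finite H]
    (h : (Nat.card H).primeFactors.card ≤ 2) : Group.IsSolvable H := by
  classical
  have hn : Nat.card H ≠ 0 := Nat.card_pos.ne'
  have hprod : ∏ p ∈ (Nat.card H).primeFactors, p ^ (Nat.card H).factorization p = Nat.card H := by
    have := Nat.prod_factorization_pow_eq_self hn
    rwa [Nat.prod_factorization_eq_prod_primeFactors] at this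
  have hcases : (Nat.card H).primeFactors.card = 0 ∨ (Nat.card H).primeFactors.card = 1 ∨
      (Nat.card H).primeFactors.card = 2 := by omega
  rcases hcases with h0 | h1 | h2
  · rw [Finset.card_eq_zero] at h0
    rw [h0, Finset.prod_empty] at hprod
    exact Cfsg.Agent.S0144.result 2 2 0 0 Nat.prime_two Nat.prime_two (by rw [← hprod]; norm_num)
  · obtain ⟨p, hp⟩ := Finset.card_eq_one.1 h1
    have hpp : p.Prime := Nat.prime_of_mem_primeFactors (by rw [hp]; exact Finset.mem_singleton_self p)
    rw [hp, Finset.prod_singleton] at hprod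
    exact Cfsg.Agent.S0144.result p p ((Nat.card H).factorization p) 0 hpp hpp
      (by rw [pow_zero, mul_one]; exact hprod.symm)
  · obtain ⟨p, q, hpq, hp⟩ := Finset.card_eq_two.1 h2
    have hpp : p.Prime := Nat.prime_of_mem_primeFactors (by rw [hp]; simp)
    have hqp : q.Prime := Nat.prime_of_mem_primeFactors (by rw [hp]; simp)
    rw [hp, Finset.prod_pair hpq] at hprod
    exact Cfsg.Agent.S0144.result p q ((Nat.card H).factorization p)
      ((Nat.card H).factorization q) hpp hqp hprod.symm

end Cfsg.Agent.Lib.Helper23
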