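import Mathlib
import Cfsg.Agent.Lib.Helper4.CharClosure
import Cfsg.Agent.Lib.Helper5.CharInd
import Cfsg.Agent.Lib.Helper35.Virt
import Cfsg.Agent.Lib.Helper35.Abel
import Cfsg.Agent.Lib.Helper23.ExcComb3
import Cfsg.Agent.Lib.Helper23.ExcChar

namespace Cfsg.Agent.Lib.Helper23

open Cfsg Cfsg.Agent.Lib.Helper4
open scoped ComplexConjugate

/-- Twisting an irreducible character by an automorphism. -/
noncomputable def irrTwist {H : Type*} [Group H] (σ : H ≃* H) (l : IrrCharacter H) :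
    IrrCharacter H :=
  ⟨fun h => (l : H → ℂ) (σ h),
    Cfsg.Agent.Lib.Helper5.isIrrCharacter_comp_of_surjective _ l.2 σ.toMonoidHom σ.surjective⟩

theorem irrTwist_apply {H : Type*} [Group H] (σ : H ≃* H) (l : IrrCharacter H) (h : H) :
    (irrTwist σ l : H → ℂ) h = (l : H → ℂ) (σ h) := rfl

theorem irrTwist_triv {H : Type*} [Group H] (σ : H ≃* H) :
    irrTwist σ (trivIrr : IrrCharacter H) = trivIrr := rfl

section
variable {G : Type*} [Group G] [Fintype G]

/-- Collapsing the double sum via column orthogonality, for a subgroup `P` of prime order whose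
nontrivial elements are self-centralizing and fuse exactly along the orbits of a map `σ` of
order three. -/
theorem exc_key3 [Fintype (IrrCharacter G)] (p : ℕ) (P : Subgroup G) [Fintype P]
    (hP : Nat.card P = p) (hp0 : p ≠ 0) (σ : P → P)
    (hC : ∀ y ∈ P, y ≠ 1 → Nat.card (Subgroup.centralizer ({y} : Set G)) = p)
    (hF : ∀ y : P, y ≠ 1 → ∀ y' : P,
      (IsConj (y : G) (y' : G) ↔ y' = y ∨ y' = σ y ∨ y' = σ (σ y)))
    (hσ1 : ∀ y : P, y ≠ 1 → σ y ≠ y) (hσ2 : ∀ y : P, y ≠ 1 → σ (σ y) ≠ y)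
    (hσ3 : ∀ y : P, y ≠ 1 → σ (σ y) ≠ σ y)
    (f f' : P → ℂ) (hf1 : f 1 = 0) :
    ∑ χ : IrrCharacter G, classInner (fun h : P => (χ : G → ℂ) h) f *
        conj (classInner (fun h : P => (χ : G → ℂ) h) f') =
      classInner (fun y => f' y + f' (σ y) + f' (σ (σ y))) f := by
  classical
  have hcardP : (Nat.card P : ℂ) = (p : ℂ) := by rw [hP]
  have hp0' : (p : ℂ) ≠ 0 := Nat.cast_ne_zero.mpr hp0
  simp only [classInner]
  have h1 : ∀ χ : IrrCharacter G,
      ((Nat.card P : ℂ)⁻¹ * ∑ y : P, (χ : G → ℂ) y * conj (f y)) *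
        conj ((Nat.card P : ℂ)⁻¹ * ∑ y : P, (χ : G → ℂ) y * conj (f' y)) =
      (Nat.card P : ℂ)⁻¹ * (Nat.card P : ℂ)⁻¹ *
        ∑ y : P, ∑ y' : P, conj (f y) * f' y' *
          ((χ : G → ℂ) y * conj ((χ : G → ℂ) y')) := by
    intro χ
    rw [map_mul, map_inv₀, Complex.conj_natCast, map_sum, mul_mul_mul_comm, Finset.sum_mul_sum]
    congr 1
    refine Finset.sum_congr rfl fun y _ => Finset.sum_congr rfl fun y' _ => ?_
    rw [map_mul, Complex.conj_conj]
    ring
  rw [Finset.sum_congr rfl (fun χ _ => h1 χ), ← Finset.mul_sum, Finset.sum_comm]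
  have h2 : ∀ y : P, ∑ χ : IrrCharacter G, ∑ y' : P, conj (f y) * f' y' *
      ((χ : G → ℂ) y * conj ((χ : G → ℂ) y')) =
      (p : ℂ) * ((f' y + f' (σ y) + f' (σ (σ y))) * conj (f y)) := by
    intro y
    rw [Finset.sum_comm]
    have h3 : ∀ y' : P, ∑ χ : IrrCharacter G, conj (f y) * f' y' *
        ((χ : G → ℂ) y * conj ((χ : G → ℂ) y')) = conj (f y) * f' y' *
        (if IsConj (y : G) (y' : G) then
          (Nat.card (Subgroup.centralizer ({(y : G)} : Set G)) : ℂ) else 0) := by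
      intro y'
      rw [← Finset.mul_sum, col_orth]
    rw [Finset.sum_congr rfl (fun y' _ => h3 y')]
    by_cases hy : y = 1
    · subst hy
      simp [hf1]
    · have hy' : (y : G) ≠ 1 := fun h => hy (Subtype.ext h)
      have h5 : ∀ y' : P, conj (f y) * f' y' *
          (if IsConj (y : G) (y' : G) then
            (Nat.card (Subgroup.centralizer ({(y : G)} : Set G)) : ℂ) else 0) =
          if (y' = y ∨ y' = σ y ∨ y' = σ (σ y)) then conj (f y) * f' y' * (p : ℂ) else 0 := by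
        intro y'
        rw [hC y y.2 hy']
        by_cases hc : y' = y ∨ y' = σ y ∨ y' = σ (σ y)
        · rw [if_pos ((hF y hy y').mpr hc), if_pos hc]
        · rw [if_neg (fun h => hc ((hF y hy y').mp h)), if_neg hc, mul_zero]
      rw [Finset.sum_congr rfl (fun y' _ => h5 y'), ← Finset.sum_filter]
      have hfil : Finset.univ.filter (fun y' : P => y' = y ∨ y' = σ y ∨ y' = σ (σ y)) =
          {y, σ y, σ (σ y)} := by
        ext y'
        simp
      have hnm : y ∉ ({σ y, σ (σ y)} : Finset P) := by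
        simp only [Finset.mem_insert, Finset.mem_singleton, not_or]
        exact ⟨fun h => hσ1 y hy h.symm, fun h => hσ2 y hy h.symm⟩
      rw [hfil, Finset.sum_insert hnm, Finset.sum_pair (fun h => hσ3 y hy h.symm)]
      ring
  rw [Finset.sum_congr rfl (fun y _ => h2 y), ← Finset.mul_sum, hcardP]
  field_simp


/-- Exceptional characters for a self-centralizing subgroup `P` of prime order `p > 13` whose
fusion is given by an automorphism `σ` of order three acting freely: there are three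
nonprincipal irreducible characters with signed degrees `x₁, x₂, x₃` satisfying
`1 + x₁ + x₂ + x₃ = 0`, `x₁ ≡ x₂ ≡ 1` and `x₃ ≡ -3` modulo `p`. -/
theorem exc_three (p : ℕ) [hp : Fact p.Prime] (hp13 : 13 < p) (P : Subgroup G)
    (hP : Nat.card P = p) (σ : P ≃* P)
    (hC : ∀ y ∈ P, y ≠ 1 → Nat.card (Subgroup.centralizer ({y} : Set G)) = p)
    (hF : ∀ y : P, y ≠ 1 → ∀ y' : P,
      (IsConj (y : G) (y' : G) ↔ y' = y ∨ y' = σ y ∨ y' = σ (σ y)))
    (hσ3 : ∀ y : P, σ (σ (σ y)) = y) (hσ1 : ∀ y : P, y ≠ 1 → σ y ≠ y) :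
    ∃ (χ₁ χ₂ χ₃ : IrrCharacter G) (s₁ s₂ s₃ : ℤ), χ₁ ≠ trivIrr ∧ χ₂ ≠ trivIrr ∧ χ₃ ≠ trivIrr ∧
      (s₁ = 1 ∨ s₁ = -1) ∧ (s₂ = 1 ∨ s₂ = -1) ∧ (s₃ = 1 ∨ s₃ = -1) ∧
      1 + s₁ * (irrDeg χ₁ : ℤ) + s₂ * (irrDeg χ₂ : ℤ) + s₃ * (irrDeg χ₃ : ℤ) = 0 ∧
      (p : ℤ) ∣ s₁ * (irrDeg χ₁ : ℤ) - 1 ∧ (p : ℤ) ∣ s₂ * (irrDeg χ₂ : ℤ) - 1 ∧
      (p : ℤ) ∣ s₃ * (irrDeg χ₃ : ℤ) + 3 := by
  classical
  haveI : Finite (IrrCharacter G) := irr_finite
  letI : Fintype (IrrCharacter G) := Fintype.ofFinite _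
  letI : Fintype P := Fintype.ofFinite _
  haveI : Finite (IrrCharacter P) := irr_finite
  letI : Fintype (IrrCharacter P) := Fintype.ofFinite _
  have hp0 : p ≠ 0 := hp.out.ne_zero
  have hp1 : 1 < p := hp.out.one_lt
  have hcyc : IsCyclic P := isCyclic_of_prime_card hP
  have hcomm : ∀ a b : P, a * b = b * a := fun a b =>
    (isMulCommutative_of_isCyclic (α := P)).is_comm.comm a b
  have hl1 : ∀ l : IrrCharacter P, (l : P → ℂ) 1 = 1 := fun l =>
    Cfsg.Agent.Lib.Helper35.irr_one_of_comm hcomm l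
  have hcardIrr : Fintype.card (IrrCharacter P) = p := by
    rw [← Nat.card_eq_fintype_card, card_irr,
      Cfsg.Agent.Lib.Helper35.card_conjClasses_of_comm hcomm, hP]
  -- facts on `σ`
  have hσ2 : ∀ y : P, y ≠ 1 → σ (σ y) ≠ y := by
    intro y hy h
    apply hσ1 y hy
    have := congrArg σ h
    rw [hσ3] at this
    exact this.symm
  have hσ3' : ∀ y : P, y ≠ 1 → σ (σ y) ≠ σ y := by
    intro y hy h
    exact hσ1 y hy (σ.injective h)
  -- the twist on characters of `P`
  have hsg3 : ∀ l : IrrCharacter P, irrTwist σ (irrTwist σ (irrTwist σ l)) = l := by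
    intro l
    apply Subtype.ext
    funext y
    show (l : P → ℂ) (σ (σ (σ y))) = (l : P → ℂ) y
    rw [hσ3]
  have hsg1 : ∀ l : IrrCharacter P, l ≠ trivIrr → irrTwist σ l ≠ trivIrr := by
    intro l hl h
    apply hl
    have := congrArg (fun x => irrTwist σ (irrTwist σ x)) h
    simp only [hsg3, irrTwist_triv] at this
    exact this
  obtain ⟨y₀, hy₀⟩ : ∃ y : P, y ≠ 1 := by
    have : Nontrivial P := Finite.one_lt_card_iff_nontrivial.mp (by rw [hP]; exact hp1)
    exact exists_ne 1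
  have hsgfree : ∀ l : IrrCharacter P, l ≠ trivIrr → irrTwist σ l ≠ l := by
    intro l hl h
    apply hl
    have hw : σ y₀ * y₀⁻¹ ≠ 1 := by
      intro h1
      exact hσ1 y₀ hy₀ (mul_inv_eq_one.mp h1)
    have hlw : (l : P → ℂ) (σ y₀ * y₀⁻¹) = 1 := by
      have h1 : (l : P → ℂ) (σ y₀) = (l : P → ℂ) y₀ := congrFun (congrArg Subtype.val h) y₀
      rw [Cfsg.Agent.Lib.Helper35.irr_mul_of_comm hcomm, h1,
        ← Cfsg.Agent.Lib.Helper35.irr_mul_of_comm hcomm, mul_inv_cancel, hl1]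
    apply Subtype.ext
    funext z
    obtain ⟨n, rfl⟩ := mem_powers_of_prime_card hP hw (g' := z)
    rw [Cfsg.Agent.Lib.Helper35.irr_pow_of_comm hcomm, hlw, one_pow]
    rfl
  -- multiplicities
  choose M hM using (fun χ : IrrCharacter G =>
    exists_decomp_of_isCharacter (fun h : P => (χ : G → ℂ) h)
      (isCharacter_restrict P (χ : G → ℂ) (isCharacter_of_irr χ)))
  have hMin : ∀ (χ : IrrCharacter G) (l : IrrCharacter P),
      classInner (fun h : P => (χ : G → ℂ) h) (l : P → ℂ) = (M χ l : ℂ) := by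
    intro χ l
    rw [hM χ]
    exact classInner_sum_irr _ l
  have hMtriv : ∀ l : IrrCharacter P,
      (M trivIrr l : ℂ) = if (trivIrr : IrrCharacter P) = l then 1 else 0 := by
    intro l
    rw [← hMin]
    exact classInner_irr trivIrr l
  have hsumM : ∀ χ : IrrCharacter G, ∑ l : IrrCharacter P, M χ l = irrDeg χ := by
    intro χ
    have h1 := congrFun (hM χ) 1
    simp only [Finset.sum_apply, Pi.smul_apply, smul_eq_mul, hl1, mul_one] at h1
    have h2 : (χ : G → ℂ) ((1 : P) : G) = (irrDeg χ : ℂ) := irrDeg_spec χ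
    rw [h2] at h1
    exact_mod_cast h1.symm
  -- the vectors `a l`
  let a : {l : IrrCharacter P // l ≠ trivIrr} → IrrCharacter G → ℤ :=
    fun l χ => (M χ trivIrr : ℤ) - (M χ l.1 : ℤ)
  have hacast : ∀ (l : {l : IrrCharacter P // l ≠ trivIrr}) (χ : IrrCharacter G),
      ((a l χ : ℤ) : ℂ) = classInner (fun h : P => (χ : G → ℂ) h)
        ((trivIrr : IrrCharacter P).1 - l.1.1) := by
    intro l χ
    rw [Cfsg.Agent.Lib.Helper35.classInner_sub_right, hMin, hMin]
    simp [a]
  have hf1 : ∀ l : {l : IrrCharacter P // l ≠ trivIrr},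
      ((trivIrr : IrrCharacter P).1 - l.1.1) 1 = 0 := by
    intro l
    rw [Pi.sub_apply, trivIrr_apply, hl1, sub_self]
  obtain ⟨l₀, hl₀⟩ : ∃ l : IrrCharacter P, l ≠ trivIrr :=
    Fintype.exists_ne_of_one_lt_card (by rw [hcardIrr]; exact hp1) trivIrr
  have ha1 : ∀ l : {l : IrrCharacter P // l ≠ trivIrr}, a l trivIrr = 1 := by
    intro l
    have h1 : M trivIrr trivIrr = 1 := by
      exact_mod_cast (hMtriv trivIrr).trans (if_pos rfl)
    have h2 : M trivIrr l.1 = 0 := by
      exact_mod_cast (hMtriv l.1).trans (if_neg (Ne.symm l.2))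
    simp [a, h1, h2]
  -- the twist on the nontrivial characters
  obtain ⟨sg, hsg⟩ : ∃ sg : {l : IrrCharacter P // l ≠ trivIrr} →
      {l : IrrCharacter P // l ≠ trivIrr}, ∀ l, (sg l).1 = irrTwist σ l.1 :=
    ⟨fun l => ⟨irrTwist σ l.1, hsg1 l.1 l.2⟩, fun _ => rfl⟩
  have hsg'3 : ∀ l, sg (sg (sg l)) = l := by
    intro l
    apply Subtype.ext
    rw [hsg, hsg, hsg, hsg3]
  have hsg'free : ∀ l, sg l ≠ l := by
    intro l h
    apply hsgfree l.1 l.2
    rw [← hsg, h]
  have hsg'free2 : ∀ l, sg (sg l) ≠ l := by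
    intro l h
    apply hsg'free l
    have := congrArg sg h
    rw [hsg'3] at this
    exact this.symm
  obtain ⟨R, hRdef⟩ : ∃ R : {l : IrrCharacter P // l ≠ trivIrr} →
      {l : IrrCharacter P // l ≠ trivIrr} → Prop,
      ∀ l l', R l l' ↔ (l' = l ∨ l' = sg l ∨ l' = sg (sg l)) :=
    ⟨fun l l' => l' = l ∨ l' = sg l ∨ l' = sg (sg l), fun _ _ => Iff.rfl⟩
  have hR : ∀ l, R l l := fun l => (hRdef l l).mpr (Or.inl rfl)
  have hRcard : ∀ l, (Finset.univ.filter (fun l' => R l l')).card = 3 := by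
    intro l
    have hfil : Finset.univ.filter (fun l' => R l l') = {l, sg l, sg (sg l)} := by
      ext x
      simp [hRdef]
    rw [hfil, Finset.card_insert_of_notMem, Finset.card_pair]
    · exact fun h => hsg'free (sg l) h.symm
    · simp only [Finset.mem_insert, Finset.mem_singleton, not_or]
      exact ⟨fun h => hsg'free l h.symm, fun h => hsg'free2 l h.symm⟩
  have hgram : ∀ l l' : {l : IrrCharacter P // l ≠ trivIrr},
      ∑ χ : IrrCharacter G, a l χ * a l' χ = 3 + (if R l l' then 1 else 0) := by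
    intro l l'
    have hc : ((∑ χ : IrrCharacter G, a l χ * a l' χ : ℤ) : ℂ) =
        classInner (fun y => ((trivIrr : IrrCharacter P).1 - l'.1.1) y +
          ((trivIrr : IrrCharacter P).1 - l'.1.1) (σ y) +
          ((trivIrr : IrrCharacter P).1 - l'.1.1) (σ (σ y)))
          ((trivIrr : IrrCharacter P).1 - l.1.1) := by
      rw [← exc_key3 p P hP hp0 σ hC hF hσ1 hσ2 hσ3' _ _ (hf1 l)]
      push_cast
      refine Finset.sum_congr rfl fun χ _ => ?_
      rw [← hacast l χ, ← hacast l' χ, map_intCast]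
    have hfun : (fun y => ((trivIrr : IrrCharacter P).1 - l'.1.1) y +
          ((trivIrr : IrrCharacter P).1 - l'.1.1) (σ y) +
          ((trivIrr : IrrCharacter P).1 - l'.1.1) (σ (σ y))) =
        (3 : ℂ) • (trivIrr : IrrCharacter P).1 - l'.1.1 - (irrTwist σ l'.1).1 -
          (irrTwist σ (irrTwist σ l'.1)).1 := by
      funext y
      simp only [Pi.sub_apply, Pi.smul_apply, trivIrr_apply, smul_eq_mul, irrTwist_apply]
      ring
    rw [hfun] at hc
    rw [Cfsg.Agent.Lib.Helper35.classInner_sub_left, Cfsg.Agent.Lib.Helper35.classInner_sub_left,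
      Cfsg.Agent.Lib.Helper35.classInner_sub_left,
      Cfsg.Agent.Lib.Helper35.classInner_smul_left,
      Cfsg.Agent.Lib.Helper35.classInner_sub_right,
      Cfsg.Agent.Lib.Helper35.classInner_sub_right,
      Cfsg.Agent.Lib.Helper35.classInner_sub_right,
      Cfsg.Agent.Lib.Helper35.classInner_sub_right,
      classInner_irr, classInner_irr, classInner_irr, classInner_irr, classInner_irr,
      classInner_irr, classInner_irr, classInner_irr, if_pos rfl, if_neg (Ne.symm l.2),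
      if_neg l'.2, if_neg (hsg1 l'.1 l'.2), if_neg (hsg1 _ (hsg1 l'.1 l'.2))] at hc
    have hint : (∑ χ : IrrCharacter G, a l χ * a l' χ : ℤ) =
        3 + (if l'.1 = l.1 then 1 else 0) + (if irrTwist σ l'.1 = l.1 then 1 else 0) +
          (if irrTwist σ (irrTwist σ l'.1) = l.1 then 1 else 0) := by
      have : ((∑ χ : IrrCharacter G, a l χ * a l' χ : ℤ) : ℂ) =
          ((3 + (if l'.1 = l.1 then 1 else 0) + (if irrTwist σ l'.1 = l.1 then 1 else 0) +
          (if irrTwist σ (irrTwist σ l'.1) = l.1 then 1 else 0) : ℤ) : ℂ) := by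
        rw [hc]
        push_cast
        ring
      exact_mod_cast this
    rw [hint]
    have e1 : l'.1 = l.1 ↔ l' = l := Subtype.ext_iff.symm
    have e2 : irrTwist σ l'.1 = l.1 ↔ l' = sg (sg l) := by
      constructor
      · intro h
        apply Subtype.ext
        rw [hsg, hsg, ← h, hsg3]
      · intro h
        rw [h, hsg, hsg, hsg3]
    have e3 : irrTwist σ (irrTwist σ l'.1) = l.1 ↔ l' = sg l := by
      constructor
      · intro h
        apply Subtype.ext
        rw [hsg, ← h, hsg3]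
      · intro h
        rw [h, hsg, hsg3]
    by_cases h1 : l' = l
    · have h2 : ¬ l' = sg (sg l) := by
        rw [h1]
        exact fun h => hsg'free2 l h.symm
      have h3 : ¬ l' = sg l := by
        rw [h1]
        exact fun h => hsg'free l h.symm
      rw [if_pos (e1.mpr h1), if_neg (fun h => h2 (e2.mp h)), if_neg (fun h => h3 (e3.mp h)),
        if_pos ((hRdef l l').mpr (Or.inl h1))]
      norm_num
    · by_cases h3 : l' = sg l
      · have h2 : ¬ l' = sg (sg l) := by
          rw [h3]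
          exact fun h => hsg'free (sg l) h.symm
        rw [if_neg (fun h => h1 (e1.mp h)), if_neg (fun h => h2 (e2.mp h)), if_pos (e3.mpr h3),
          if_pos ((hRdef l l').mpr (Or.inr (Or.inl h3)))]
        norm_num
      · by_cases h2 : l' = sg (sg l)
        · rw [if_neg (fun h => h1 (e1.mp h)), if_pos (e2.mpr h2), if_neg (fun h => h3 (e3.mp h)),
            if_pos ((hRdef l l').mpr (Or.inr (Or.inr h2)))]
          norm_num
        · have hnR : ¬ R l l' := by
            rw [hRdef]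
            rintro (h | h | h)
            exacts [h1 h, h3 h, h2 h]
          rw [if_neg (fun h => h1 (e1.mp h)), if_neg (fun h => h2 (e2.mp h)),
            if_neg (fun h => h3 (e3.mp h)), if_neg hnR]
          norm_num
  have hdeg : ∀ l : {l : IrrCharacter P // l ≠ trivIrr},
      ∑ χ : IrrCharacter G, a l χ * (irrDeg χ : ℤ) = 0 := by
    intro l
    have hc : ((∑ χ : IrrCharacter G, a l χ * (irrDeg χ : ℤ) : ℤ) : ℂ) = 0 := by
      rw [← exc_deg P _ (hf1 l)]
      push_cast
      refine Finset.sum_congr rfl fun χ _ => ?_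
      rw [← hacast l χ, irrDeg_spec]
    exact_mod_cast hc
  have hcardΛ : Fintype.card {l : IrrCharacter P // l ≠ trivIrr} = p - 1 := by
    rw [Fintype.card_subtype_compl, hcardIrr]
    simp
  obtain ⟨χ₁, χ₂, χ₃, s₁, s₂, s₃, h1, h2, h3, hs1, hs2, hs3, hsum, hall1, hall2, hsum3⟩ :=
    exc_three_comb a (fun χ => (irrDeg χ : ℤ)) trivIrr R (by rw [irrDeg_triv]; rfl) ha1 hgram
      hR hRcard hdeg (by rw [hcardΛ]; omega) ⟨l₀, hl₀⟩
  -- sums over the nontrivial characters of `P`
  have hsub : ∀ F : IrrCharacter P → ℤ,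
      ∑ l : {l : IrrCharacter P // l ≠ trivIrr}, F l.1 =
        ∑ l ∈ Finset.univ.erase (trivIrr : IrrCharacter P), F l :=
    fun F => (Finset.sum_subtype (Finset.univ.erase (trivIrr : IrrCharacter P))
      (fun x => by simp) F).symm
  have hcarderase : (Finset.univ.erase (trivIrr : IrrCharacter P)).card = p - 1 := by
    rw [Finset.card_erase_of_mem (Finset.mem_univ _), Finset.card_univ, hcardIrr]
  have hpcast : ((p - 1 : ℕ) : ℤ) = (p : ℤ) - 1 := by
    rw [Nat.cast_sub hp1.le]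
    norm_num
  have hsumall : ∀ χ : IrrCharacter G, ∑ l : {l : IrrCharacter P // l ≠ trivIrr}, a l χ =
      (p : ℤ) * (M χ trivIrr : ℤ) - (irrDeg χ : ℤ) := by
    intro χ
    have hsumZ : (M χ trivIrr : ℤ) +
        ∑ l ∈ Finset.univ.erase (trivIrr : IrrCharacter P), (M χ l : ℤ) = (irrDeg χ : ℤ) := by
      rw [Finset.add_sum_erase Finset.univ (fun l => (M χ l : ℤ)) (Finset.mem_univ _)]
      exact_mod_cast hsumM χ
    rw [hsub (fun l => (M χ trivIrr : ℤ) - (M χ l : ℤ)), Finset.sum_sub_distrib,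
      Finset.sum_const, hcarderase, nsmul_eq_mul, hpcast]
    linarith
  have hconst : ∀ (χ : IrrCharacter G) (s : ℤ), (s = 1 ∨ s = -1) → (∀ l, a l χ = s) →
      (p : ℤ) ∣ s * (irrDeg χ : ℤ) - 1 := by
    intro χ s hs hall
    have e := hsumall χ
    rw [Finset.sum_congr rfl (fun l _ => hall l), Finset.sum_const, Finset.card_univ, hcardΛ,
      nsmul_eq_mul, hpcast] at e
    have hss : s * s = 1 := by rcases hs with h | h <;> rw [h] <;> norm_num
    refine ⟨s * (M χ trivIrr : ℤ) - 1, ?_⟩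
    have hd : (irrDeg χ : ℤ) = (p : ℤ) * (M χ trivIrr : ℤ) - ((p : ℤ) - 1) * s := by linarith
    rw [hd]
    linear_combination (1 - (p : ℤ)) * hss
  refine ⟨χ₁, χ₂, χ₃, s₁, s₂, s₃, h1, h2, h3, hs1, hs2, hs3, hsum, hconst χ₁ s₁ hs1 hall1,
    hconst χ₂ s₂ hs2 hall2, ?_⟩
  have e := hsumall χ₃
  rw [hsum3] at e
  have hss : s₃ * s₃ = 1 := by rcases hs3 with h | h <;> rw [h] <;> norm_num
  refine ⟨s₃ * (M χ₃ trivIrr : ℤ), ?_⟩
  have hd : (irrDeg χ₃ : ℤ) = (p : ℤ) * (M χ₃ trivIrr : ℤ) - 3 * s₃ := by linarith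
  rw [hd]
  linear_combination (-3 : ℤ) * hss

end

end Cfsg.Agent.Lib.Helper23
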