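import Mathlib
import Cfsg.Agent.Lib.Helper23.ExcChar3
import Cfsg.Agent.Lib.Helper23.ExcGroup

namespace Cfsg.Agent.Lib.Helper23

open Cfsg Cfsg.Agent.Lib.Helper4 Subgroup

/-- A nonprincipal irreducible character of a perfect group has degree at least two. -/
theorem two_le_irrDeg_of_perfect {G : Type*} [Group G] [Fintype G] (hperf : commutator G = ⊤)
    (χ : IrrCharacter G) (hχ : χ ≠ trivIrr) : 2 ≤ irrDeg χ := by
  have hfin : Finite (IrrCharacter G) := irr_finite
  have hpos := irrDeg_pos χ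
  by_contra hlt
  have h1 : irrDeg χ = 1 := by omega
  have hχ1 : (χ : G → ℂ) 1 = 1 := by
    rw [irrDeg_spec, h1]
    norm_num
  have hcl := card_linear (G := G)
  rw [hperf, Subgroup.index_top] at hcl
  have hsub : Subsingleton {χ : IrrCharacter G // (χ : G → ℂ) 1 = 1} :=
    (Nat.card_eq_one_iff_unique.mp hcl).1
  have := hsub.elim ⟨χ, hχ1⟩ ⟨trivIrr, trivIrr_apply 1⟩
  exact hχ (congrArg Subtype.val this)

/-- Consequence of `exc_three` for a perfect group. -/
theorem exc_three_dvd {G : Type*} [Group G] [Finite G] (p : ℕ) [hp : Fact p.Prime]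
    (hp13 : 13 < p) (P : Subgroup G) (hP : Nat.card P = p) (σ : P ≃* P)
    (hC : ∀ y ∈ P, y ≠ 1 → Nat.card (Subgroup.centralizer ({y} : Set G)) = p)
    (hF : ∀ y : P, y ≠ 1 → ∀ y' : P,
      (IsConj (y : G) (y' : G) ↔ y' = y ∨ y' = σ y ∨ y' = σ (σ y)))
    (hσ3 : ∀ y : P, σ (σ (σ y)) = y) (hσ1 : ∀ y : P, y ≠ 1 → σ y ≠ y)
    (hperf : commutator G = ⊤) :
    ∃ x₁ x₂ x₃ : ℤ, 2 ≤ x₁.natAbs ∧ 2 ≤ x₂.natAbs ∧ 2 ≤ x₃.natAbs ∧
      x₁.natAbs ∣ Nat.card G ∧ x₂.natAbs ∣ Nat.card G ∧ x₃.natAbs ∣ Nat.card G ∧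
      1 + x₁ + x₂ + x₃ = 0 ∧ (p : ℤ) ∣ x₁ - 1 ∧ (p : ℤ) ∣ x₂ - 1 ∧ (p : ℤ) ∣ x₃ + 3 := by
  cases nonempty_fintype G
  obtain ⟨χ₁, χ₂, χ₃, s₁, s₂, s₃, h1, h2, h3, hs1, hs2, hs3, hsum, hd1, hd2, hd3⟩ :=
    exc_three p hp13 P hP σ hC hF hσ3 hσ1
  have habs : ∀ (s : ℤ) (d : ℕ), (s = 1 ∨ s = -1) → (s * (d : ℤ)).natAbs = d := by
    intro s d hs
    rcases hs with h | h <;> rw [h] <;> simp
  refine ⟨s₁ * (irrDeg χ₁ : ℤ), s₂ * (irrDeg χ₂ : ℤ), s₃ * (irrDeg χ₃ : ℤ), ?_, ?_, ?_, ?_, ?_, ?_,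
    by linarith, hd1, hd2, hd3⟩
  · rw [habs _ _ hs1]
    exact two_le_irrDeg_of_perfect hperf χ₁ h1
  · rw [habs _ _ hs2]
    exact two_le_irrDeg_of_perfect hperf χ₂ h2
  · rw [habs _ _ hs3]
    exact two_le_irrDeg_of_perfect hperf χ₃ h3
  · rw [habs _ _ hs1]
    exact irrDeg_dvd χ₁
  · rw [habs _ _ hs2]
    exact irrDeg_dvd χ₂
  · rw [habs _ _ hs3]
    exact irrDeg_dvd χ₃

/-- Fusion in a self-centralizing subgroup of prime order with normalizer of three times its
order. -/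
theorem prime_fusion_three {G : Type*} [Group G] [Finite G] {p : ℕ} [hp : Fact p.Prime]
    (P : Subgroup G) (hPc : Nat.card P = p)
    (hCP : centralizer (P : Set G) = P)
    (hN : Nat.card (normalizer (P : Set G)) = 3 * p) :
    (∀ y ∈ P, y ≠ 1 → Nat.card (centralizer ({y} : Set G)) = p) ∧
    ∃ σ : P ≃* P, (∀ y : P, σ (σ (σ y)) = y) ∧ (∀ y : P, y ≠ 1 → σ y ≠ y) ∧
      (∀ y : P, y ≠ 1 → ∀ y' : P,
        (IsConj (y : G) (y' : G) ↔ y' = y ∨ y' = σ y ∨ y' = σ (σ y))) := by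
  have hp1 := hp.out.one_lt
  -- elements of `P` commute
  have hcomm : ∀ a ∈ P, ∀ b ∈ P, a * b = b * a := by
    intro a ha b hb
    have : b ∈ centralizer (P : Set G) := by rw [hCP]; exact hb
    exact (mem_centralizer_iff.mp this) a ha
  -- a nontrivial element generates `P`
  have hgen : ∀ y ∈ P, y ≠ 1 → zpowers y = P := by
    intro y hy hy1
    apply Subgroup.eq_of_le_of_card_ge ((zpowers_le).mpr hy)
    rw [Nat.card_zpowers, hPc]
    have hd : orderOf y ∣ p := by
      have h1 : orderOf (⟨y, hy⟩ : P) ∣ Nat.card P := orderOf_dvd_natCard _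
      rwa [hPc, ← Subgroup.orderOf_coe] at h1
    rcases (Nat.dvd_prime hp.out).mp hd with h1 | h1
    · exact absurd (orderOf_eq_one_iff.mp h1) hy1
    · exact h1.ge
  have hcent : ∀ y ∈ P, y ≠ 1 → centralizer ({y} : Set G) = P := by
    intro y hy hy1
    apply le_antisymm
    · intro c hc
      rw [← hCP, mem_centralizer_iff]
      intro w hw
      rw [SetLike.mem_coe, ← hgen y hy hy1] at hw
      obtain ⟨k, rfl⟩ := hw
      rw [mem_centralizer_iff] at hc
      exact (Commute.zpow_left (show Commute y c from hc y rfl) k).eq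
    · intro c hc
      rw [mem_centralizer_iff]
      intro w hw
      rw [Set.mem_singleton_iff] at hw
      subst hw
      exact hcomm w hy c hc
  have hPN : P ≤ normalizer (P : Set G) := le_normalizer
  have hidx : (P.subgroupOf (normalizer (P : Set G))).index = 3 := by
    have h1 := (P.subgroupOf (normalizer (P : Set G))).card_mul_index
    have h2 : Nat.card (P.subgroupOf (normalizer (P : Set G))) = Nat.card P :=
      Nat.card_congr (Subgroup.subgroupOfEquivOfLe hPN).toEquiv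
    rw [h2, hPc, hN] at h1
    have : p * (P.subgroupOf (normalizer (P : Set G))).index = p * 3 := by rw [h1]; ring
    exact Nat.eq_of_mul_eq_mul_left hp.out.pos this
  have hlt : P < normalizer (P : Set G) := by
    refine lt_of_le_of_ne hPN ?_
    intro heq
    rw [← heq, hPc] at hN
    omega
  obtain ⟨t, htN, htP⟩ := SetLike.exists_of_lt hlt
  have ht3 : t ^ 3 ∈ P := by
    have h1 := Subgroup.pow_index_mem (P.subgroupOf (normalizer (P : Set G)))
      (⟨t, htN⟩ : normalizer (P : Set G))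
    rw [hidx] at h1
    exact Subgroup.mem_subgroupOf.mp h1
  have hσ : ∀ (τ : normalizer (P : Set G)) (y : P),
      ((P.normalizerMonoidHom τ y : P) : G) = (τ : G) * y * (τ : G)⁻¹ := fun τ y => rfl
  -- decomposition of the normalizer
  have hdecomp : ∀ g ∈ normalizer (P : Set G), ∃ k : ℕ, ∃ u ∈ P, g = t ^ k * u := by
    intro g hg
    have hcardQ : Nat.card ((normalizer (P : Set G)) ⧸ (P.subgroupOf (normalizer (P : Set G))))
        = 3 := hidx
    have hne : (QuotientGroup.mk (⟨t, htN⟩ : normalizer (P : Set G)) :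
        (normalizer (P : Set G)) ⧸ (P.subgroupOf (normalizer (P : Set G)))) ≠ 1 := by
      intro h1
      rw [QuotientGroup.eq_one_iff] at h1
      exact htP (Subgroup.mem_subgroupOf.mp h1)
    have : Fact (Nat.Prime 3) := ⟨Nat.prime_three⟩
    obtain ⟨k, hk⟩ := mem_powers_of_prime_card hcardQ hne
      (g' := (QuotientGroup.mk (⟨g, hg⟩ : normalizer (P : Set G)) :
        (normalizer (P : Set G)) ⧸ (P.subgroupOf (normalizer (P : Set G)))))
    have hk' : (QuotientGroup.mk ((⟨t, htN⟩ : normalizer (P : Set G)) ^ k) :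
        (normalizer (P : Set G)) ⧸ (P.subgroupOf (normalizer (P : Set G)))) =
        QuotientGroup.mk (⟨g, hg⟩ : normalizer (P : Set G)) := hk
    rw [QuotientGroup.eq] at hk'
    have hu : (t ^ k)⁻¹ * g ∈ P := Subgroup.mem_subgroupOf.mp hk'
    exact ⟨k, (t ^ k)⁻¹ * g, hu, by group⟩
  refine ⟨fun y hy hy1 => by rw [hcent y hy hy1, hPc], P.normalizerMonoidHom ⟨t, htN⟩, ?_, ?_, ?_⟩
  · intro y
    apply Subtype.ext
    rw [hσ, hσ, hσ]
    show t * (t * (t * (y : G) * t⁻¹) * t⁻¹) * t⁻¹ = y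
    have e : t * (t * (t * (y : G) * t⁻¹) * t⁻¹) * t⁻¹ = t ^ 3 * y * (t ^ 3)⁻¹ := by
      simp only [pow_succ, pow_zero, one_mul, mul_inv_rev, mul_assoc]
    rw [e, hcomm _ ht3 y y.2, mul_assoc, mul_inv_cancel, mul_one]
  · intro y hy h
    apply htP
    have hy1 : (y : G) ≠ 1 := fun h1 => hy (Subtype.ext h1)
    rw [← hcent y y.2 hy1, mem_centralizer_iff]
    intro w hw
    rw [Set.mem_singleton_iff] at hw
    rw [hw]
    have h1 : t * (y : G) * t⁻¹ = y := congrArg Subtype.val h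
    calc (y : G) * t = (t * y * t⁻¹) * t := by rw [h1]
      _ = t * y := by group
  · intro y hy y'
    have hy1 : (y : G) ≠ 1 := fun h1 => hy (Subtype.ext h1)
    constructor
    · intro hc
      obtain ⟨g, hg⟩ := isConj_iff.mp hc
      have hy'1 : (y' : G) ≠ 1 := by
        intro h1
        apply hy1
        calc (y : G) = g⁻¹ * (g * y * g⁻¹) * g := by group
          _ = 1 := by rw [hg, h1]; group
      have hgN : g ∈ normalizer (P : Set G) := by
        rw [mem_normalizer_iff]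
        intro h
        constructor
        · intro hh
          rw [← hgen y y.2 hy1] at hh
          obtain ⟨k, rfl⟩ := hh
          have e : g * (y : G) ^ k * g⁻¹ = (g * y * g⁻¹) ^ k := by rw [conj_zpow]
          rw [e, hg]
          exact zpow_mem y'.2 k
        · intro hh
          rw [← hgen y' y'.2 hy'1] at hh
          obtain ⟨k, hk⟩ := hh
          have hk' : (y' : G) ^ k = g * h * g⁻¹ := hk
          have e : h = (g⁻¹ * (y' : G) * g) ^ k := by
            have e1 : (g⁻¹ * (y' : G) * g) ^ k = g⁻¹ * (y' : G) ^ k * g := by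
              have := conj_zpow (a := g⁻¹) (b := (y' : G)) (i := k)
              rw [inv_inv] at this
              exact this
            rw [e1, hk']
            group
          have e2 : g⁻¹ * (y' : G) * g = y := by rw [← hg]; group
          rw [e, e2]
          exact zpow_mem y.2 k
      obtain ⟨k, u, hu, rfl⟩ := hdecomp g hgN
      have e1 : t ^ k * u * (y : G) * (t ^ k * u)⁻¹ = t ^ k * y * (t ^ k)⁻¹ := by
        have : u * (y : G) = y * u := hcomm u hu y y.2
        calc t ^ k * u * (y : G) * (t ^ k * u)⁻¹ = t ^ k * (u * y) * u⁻¹ * (t ^ k)⁻¹ := by group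
          _ = t ^ k * (y * u) * u⁻¹ * (t ^ k)⁻¹ := by rw [this]
          _ = t ^ k * y * (t ^ k)⁻¹ := by group
      rw [e1] at hg
      have e2 : y' = (P.normalizerMonoidHom ⟨t, htN⟩ ^ k) y := by
        apply Subtype.ext
        rw [← map_pow, hσ, ← hg]
        rfl
      have e3 : (P.normalizerMonoidHom ⟨t, htN⟩) ^ 3 = 1 := by
        ext z
        rw [← map_pow, hσ]
        show t ^ 3 * (z : G) * (t ^ 3)⁻¹ = z
        rw [hcomm _ ht3 z z.2, mul_assoc, mul_inv_cancel, mul_one]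
      rw [pow_eq_pow_mod k e3] at e2
      have hk3 : k % 3 < 3 := Nat.mod_lt _ (by norm_num)
      interval_cases (k % 3)
      · left
        rw [e2]
        rfl
      · right; left
        rw [e2]
        rfl
      · right; right
        rw [e2]
        rfl
    · rintro (rfl | rfl | rfl)
      · exact IsConj.refl _
      · exact isConj_iff.mpr ⟨t, rfl⟩
      · refine isConj_iff.mpr ⟨t * t, ?_⟩
        rw [hσ, hσ]
        show t * t * (y : G) * (t * t)⁻¹ = t * (t * (y : G) * t⁻¹) * t⁻¹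
        group

/-- In a non-abelian simple group with `|G| = p * m`, `p ∤ m`, `p > 13` and `3 * n_p = m`
(so that `|N(P)| = 3p`), there are integers `x₁, x₂, x₃` with `|xᵢ| ≥ 2` dividing `|G|`,
`1 + x₁ + x₂ + x₃ = 0`, `x₁ ≡ x₂ ≡ 1` and `x₃ ≡ -3` modulo `p`. -/
theorem simple_exc_three {G : Type*} [Group G] [Finite G] [IsSimpleGroup G]
    (hG : ¬ IsMulCommutative G) {p m : ℕ} [hp : Fact p.Prime] (hp13 : 13 < p)
    (h : Nat.card G = p * m) (hm : ¬ p ∣ m) (hn : Nat.card (Sylow p G) * 3 = m) :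
    ∃ x₁ x₂ x₃ : ℤ, 2 ≤ x₁.natAbs ∧ 2 ≤ x₂.natAbs ∧ 2 ≤ x₃.natAbs ∧
      x₁.natAbs ∣ Nat.card G ∧ x₂.natAbs ∣ Nat.card G ∧ x₃.natAbs ∣ Nat.card G ∧
      1 + x₁ + x₂ + x₃ = 0 ∧ (p : ℤ) ∣ x₁ - 1 ∧ (p : ℤ) ∣ x₂ - 1 ∧ (p : ℤ) ∣ x₃ + 3 := by
  obtain ⟨P⟩ : Nonempty (Sylow p G) := inferInstance
  have h1 : Nat.card G = p ^ 1 * m := by rw [h, pow_one]
  have hPc : Nat.card (P : Subgroup G) = p := by
    have := sylow_card_of_eq h1 hm P
    rwa [pow_one] at this
  have hnpos : 0 < Nat.card (Sylow p G) := Nat.card_pos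
  have hrel := relIndex_sylow_normalizer_mul h1 hm P
  have hrel3 : (P : Subgroup G).relIndex (normalizer ((P : Subgroup G) : Set G)) = 3 := by
    rw [← hn, mul_comm] at hrel
    exact Nat.eq_of_mul_eq_mul_left hnpos hrel
  have hCP : centralizer ((P : Subgroup G) : Set G) = P :=
    simple_centralizer_sylow_eq hG P hPc (by rw [hrel3]; norm_num)
  have hN : Nat.card (normalizer ((P : Subgroup G) : Set G)) = 3 * p := by
    have h5 := card_normalizer_sylow_mul P
    rw [h, ← hn] at h5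
    have : Nat.card (normalizer ((P : Subgroup G) : Set G)) * Nat.card (Sylow p G) =
        (3 * p) * Nat.card (Sylow p G) := by rw [h5]; ring
    exact Nat.eq_of_mul_eq_mul_right hnpos this
  obtain ⟨hC, σ, hσ3, hσ1, hF⟩ := prime_fusion_three (P : Subgroup G) hPc hCP hN
  exact exc_three_dvd p hp13 (P : Subgroup G) hPc σ hC hF hσ3 hσ1 (commutator_eq_top_of_simple hG)

end Cfsg.Agent.Lib.Helper23
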