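import Mathlib
import Cfsg.Agent.Lib.Helper4.FCDefs

namespace Cfsg.Agent.Lib.Helper4.FC

universe u

/-- if `Z(G) ∩ A` and `C(x) ∩ A` have the same index in the finite group `A`, an element of
`A` commuting with `x` is central -/
theorem lf2_helper23_mem_center {G : Type u} [Group G] [Finite G] (A : Subgroup G) (x y : G)
    (h : (Subgroup.center G).relIndex A = (Cen x).relIndex A) (hy : y ∈ A) (hyx : y ∈ Cen x) :
    y ∈ Subgroup.center G := by
  have hle : (Subgroup.center G).subgroupOf A ≤ (Cen x).subgroupOf A := by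
    intro a ha
    rw [Subgroup.mem_subgroupOf] at ha ⊢
    exact Subgroup.center_le_centralizer _ ha
  have h1 := Subgroup.card_mul_index ((Subgroup.center G).subgroupOf A)
  have h2 := Subgroup.card_mul_index ((Cen x).subgroupOf A)
  have hidx : ((Subgroup.center G).subgroupOf A).index = ((Cen x).subgroupOf A).index := h
  have hpos : 0 < ((Cen x).subgroupOf A).index := Nat.pos_of_ne_zero Subgroup.index_ne_zero_of_finite
  have hcard : Nat.card ((Cen x).subgroupOf A) ≤ Nat.card ((Subgroup.center G).subgroupOf A) := by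
    rw [hidx] at h1
    have : Nat.card ((Subgroup.center G).subgroupOf A) * ((Cen x).subgroupOf A).index
        = Nat.card ((Cen x).subgroupOf A) * ((Cen x).subgroupOf A).index := by rw [h1, h2]
    exact le_of_eq (Nat.eq_of_mul_eq_mul_right hpos this).symm
  have heq : (Subgroup.center G).subgroupOf A = (Cen x).subgroupOf A :=
    Subgroup.eq_of_le_of_card_ge hle hcard
  have hmem : (⟨y, hy⟩ : A) ∈ (Cen x).subgroupOf A := by
    rw [Subgroup.mem_subgroupOf]; exact hyx
  rw [← heq, Subgroup.mem_subgroupOf] at hmem
  exact hmem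

theorem fc_lf2 : LF1Stmt.{u} → LF2Stmt.{u} := by
  intro hLF1 G _ _ n m A H x y hctx hx hy hcsy hxy
  have hLF := hLF1 G n m A H x hctx hx
  obtain ⟨hFour, -, -, -, -, -, -, hZ⟩ := hctx
  obtain ⟨-, h1m, -⟩ := hFour
  rcases hLF.1 with h1 | hn
  · -- `A ≤ C(x)`
    rw [Subgroup.relIndex_eq_one] at h1
    refine ⟨hx, ?_⟩
    show x ∈ Subgroup.centralizer (A : Set G)
    rw [Subgroup.mem_centralizer_iff]
    intro a ha
    have hax : a ∈ Cen x := h1 ha
    rw [Subgroup.mem_centralizer_iff] at hax
    exact (hax x rfl).symm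
  · -- `C_A(x) = A ∩ Z(G)`, which does not contain `y`
    exfalso
    have hyx : y ∈ Cen x := by
      rw [Subgroup.mem_centralizer_iff]
      intro z hz
      rw [Set.mem_singleton_iff] at hz
      subst hz
      exact hxy
    have hyc : y ∈ Subgroup.center G := lf2_helper23_mem_center A x y (hZ.trans hn.symm) hy hyx
    have htop : Cen y = ⊤ := by
      rw [eq_top_iff]
      intro g _
      rw [Subgroup.mem_centralizer_iff]
      intro z hz
      rw [Set.mem_singleton_iff] at hz
      subst hz
      exact (Subgroup.mem_center_iff.mp hyc g).symm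
    have : cs y = 1 := by
      show (Cen y).index = 1
      rw [htop, Subgroup.index_top]
    omega

end Cfsg.Agent.Lib.Helper4.FC
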