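import Mathlib
import Cfsg.Agent.Lib.Helper23.FeitA
import Cfsg.Agent.Lib.Helper23.ZassDegree
import Cfsg.Agent.S0339

/-!
# Feit's theorem on Zassenhaus groups: reduction to simple groups

The statement of S0885 for all Zassenhaus groups on `Ω` follows from the statement for the
simple ones: a proper non-trivial normal subgroup `M` is again a Zassenhaus group on `Ω`, with
the same kernel `H` and with two-point stabilizers of order dividing `e`.
-/

set_option autoImplicit false

namespace Cfsg.Agent.Lib.Helper23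

open Cfsg MulAction

universe u v

/-- Reduction of Feit's theorem (S0885) to simple groups, by induction on the order. -/
theorem feit_reduce_aux {Ω : Type v} [Fintype Ω]
    (hS : ∀ (G : Type u) [Group G] [Finite G] [MulAction G Ω], IsZassenhausGroup G Ω →
      IsSimpleGroup G → ∀ {a b : Ω}, a ≠ b → ∀ (h e : ℕ), Fintype.card Ω = h + 1 →
      Nat.card ↥(stabilizer G a ⊓ stabilizer G b : Subgroup G) = e → Odd e →
      ∀ H : Subgroup G, H ≤ stabilizer G a → Nat.card H + 1 = Fintype.card Ω →
      (∀ u ∈ H, u ≠ 1 → ∀ c : Ω, u • c = c → c = a) →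
      h - 1 ≤ 2 * e ∨ (IsPGroup 2 H ∧ (∃ u v : H, u * v ≠ v * u) ∧
        (commutator H).index ≤ 4 * e ^ 2 + 1)) :
    ∀ (n : ℕ) (G : Type u) [Group G] [Finite G] [MulAction G Ω], Nat.card G = n →
      IsZassenhausGroup G Ω → ∀ {a b : Ω}, a ≠ b → ∀ (h e : ℕ), Fintype.card Ω = h + 1 →
      Nat.card ↥(stabilizer G a ⊓ stabilizer G b : Subgroup G) = e → Odd e →
      ∀ H : Subgroup G, H ≤ stabilizer G a → Nat.card H + 1 = Fintype.card Ω →
      (∀ u ∈ H, u ≠ 1 → ∀ c : Ω, u • c = c → c = a) →
      h - 1 ≤ 2 * e ∨ (IsPGroup 2 H ∧ (∃ u v : H, u * v ≠ v * u) ∧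
        (commutator H).index ≤ 4 * e ^ 2 + 1) := by
  intro n
  induction n using Nat.strong_induction_on with
  | _ n ih =>
    intro G _ _ _ hn hZ a b hab h e hh he hodd H hHa hHcard hHfix
    by_cases hsimp : IsSimpleGroup G
    · exact hS G hZ hsimp hab h e hh he hodd H hHa hHcard hHfix
    · have h3 : 3 ≤ Fintype.card Ω := Cfsg.Agent.Lib.Helper21.zass_three_le_card hZ
      have hnt : Nontrivial G := by
        obtain ⟨g, hg, -⟩ := hZ.2.2.2.1
        exact ⟨⟨g, 1, hg⟩⟩
      obtain ⟨M, hMn, hMbot, hMtop⟩ : ∃ M : Subgroup G, M.Normal ∧ M ≠ ⊥ ∧ M ≠ ⊤ := by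
        by_contra hcon
        push Not at hcon
        apply hsimp
        refine ⟨fun M hM => ?_⟩
        by_cases hb : M = ⊥
        · exact Or.inl hb
        · exact Or.inr (hcon M hM hb)
      have hZM : IsZassenhausGroup M Ω := Cfsg.Agent.S0339.result hZ M hMbot
      have hltM : Nat.card M < n := by
        rw [← hn]
        have h1 : Nat.card M ≤ Nat.card G := Subgroup.card_le_card_group M
        have h2 : Nat.card M ≠ Nat.card G := fun h => hMtop (Subgroup.eq_top_of_card_eq M h)
        omega
      obtain ⟨K, hKle, -, -, hKcard, hKfix⟩ := zass_kernel_pack hZM a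
      have hKH : K.map M.subtype = H := by
        apply Subgroup.eq_of_le_of_card_ge
        · rintro _ ⟨k, hk, rfl⟩
          rw [feit_mem_iff hZ a H hHa hHcard hHfix]
          refine ⟨mem_stabilizer_iff.mp (hKle hk), ?_⟩
          by_cases hk1 : k = 1
          · left
            rw [hk1]
            rfl
          · right
            intro ω hω hfix
            exact hω (hKfix k hk hk1 ω hfix)
        · rw [Subgroup.card_map_of_injective M.subtype_injective]
          omega
      have hcM := (Cfsg.Agent.Lib.Helper21.zass_count hZM hab).1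
      have hcG := (Cfsg.Agent.Lib.Helper21.zass_count hZ hab).1
      have hdvd : Nat.card ↥(stabilizer M a ⊓ stabilizer M b : Subgroup M) ∣ e := by
        have h1 : Nat.card M ∣ Nat.card G := Subgroup.card_subgroup_dvd_card M
        rw [hcM, hcG, he] at h1
        exact Nat.dvd_of_mul_dvd_mul_left (Nat.mul_pos (by omega) (by omega)) h1
      have hoddM : Odd (Nat.card ↥(stabilizer M a ⊓ stabilizer M b : Subgroup M)) :=
        Odd.of_dvd_nat hodd hdvd
      have hepos : 0 < e := by
        rw [← he]
        exact Nat.card_pos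
      have hle : Nat.card ↥(stabilizer M a ⊓ stabilizer M b : Subgroup M) ≤ e :=
        Nat.le_of_dvd hepos hdvd
      rcases ih (Nat.card M) hltM M rfl hZM hab h _ hh rfl hoddM K hKle hKcard hKfix with
        h1 | ⟨h2, ⟨u, v, huv⟩, h4⟩
      · left
        omega
      · right
        let e1 : K ≃* H :=
          (K.equivMapOfInjective M.subtype M.subtype_injective).trans (MulEquiv.subgroupCongr hKH)
        refine ⟨h2.of_equiv e1, ⟨e1 u, e1 v, fun hc => huv (e1.injective ?_)⟩, ?_⟩
        · rw [map_mul, map_mul]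
          exact hc
        · have h5 : (commutator H).index = (commutator K).index :=
            (Nat.card_congr (MulEquiv.abelianizationCongr e1).toEquiv).symm
          rw [h5]
          refine h4.trans ?_
          have := Nat.pow_le_pow_left hle 2
          omega

/-- Reduction of Feit's theorem (S0885) to simple groups. -/
theorem feit_reduce {Ω : Type v} [Fintype Ω]
    (hS : ∀ (G : Type u) [Group G] [Finite G] [MulAction G Ω], IsZassenhausGroup G Ω →
      IsSimpleGroup G → ∀ {a b : Ω}, a ≠ b → ∀ (h e : ℕ), Fintype.card Ω = h + 1 →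
      Nat.card ↥(stabilizer G a ⊓ stabilizer G b : Subgroup G) = e → Odd e →
      ∀ H : Subgroup G, H ≤ stabilizer G a → Nat.card H + 1 = Fintype.card Ω →
      (∀ u ∈ H, u ≠ 1 → ∀ c : Ω, u • c = c → c = a) →
      h - 1 ≤ 2 * e ∨ (IsPGroup 2 H ∧ (∃ u v : H, u * v ≠ v * u) ∧
        (commutator H).index ≤ 4 * e ^ 2 + 1))
    {G : Type u} [Group G] [Finite G] [MulAction G Ω] (hZ : IsZassenhausGroup G Ω) {a b : Ω}
    (hab : a ≠ b) (h e : ℕ) (hh : Fintype.card Ω = h + 1)
    (he : Nat.card ↥(stabilizer G a ⊓ stabilizer G b : Subgroup G) = e) (hodd : Odd e)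
    (H : Subgroup G) (hHa : H ≤ stabilizer G a) (hHcard : Nat.card H + 1 = Fintype.card Ω)
    (hHfix : ∀ u ∈ H, u ≠ 1 → ∀ c : Ω, u • c = c → c = a) :
    h - 1 ≤ 2 * e ∨ (IsPGroup 2 H ∧ (∃ u v : H, u * v ≠ v * u) ∧
      (commutator H).index ≤ 4 * e ^ 2 + 1) :=
  feit_reduce_aux hS (Nat.card G) G rfl hZ hab h e hh he hodd H hHa hHcard hHfix

end Cfsg.Agent.Lib.Helper23
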