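import Mathlib
import Cfsg.Agent.Lib.Helper81.G2Base
import Cfsg.Agent.Lib.Helper81.SqDer
import Cfsg.Agent.Lib.Helper81.SlSylB

/-! # S4632 piece KABS (helper23 for helper81): adjoining a normalising involution -/

set_option autoImplicit false

namespace Cfsg.Agent.Lib.Helper23.G2

open Cfsg Cfsg.Lie Matrix Cfsg.Agent.Lib.Helper81.G2Base Cfsg.Agent.Lib.Helper81.SqD

universe u

/-! ## Piece KABS: adjoining a normalising involution -/
theorem sq_ext {G : Type*} [Group G] [Finite G] (T : Subgroup G) (hT : IsPGroup 2 T)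
    (hsq : SqDer T) (x : G) (hx2 : x ^ 2 = 1) (hxT : x ∉ T)
    (hnorm : ∀ t ∈ T, x * t * x⁻¹ ∈ T) :
    ∃ K : Subgroup G, IsPGroup 2 K ∧ 2 * Nat.card T ∣ Nat.card K ∧ SqDer K := by
  have hxinv : x⁻¹ = x := by
    rw [inv_eq_iff_mul_eq_one, ← pow_two, hx2]
  have hKeq : Subgroup.closure ((T : Set G) ∪ {x}) = Subgroup.zpowers x ⊔ T := by
    rw [Subgroup.closure_union, Subgroup.closure_eq, ← Subgroup.zpowers_eq_closure, sup_comm]
  have hTK : T ≤ Subgroup.closure ((T : Set G) ∪ {x}) := fun t ht =>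
    Subgroup.subset_closure (Or.inl ht)
  have hxK : x ∈ Subgroup.closure ((T : Set G) ∪ {x}) :=
    Subgroup.subset_closure (Or.inr rfl)
  have hZ : IsPGroup 2 (Subgroup.zpowers x) := by
    rintro ⟨g, hg⟩
    obtain ⟨n, rfl⟩ := Subgroup.mem_zpowers_iff.mp hg
    refine ⟨1, ?_⟩
    apply Subtype.ext
    simp only [pow_one, Subgroup.coe_pow, Subgroup.coe_one]
    rw [← zpow_natCast, ← _root_.zpow_mul, mul_comm, _root_.zpow_mul, zpow_natCast, hx2, _root_.one_zpow]
  have hxn : x ∈ Subgroup.normalizer (T : Set G) := by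
    rw [Subgroup.mem_normalizer_iff]
    intro n
    constructor
    · intro hn
      exact hnorm n hn
    · intro hn
      have h1 := hnorm _ hn
      rw [hxinv] at h1
      have h2 : x * (x * n * x) * x = n := by
        have hxx : x * x = 1 := by rw [← pow_two, hx2]
        calc x * (x * n * x) * x = (x * x) * n * (x * x) := by group
          _ = n := by rw [hxx, one_mul, mul_one]
      rw [h2] at h1
      exact h1
  have hK2 : IsPGroup 2 (Subgroup.closure ((T : Set G) ∪ {x})) := by
    rw [hKeq]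
    exact IsPGroup.to_sup_of_normal_right' hZ hT (Subgroup.zpowers_le.mpr hxn)
  refine ⟨Subgroup.closure ((T : Set G) ∪ {x}), hK2, ?_, ?_⟩
  · obtain ⟨a, ha⟩ := IsPGroup.iff_card.mp hT
    obtain ⟨b, hb⟩ := IsPGroup.iff_card.mp hK2
    have hdvd : Nat.card T ∣ Nat.card (Subgroup.closure ((T : Set G) ∪ {x})) :=
      Subgroup.card_dvd_of_le hTK
    have hne : Nat.card T ≠ Nat.card (Subgroup.closure ((T : Set G) ∪ {x})) := by
      intro h
      have := Subgroup.eq_of_le_of_card_ge hTK (le_of_eq h.symm)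
      exact hxT (this ▸ hxK)
    rw [ha, hb] at hdvd hne ⊢
    have hab : a ≤ b := (Nat.pow_dvd_pow_iff_le_right (by norm_num)).mp hdvd
    have hab' : a < b := lt_of_le_of_ne hab (fun h => hne (by rw [h]))
    rw [← pow_succ']
    exact pow_dvd_pow 2 hab'
  · apply sqDer_of_closure _ Subgroup.closure_closure_coe_preimage
    rintro ⟨s, hsK⟩ hs
    rcases hs with hs | hs
    · have h1 := hsq ⟨s, hs⟩
      have h2 := map_commutator_le (Subgroup.inclusion hTK)
        (Subgroup.mem_map_of_mem (Subgroup.inclusion hTK) h1)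
      have h3 : (Subgroup.inclusion hTK) ((⟨s, hs⟩ : ↥T) ^ 2) =
          (⟨s, hsK⟩ : ↥(Subgroup.closure ((T : Set G) ∪ {x}))) ^ 2 := by
        apply Subtype.ext
        simp
      rw [h3] at h2
      exact h2
    · have hs' : s = x := hs
      have h3 : (⟨s, hsK⟩ : ↥(Subgroup.closure ((T : Set G) ∪ {x}))) ^ 2 = 1 := by
        apply Subtype.ext
        simp only [Subgroup.coe_pow, Subgroup.coe_one]
        rw [hs', hx2]
      rw [h3]
      exact Subgroup.one_mem _

end Cfsg.Agent.Lib.Helper23.G2
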