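import Mathlib
import Cfsg.Agent.S0495
import Cfsg.Agent.S0249

/-!
# Piece E for S2553 (helper70): a simple group of order 168 is isomorphic to `GL₃(𝔽₂)`.
-/

set_option autoImplicit false

namespace Cfsg.Agent.Lib.Helper23.G4

open Matrix

theorem card_gl32 : Nat.card (GL (Fin 3) (ZMod 2)) = 168 := by
  rw [Matrix.card_GL_field]
  decide

theorem det_eq_one_z2 (g : GL (Fin 3) (ZMod 2)) :
    (g : Matrix (Fin 3) (Fin 3) (ZMod 2)).det = 1 := by
  have h : IsUnit (g : Matrix (Fin 3) (Fin 3) (ZMod 2)).det :=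
    (Matrix.isUnit_iff_isUnit_det _).mp g.isUnit
  have h0 : (g : Matrix (Fin 3) (Fin 3) (ZMod 2)).det ≠ 0 := h.ne_zero
  have hz : ∀ x : ZMod 2, x ≠ 0 → x = 1 := by decide
  exact hz _ h0

theorem toGL_bijective_z2 :
    Function.Bijective
      (Matrix.SpecialLinearGroup.toGL :
        Matrix.SpecialLinearGroup (Fin 3) (ZMod 2) →* GL (Fin 3) (ZMod 2)) := by
  refine ⟨Matrix.SpecialLinearGroup.toGL_injective, ?_⟩
  intro g
  refine ⟨⟨(g : Matrix (Fin 3) (Fin 3) (ZMod 2)), det_eq_one_z2 g⟩, ?_⟩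
  apply Units.ext
  rfl

theorem center_sl32 : Subgroup.center (Matrix.SpecialLinearGroup (Fin 3) (ZMod 2)) = ⊥ := by
  rw [eq_bot_iff]
  intro A hA
  rw [Matrix.SpecialLinearGroup.mem_center_iff] at hA
  obtain ⟨r, hr, hA⟩ := hA
  have hz : ∀ x : ZMod 2, x ^ 3 = 1 → x = 1 := by decide
  have hr1 : r = 1 := hz r (by simpa using hr)
  rw [Subgroup.mem_bot]
  apply Subtype.ext
  rw [← hA, hr1]
  simp

theorem mk_bijective_z2 :
    Function.Bijective (QuotientGroup.mk' (Subgroup.center (Matrix.SpecialLinearGroup (Fin 3) (ZMod 2)))) := by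
  refine ⟨?_, QuotientGroup.mk'_surjective _⟩
  rw [← MonoidHom.ker_eq_bot_iff, QuotientGroup.ker_mk', center_sl32]

/-- `PSL₃(𝔽₂) ≃* GL₃(𝔽₂)` -/
noncomputable def pslEquivGL :
    Matrix.ProjectiveSpecialLinearGroup (Fin 3) (ZMod 2) ≃* GL (Fin 3) (ZMod 2) :=
  (MulEquiv.ofBijective _ mk_bijective_z2).symm.trans (MulEquiv.ofBijective _ toGL_bijective_z2)

theorem gl32_simple : IsSimpleGroup (GL (Fin 3) (ZMod 2)) := by
  have : IsSimpleGroup (Matrix.ProjectiveSpecialLinearGroup (Fin 3) (ZMod 2)) :=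
    Cfsg.Agent.S0249.result 3 (le_refl 3)
  exact pslEquivGL.symm.isSimpleGroup

theorem iso_gl32_of_simple_168 {G : Type*} [Group G] [Finite G] [IsSimpleGroup G]
    (h : Nat.card G = 168) : Nonempty (G ≃* GL (Fin 3) (ZMod 2)) := by
  have : Fact (Nat.Prime 7) := ⟨by norm_num⟩
  have hF : Fintype.card (ZMod 7) = 7 := ZMod.card 7
  have : IsSimpleGroup (GL (Fin 3) (ZMod 2)) := gl32_simple
  obtain ⟨e1⟩ := Cfsg.Agent.S0495.result (G := G) h (F := ZMod 7) hF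
  obtain ⟨e2⟩ := Cfsg.Agent.S0495.result (G := GL (Fin 3) (ZMod 2)) card_gl32 (F := ZMod 7) hF
  exact ⟨e1.trans e2.symm⟩

end Cfsg.Agent.Lib.Helper23.G4
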