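import Mathlib
import Cfsg.Agent.Lib.Helper23.SimpleGen
import Cfsg.Agent.Lib.Helper23.SylMaxInter
import Cfsg.Agent.Lib.Helper23.Cit3

/-!
# Simple groups of order 504

The centralizer of every involution is an elementary abelian 2-group.
-/

namespace Cfsg.Agent.Lib.Helper23

open Subgroup

section
set_option linter.unusedSectionVars false
variable {G : Type*} [Group G] [Finite G] [IsSimpleGroup G]

theorem g504_not_comm (h : Nat.card G = 504) : ¬ IsMulCommutative G :=
  not_comm_of_simple_of_not_prime (by rw [h]; norm_num)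

theorem g504_card_sylow7 (h : Nat.card G = 504) (P : Sylow 7 G) :
    Nat.card (P : Subgroup G) = 7 := by
  have : Fact (Nat.Prime 7) := ⟨by norm_num⟩
  have h1 : Nat.card G = 7 ^ 1 * 72 := h.trans (by norm_num)
  have hm : ¬ 7 ∣ 72 := by norm_num
  simpa using sylow_card_of_eq h1 hm P

theorem g504_n7 (h : Nat.card G = 504) : Nat.card (Sylow 7 G) = 36 := by
  classical
  have : Fact (Nat.Prime 7) := ⟨by norm_num⟩
  have h1 : Nat.card G = 7 ^ 1 * 72 := h.trans (by norm_num)
  have hm : ¬ 7 ∣ 72 := by norm_num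
  have hmem := card_sylow_mem_filter h1 hm
  have hne := simple_sylow_card_ne_one h1 hm (by norm_num) (by norm_num)
  rw [show (Nat.divisors 72).filter (fun d => d % 7 = 1) = {1, 8, 36} from by decide +kernel]
    at hmem
  simp only [Finset.mem_insert, Finset.mem_singleton] at hmem
  rcases hmem with h2 | h2 | h2
  · exact absurd h2 hne
  · exfalso
    obtain ⟨P⟩ : Nonempty (Sylow 7 G) := inferInstance
    have hPc := g504_card_sylow7 h P
    have hfaith : ∀ g : G, (∀ Q : Sylow 7 G, g • Q = Q) → g = 1 := by
      have : Fintype (Sylow 7 G) := Fintype.ofFinite _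
      have hinj := (simple_sylow_action (g504_not_comm h) (p := 7) hne).1
      intro g hg
      apply hinj
      rw [map_one]
      ext Q
      exact congrArg (fun R : Sylow 7 G => (R : Subgroup G)) (hg Q) ▸ Iff.rfl
    have hC := centralizer_sylow_le_of_card_succ hfaith P hPc h2
    have : IsCyclic (P : Subgroup G) := isCyclic_of_prime_card hPc
    have : IsMulCommutative (P : Subgroup G) := isMulCommutative_of_isCyclic
    have hCeq : centralizer ((P : Subgroup G) : Set G) = P :=
      le_antisymm hC (P : Subgroup G).le_centralizer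
    have hrel := relIndex_sylow_normalizer_mul h1 hm P
    rw [h2] at hrel
    have hdvd := relIndex_centralizer_normalizer_dvd_pred (P : Subgroup G) hPc
    rw [hCeq] at hdvd
    have h9 : (P : Subgroup G).relIndex (normalizer ((P : Subgroup G) : Set G)) = 9 := by omega
    rw [h9] at hdvd
    revert hdvd
    decide
  · exact h2

theorem g504_C7 (h : Nat.card G = 504) (P : Sylow 7 G) :
    centralizer ((P : Subgroup G) : Set G) = P := by
  have : Fact (Nat.Prime 7) := ⟨by norm_num⟩
  have h1 : Nat.card G = 7 ^ 1 * 72 := h.trans (by norm_num)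
  have hm : ¬ 7 ∣ 72 := by norm_num
  have hrel := relIndex_sylow_normalizer_mul h1 hm P
  rw [g504_n7 h] at hrel
  have h3 : (P : Subgroup G).relIndex (normalizer ((P : Subgroup G) : Set G)) = 2 := by omega
  exact simple_centralizer_sylow_eq (g504_not_comm h) P (g504_card_sylow7 h P)
    (by rw [h3]; norm_num)

theorem g504_card_normalizer7 (h : Nat.card G = 504) (P : Sylow 7 G) :
    Nat.card (normalizer ((P : Subgroup G) : Set G)) = 14 := by
  have : Fact (Nat.Prime 7) := ⟨by norm_num⟩
  have h5 := card_normalizer_sylow_mul P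
  rw [h, g504_n7 h] at h5
  omega

/-- Proper subgroups have order at most 56. -/
theorem g504_card_le (h : Nat.card G = 504) (H : Subgroup G) (hH : H ≠ ⊤) : Nat.card H ≤ 56 := by
  have h2 := simple_two_mul_card_dvd_factorial (g504_not_comm h) H hH
  have hci := H.card_mul_index
  rw [h] at h2 hci
  have hidx : 9 ≤ H.index := by
    by_contra hlt
    push Not at hlt
    have h7 : 7 ≤ H.index := by
      by_contra hlt7
      push Not at hlt7
      interval_cases H.index <;> revert h2 <;> decide
    have h78 : H.index = 7 ∨ H.index = 8 := by omega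
    rcases h78 with h7' | h8
    · have h3 := simple_index_factorial (g504_not_comm h) H hH (by omega) (by
        rw [h, h7']
        decide)
      rw [h, h7'] at h3
      revert h3
      decide
    · have hHc : Nat.card H = 63 := by
        rw [h8] at hci
        omega
      have : Fact (Nat.Prime 7) := ⟨by norm_num⟩
      have h1H : Nat.card H = 7 ^ 1 * 9 := hHc.trans (by norm_num)
      have hmemH := card_sylow_mem_filter (G := H) h1H (by norm_num : ¬ 7 ∣ 9)
      rw [show (Nat.divisors 9).filter (fun d => d % 7 = 1) = {1} from by decide +kernel]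
        at hmemH
      have hH1 : Nat.card (Sylow 7 H) = 1 := by simpa using hmemH
      obtain ⟨Q, hQH, hHQ⟩ := le_normalizer_of_card_sylow_subgroup_eq_one H
        (by rw [h8]; norm_num) hH1
      have h4 := Subgroup.card_le_of_le hHQ
      rw [hHc, g504_card_normalizer7 h Q] at h4
      omega
  nlinarith

theorem g504_card_sylow3 (h : Nat.card G = 504) (P : Sylow 3 G) :
    Nat.card (P : Subgroup G) = 9 := by
  have : Fact (Nat.Prime 3) := ⟨by norm_num⟩
  have h1 : Nat.card G = 3 ^ 2 * 56 := h.trans (by norm_num)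
  have hm : ¬ 3 ∣ 56 := by norm_num
  simpa using sylow_card_of_eq h1 hm P

theorem g504_n3 (h : Nat.card G = 504) : Nat.card (Sylow 3 G) = 28 := by
  have : Fact (Nat.Prime 3) := ⟨by norm_num⟩
  have h1 : Nat.card G = 3 ^ 2 * 56 := h.trans (by norm_num)
  have hm : ¬ 3 ∣ 56 := by norm_num
  have hmem := card_sylow_mem_filter h1 hm
  have hne := simple_sylow_card_ne_one h1 hm (by norm_num) (by norm_num)
  rw [show (Nat.divisors 56).filter (fun d => d % 3 = 1) = {1, 4, 7, 28} from by decide +kernel]
    at hmem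
  simp only [Finset.mem_insert, Finset.mem_singleton] at hmem
  obtain ⟨Q⟩ : Nonempty (Sylow 3 G) := inferInstance
  have h5 := card_normalizer_sylow_mul Q
  rw [h] at h5
  have hN : Nat.card (normalizer ((Q : Subgroup G) : Set G)) ≤ 56 := by
    apply g504_card_le h
    intro ht
    rw [ht, Subgroup.card_top, h] at h5
    exact hne (by omega)
  rcases hmem with h6 | h6 | h6 | h6
  · exact absurd h6 hne
  · rw [h6] at h5
    omega
  · rw [h6] at h5
    omega
  · exact h6

theorem g504_card_normalizer3 (h : Nat.card G = 504) (P : Sylow 3 G) :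
    Nat.card (normalizer ((P : Subgroup G) : Set G)) = 18 := by
  have : Fact (Nat.Prime 3) := ⟨by norm_num⟩
  have h5 := card_normalizer_sylow_mul P
  rw [h, g504_n3 h] at h5
  omega

theorem g504_sylow3_comm (h : Nat.card G = 504) (P : Sylow 3 G) :
    ∀ a ∈ (P : Subgroup G), ∀ b ∈ (P : Subgroup G), a * b = b * a := by
  have : Fact (Nat.Prime 3) := ⟨by norm_num⟩
  have hc : IsMulCommutative (P : Subgroup G) :=
    IsPGroup.isMulCommutative_of_card_eq_prime_sq (p := 3) (g504_card_sylow3 h P)
  intro a ha b hb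
  exact congrArg Subtype.val (hc.is_comm.comm (⟨a, ha⟩ : (P : Subgroup G)) ⟨b, hb⟩)

theorem g504_sylow3_pow (h : Nat.card G = 504) (P : Sylow 3 G) {x : G}
    (hx : x ∈ (P : Subgroup G)) : x ^ 9 = 1 := by
  have h1 : (⟨x, hx⟩ : (P : Subgroup G)) ^ 9 = 1 := by
    rw [← g504_card_sylow3 h P]
    exact pow_card_eq_one'
  exact congrArg Subtype.val h1

theorem g504_sylow3_sq_ne (h : Nat.card G = 504) (P : Sylow 3 G) {x : G}
    (hx : x ∈ (P : Subgroup G)) (hx1 : x ≠ 1) : x ^ 2 ≠ 1 := by
  intro h2
  apply hx1
  have h9 := g504_sylow3_pow h P hx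
  have h3 : x ^ 9 = (x ^ 2) ^ 4 * x := by
    rw [← pow_mul, ← pow_succ]
  rw [h3, h2, one_pow, one_mul] at h9
  exact h9

/-- If an element of the normalizer of a Sylow 3-subgroup `P` outside `P` centralizes `x ∈ P`,
the whole normalizer does. -/
theorem g504_normalizer3_comm (h : Nat.card G = 504) (P : Sylow 3 G) {x c : G}
    (hx : x ∈ (P : Subgroup G)) (hc : c ∈ normalizer ((P : Subgroup G) : Set G))
    (hcP : c ∉ (P : Subgroup G)) (hcx : c * x = x * c) :
    ∀ n ∈ normalizer ((P : Subgroup G) : Set G), n * x = x * n := by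
  have hPK : (P : Subgroup G) ≤ centralizer ({x} : Set G) ⊓ normalizer ((P : Subgroup G) : Set G) := by
    intro a ha
    refine ⟨(?_ : a ∈ centralizer ({x} : Set G)), le_normalizer ha⟩
    rw [mem_centralizer_iff]
    intro y hy
    have hy' : y = x := hy
    rw [hy']
    exact g504_sylow3_comm h P x hx a ha
  have hcK : c ∈ centralizer ({x} : Set G) ⊓ normalizer ((P : Subgroup G) : Set G) := by
    refine ⟨(?_ : c ∈ centralizer ({x} : Set G)), hc⟩
    rw [mem_centralizer_iff]
    intro y hy
    have hy' : y = x := hy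
    rw [hy']
    exact hcx.symm
  have hlt : (P : Subgroup G) < centralizer ({x} : Set G) ⊓ normalizer ((P : Subgroup G) : Set G) :=
    lt_of_le_of_ne hPK (fun heq => hcP (by rw [heq]; exact hcK))
  have h1 := card_lt_of_lt hlt
  have h2 := Subgroup.card_dvd_of_le hPK
  have h3 := Subgroup.card_dvd_of_le (inf_le_right :
    centralizer ({x} : Set G) ⊓ normalizer ((P : Subgroup G) : Set G) ≤
      normalizer ((P : Subgroup G) : Set G))
  rw [g504_card_sylow3 h P] at h1 h2
  rw [g504_card_normalizer3 h P] at h3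
  have h4 : Nat.card (centralizer ({x} : Set G) ⊓ normalizer ((P : Subgroup G) : Set G) :
      Subgroup G) = 18 := by
    have h5 := Nat.le_of_dvd (by norm_num) h3
    obtain ⟨k, hk⟩ := h2
    rw [hk] at h1 h3 h5 ⊢
    have hk2 : k = 2 := by
      have : k ≤ 2 := by omega
      have : 1 < k := by omega
      omega
    rw [hk2]
  have h6 : centralizer ({x} : Set G) ⊓ normalizer ((P : Subgroup G) : Set G) =
      normalizer ((P : Subgroup G) : Set G) :=
    Subgroup.eq_of_le_of_card_ge inf_le_right (by rw [h4, g504_card_normalizer3 h P])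
  intro n hn
  rw [← h6] at hn
  have hn' : n ∈ centralizer ({x} : Set G) := hn.1
  rw [mem_centralizer_iff] at hn'
  exact (hn' x rfl).symm

/-- An involution in the normalizer of a Sylow 3-subgroup inverts it. -/
theorem g504_exists_inverting (h : Nat.card G = 504) (P : Sylow 3 G) :
    ∃ t : G, t ∈ normalizer ((P : Subgroup G) : Set G) ∧ t ∉ (P : Subgroup G) ∧ t ^ 2 = 1 ∧
      ∀ x ∈ (P : Subgroup G), t * x * t⁻¹ = x⁻¹ := by
  have : Fact (Nat.Prime 3) := ⟨by norm_num⟩
  have h2N : 2 ∣ Nat.card (normalizer ((P : Subgroup G) : Set G)) := by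
    rw [g504_card_normalizer3 h P]
    norm_num
  obtain ⟨⟨t, htN⟩, ht⟩ := exists_prime_orderOf_dvd_card' (G := normalizer ((P : Subgroup G) : Set G)) 2 h2N
  have hto : orderOf t = 2 := by
    rw [← ht, Subgroup.orderOf_mk]
  have ht2 : t ^ 2 = 1 := by
    rw [← hto]
    exact pow_orderOf_eq_one t
  have htinv : t⁻¹ = t := cit_inv_of_sq ht2
  have htP : t ∉ (P : Subgroup G) := by
    intro htP
    have h9 := g504_sylow3_pow h P htP
    have h3 : orderOf t ∣ 9 := orderOf_dvd_of_pow_eq_one h9
    rw [hto] at h3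
    revert h3
    decide
  have hfix : ∀ x₀ ∈ (P : Subgroup G), t * x₀ = x₀ * t → x₀ = 1 := by
    intro x₀ hx₀ hcomm
    by_contra hx₀1
    exact simple_no_central_fusion (g504_not_comm h) P (g504_sylow3_comm h P) x₀ hx₀ hx₀1
      (g504_normalizer3_comm h P hx₀ htN htP hcomm)
  refine ⟨t, htN, htP, ht2, ?_⟩
  intro x hx
  have hz : t * x * t⁻¹ ∈ (P : Subgroup G) := (mem_normalizer_iff.mp htN x).mp hx
  have hcomm : x * (t * x * t⁻¹) = (t * x * t⁻¹) * x := g504_sylow3_comm h P x hx _ hz
  have h1 : t * (x * (t * x * t⁻¹)) = (x * (t * x * t⁻¹)) * t := by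
    have htt : t * t = 1 := by rw [← sq, ht2]
    calc t * (x * (t * x * t⁻¹)) = (t * x * t⁻¹) * (t * t) * x * t⁻¹ := by group
      _ = (t * x * t⁻¹) * x * t := by rw [htt, mul_one, htinv]
      _ = (x * (t * x * t⁻¹)) * t := by rw [hcomm]
  have h2 := hfix _ (mul_mem hx hz) h1
  exact (eq_inv_of_mul_eq_one_right h2)

/-- Distinct Sylow 3-subgroups intersect trivially. -/
theorem g504_sylow3_TI (h : Nat.card G = 504) (P Q : Sylow 3 G) (hPQ : P ≠ Q) {x : G}
    (hxP : x ∈ (P : Subgroup G)) (hxQ : x ∈ (Q : Subgroup G)) : x = 1 := by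
  have : Fact (Nat.Prime 3) := ⟨by norm_num⟩
  by_contra hx1
  have hPL : (P : Subgroup G) ≤ centralizer ({x} : Set G) := by
    intro a ha
    rw [mem_centralizer_iff]
    intro y hy
    have hy' : y = x := hy
    rw [hy']
    exact g504_sylow3_comm h P x hxP a ha
  have hQL : (Q : Subgroup G) ≤ centralizer ({x} : Set G) := by
    intro a ha
    rw [mem_centralizer_iff]
    intro y hy
    have hy' : y = x := hy
    rw [hy']
    exact g504_sylow3_comm h Q x hxQ a ha
  have hLtop := simple_centralizer_ne_top (g504_not_comm h) hx1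
  obtain ⟨j, hj, hdvd, hmod, hgt⟩ := card_sylow_subgroup_facts (centralizer ({x} : Set G)) P Q
    hPL hQL hPQ
  rw [g504_card_sylow3 h P] at hj
  have hLle := g504_card_le h _ hLtop
  have hLdvd := Subgroup.card_subgroup_dvd_card (centralizer ({x} : Set G))
  rw [h, hj] at hLdvd
  rw [hj] at hLle
  have hj56 : j ∣ 56 := by
    have : 9 * j ∣ 9 * 56 := by simpa using hLdvd
    exact (Nat.mul_dvd_mul_iff_left (by norm_num)).mp this
  have hj6 : j ≤ 6 := by omega
  have hj4 : j = 4 := by
    have hjpos : 0 < j := Nat.pos_of_dvd_of_pos hj56 (by norm_num)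
    have hn4 : 4 ≤ Nat.card (Sylow 3 (centralizer ({x} : Set G))) := by omega
    have hnle : Nat.card (Sylow 3 (centralizer ({x} : Set G))) ≤ j := Nat.le_of_dvd hjpos hdvd
    interval_cases j <;> omega
  rw [hj4] at hj
  -- the involution inverting `P`
  obtain ⟨t, htN, htP, ht2, htinv⟩ := g504_exists_inverting h P
  have htx := htinv x hxP
  have htinv' : t⁻¹ = t := cit_inv_of_sq ht2
  have hx2 := g504_sylow3_sq_ne h P hxP hx1
  have htL : t ∉ centralizer ({x} : Set G) := by
    intro htL
    rw [mem_centralizer_iff] at htL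
    have h1 : x * t = t * x := htL x rfl
    apply hx2
    have h3 : t * x * t⁻¹ = x := by rw [← h1]; group
    rw [htx] at h3
    rw [sq]
    nth_rewrite 1 [← h3]
    exact inv_mul_cancel x
  have hconj : ∀ c ∈ centralizer ({x} : Set G), t * c * t⁻¹ ∈ centralizer ({x} : Set G) := by
    intro c hc
    rw [mem_centralizer_iff] at hc ⊢
    intro y hy
    have hy' : y = x := hy
    rw [hy']
    have h1 : x * c = c * x := hc x rfl
    have h2 : t⁻¹ * x * t = x⁻¹ := cit_conj_inv_of_inverts htx
    have h3 : x⁻¹ * c = c * x⁻¹ := by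
      have : x⁻¹ * (x * c) * x⁻¹ = x⁻¹ * (c * x) * x⁻¹ := by rw [h1]
      have h3' : c * x⁻¹ = x⁻¹ * c := by simpa [mul_assoc] using this
      exact h3'.symm
    have h4 : t * x⁻¹ * t⁻¹ = x := by
      have := congrArg Inv.inv htx
      simpa [mul_assoc] using this
    calc x * (t * c * t⁻¹) = t * (t⁻¹ * x * t) * c * t⁻¹ := by group
      _ = t * (x⁻¹ * c) * t⁻¹ := by rw [h2]; group
      _ = t * (c * x⁻¹) * t⁻¹ := by rw [h3]
      _ = t * c * t⁻¹ * (t * x⁻¹ * t⁻¹) := by group
      _ = t * c * t⁻¹ * x := by rw [h4]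
  have htM : t ∈ normalizer ((centralizer ({x} : Set G) : Subgroup G) : Set G) := by
    rw [mem_normalizer_iff]
    intro c
    constructor
    · exact hconj c
    · intro hc
      have h1 := hconj _ hc
      have h2 : t * (t * c * t⁻¹) * t⁻¹ = c := by
        have htt : t * t = 1 := by rw [← sq, ht2]
        calc t * (t * c * t⁻¹) * t⁻¹ = (t * t) * c * (t⁻¹ * t⁻¹) := by group
          _ = c := by rw [htinv', htt, one_mul, mul_one]
      rwa [h2] at h1
  have hLbot : centralizer ({x} : Set G) ≠ ⊥ := by
    intro hb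
    have : x ∈ centralizer ({x} : Set G) := hPL hxP
    rw [hb, mem_bot] at this
    exact hx1 this
  have hMtop := simple_normalizer_ne_top (centralizer ({x} : Set G)) hLbot hLtop
  have hMle := g504_card_le h _ hMtop
  have hlt : centralizer ({x} : Set G) <
      normalizer ((centralizer ({x} : Set G) : Subgroup G) : Set G) :=
    lt_of_le_of_ne le_normalizer (fun heq => htL (by rw [heq]; exact htM))
  have h1 := card_lt_of_lt hlt
  have h2 := Subgroup.card_dvd_of_le (le_normalizer (H := centralizer ({x} : Set G)))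
  rw [hj] at h1 h2
  obtain ⟨k, hk⟩ := h2
  rw [hk] at h1 hMle
  omega

/-- The centralizer of a non-identity element of a Sylow 3-subgroup is that subgroup. -/
theorem g504_centralizer3 (h : Nat.card G = 504) (P : Sylow 3 G) {x c : G}
    (hx : x ∈ (P : Subgroup G)) (hx1 : x ≠ 1) (hc : c * x = x * c) : c ∈ (P : Subgroup G) := by
  have : Fact (Nat.Prime 3) := ⟨by norm_num⟩
  have hcP : c • P = P := by
    by_contra hne
    apply hx1
    apply g504_sylow3_TI h P (c • P) (fun h' => hne h'.symm) hx
    rw [mem_smul_sylow_iff]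
    have h1 : c⁻¹ * x * c = x := by
      rw [mul_assoc, ← hc, inv_mul_cancel_left]
    rw [h1]
    exact hx
  have hcN : c ∈ normalizer ((P : Subgroup G) : Set G) := Sylow.smul_eq_iff_mem_normalizer.mp hcP
  by_contra hcP'
  obtain ⟨t, htN, htP, ht2, htinv⟩ := g504_exists_inverting h P
  have h1 := g504_normalizer3_comm h P hx hcN hcP' hc t htN
  have htx := htinv x hx
  apply g504_sylow3_sq_ne h P hx hx1
  have h3 : t * x * t⁻¹ = x := by rw [h1]; group
  rw [htx] at h3
  rw [sq]
  nth_rewrite 1 [← h3]
  exact inv_mul_cancel x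

/-- Every element has order 7, or is a non-identity 3-element, or is a 2-element. -/
theorem g504_order (h : Nat.card G = 504) (g : G) :
    orderOf g = 7 ∨ (g ≠ 1 ∧ ∃ P : Sylow 3 G, g ∈ (P : Subgroup G)) ∨ g ^ 8 = 1 := by
  have hp7 : Fact (Nat.Prime 7) := ⟨by norm_num⟩
  have hp3 : Fact (Nat.Prime 3) := ⟨by norm_num⟩
  by_cases h7 : 7 ∣ orderOf g
  · left
    exact orderOf_eq_prime_of_dvd (p := 7) (m := 72) (h.trans (by norm_num)) (by norm_num)
      (g504_C7 h) g h7
  · by_cases h3 : 3 ∣ orderOf g
    · right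
      left
      obtain ⟨j, hj⟩ := exists_pow_orderOf_eq_prime g h3 (orderOf_pos g).ne'
      have hy1 : g ^ j ≠ 1 := by
        intro hy
        rw [hy, orderOf_one] at hj
        omega
      have hpg : IsPGroup 3 (zpowers (g ^ j)) :=
        IsPGroup.of_card (n := 1) (by rw [Nat.card_zpowers, hj, pow_one])
      obtain ⟨P, hP⟩ := hpg.exists_le_sylow
      have hyP : g ^ j ∈ (P : Subgroup G) := hP (mem_zpowers _)
      refine ⟨?_, P, g504_centralizer3 h P hyP hy1 (by rw [← pow_succ', ← pow_succ])⟩
      rintro rfl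
      rw [orderOf_one] at h3
      omega
    · right
      right
      have hdvd : orderOf g ∣ 504 := by
        rw [← h]
        exact orderOf_dvd_natCard g
      have hc7 : (orderOf g).Coprime 7 :=
        Nat.Coprime.symm ((Nat.Prime.coprime_iff_not_dvd (by norm_num)).mpr h7)
      have hc3 : (orderOf g).Coprime 3 :=
        Nat.Coprime.symm ((Nat.Prime.coprime_iff_not_dvd (by norm_num)).mpr h3)
      have hc63 : (orderOf g).Coprime 63 := by
        have : (orderOf g).Coprime (3 ^ 2 * 7) :=
          Nat.Coprime.mul_right (Nat.Coprime.pow_right 2 hc3) hc7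
        simpa using this
      have h8 : orderOf g ∣ 8 := by
        have : orderOf g ∣ 63 * 8 := by simpa using hdvd
        exact hc63.dvd_of_dvd_mul_left this
      exact orderOf_dvd_iff_pow_eq_one.mp h8

/-- There are at most 64 elements `g` with `g ^ 8 = 1`. -/
theorem g504_card_two_elements (h : Nat.card G = 504) [Fintype G] [DecidableEq G] :
    (Finset.univ.filter (fun g : G => g ^ 8 = 1)).card ≤ 64 := by
  classical
  have hp7 : Fact (Nat.Prime 7) := ⟨by norm_num⟩
  have hp3 : Fact (Nat.Prime 3) := ⟨by norm_num⟩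
  have : Fintype (Sylow 3 G) := Fintype.ofFinite _
  set A := Finset.univ.filter (fun g : G => orderOf g = 7) with hA
  set B := (Finset.univ : Finset (Sylow 3 G)).biUnion
    (fun P => Finset.univ.filter (fun g : G => g ∈ (P : Subgroup G) ∧ g ≠ 1)) with hB
  set U := Finset.univ.filter (fun g : G => g ^ 8 = 1) with hU
  have hAcard : A.card = 216 := by
    have h1 := card_orderOf_eq_prime (G := G) (p := 7) (m := 72) (h.trans (by norm_num))
      (by norm_num)
    rw [g504_n7 h, Nat.card_eq_fintype_card, Fintype.card_subtype] at h1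
    exact h1
  have hBcard : B.card = 224 := by
    rw [hB, Finset.card_biUnion]
    · have hconst : ∀ P ∈ (Finset.univ : Finset (Sylow 3 G)),
          (Finset.univ.filter (fun g : G => g ∈ (P : Subgroup G) ∧ g ≠ 1)).card = 8 := by
        intro P _
        rw [card_filter_mem_ne_one, g504_card_sylow3 h P]
      rw [Finset.sum_congr rfl hconst, Finset.sum_const, smul_eq_mul, Finset.card_univ,
        ← Nat.card_eq_fintype_card, g504_n3 h]
    · intro P _ Q _ hPQ
      rw [Function.onFun, Finset.disjoint_left]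
      intro g hg hg'
      rw [Finset.mem_filter] at hg hg'
      exact hg.2.2 (g504_sylow3_TI h P Q hPQ hg.2.1 hg'.2.1)
  have hBmem : ∀ g ∈ B, ∃ P : Sylow 3 G, g ∈ (P : Subgroup G) ∧ g ≠ 1 := by
    intro g hg
    rw [hB, Finset.mem_biUnion] at hg
    obtain ⟨P, -, hP⟩ := hg
    rw [Finset.mem_filter] at hP
    exact ⟨P, hP.2⟩
  have hAB : Disjoint A B := by
    rw [Finset.disjoint_left]
    intro g hgA hgB
    rw [hA, Finset.mem_filter] at hgA
    obtain ⟨P, hP, -⟩ := hBmem g hgB
    have h9 := g504_sylow3_pow h P hP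
    have h3 : orderOf g ∣ 9 := orderOf_dvd_of_pow_eq_one h9
    rw [hgA.2] at h3
    revert h3
    decide
  have hAU : Disjoint A U := by
    rw [Finset.disjoint_left]
    intro g hgA hgU
    rw [hA, Finset.mem_filter] at hgA
    rw [hU, Finset.mem_filter] at hgU
    have h3 : orderOf g ∣ 8 := orderOf_dvd_of_pow_eq_one hgU.2
    rw [hgA.2] at h3
    revert h3
    decide
  have hBU : Disjoint B U := by
    rw [Finset.disjoint_left]
    intro g hgB hgU
    obtain ⟨P, hP, hg1⟩ := hBmem g hgB
    rw [hU, Finset.mem_filter] at hgU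
    apply hg1
    have h9 := g504_sylow3_pow h P hP
    have h3 : g ^ 9 = g ^ 8 * g := by rw [← pow_succ]
    rw [h3, hgU.2, one_mul] at h9
    exact h9
  have hunion : (A ∪ B ∪ U).card = A.card + B.card + U.card := by
    rw [Finset.card_union_of_disjoint, Finset.card_union_of_disjoint hAB]
    rw [Finset.disjoint_union_left]
    exact ⟨hAU, hBU⟩
  have hle : (A ∪ B ∪ U).card ≤ Fintype.card G := Finset.card_le_univ _
  rw [← Nat.card_eq_fintype_card, h, hunion, hAcard, hBcard] at hle
  omega

/-- In a simple group of order 504, every element commuting with an involution has square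
one. -/
theorem g504_invCent (h : Nat.card G = 504) : InvCentElem G := by
  classical
  have hp7 : Fact (Nat.Prime 7) := ⟨by norm_num⟩
  have hp3 : Fact (Nat.Prime 3) := ⟨by norm_num⟩
  have : Fintype G := Fintype.ofFinite G
  intro t c ht1 ht2 hct
  have hto : orderOf t = 2 := orderOf_eq_prime ht2 ht1
  -- the centralizer of `t` consists of 2-elements
  have hC8 : ∀ g : G, g * t = t * g → g ^ 8 = 1 := by
    intro g hg
    rcases g504_order h g with h7 | ⟨hg1, P, hP⟩ | h8
    · exfalso
      obtain ⟨P, hP⟩ := exists_sylow_eq_zpowers (p := 7) (m := 72) (h.trans (by norm_num))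
        (by norm_num) g h7
      have htC : t ∈ centralizer ((P : Subgroup G) : Set G) := by
        rw [mem_centralizer_iff]
        intro y hy
        have hy' : y ∈ zpowers g := by rw [← hP]; exact hy
        obtain ⟨k, rfl⟩ := mem_zpowers_iff.mp hy'
        exact (Commute.zpow_left (show Commute g t from hg) k).eq
      rw [g504_C7 h P] at htC
      have h7' : (⟨t, htC⟩ : (P : Subgroup G)) ^ 7 = 1 := by
        have h0 := pow_card_eq_one' (G := (P : Subgroup G)) (x := ⟨t, htC⟩)
        rwa [g504_card_sylow7 h P] at h0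
      have h7'' : t ^ 7 = 1 := congrArg Subtype.val h7'
      have h3 : orderOf t ∣ 7 := orderOf_dvd_of_pow_eq_one h7''
      rw [hto] at h3
      revert h3
      decide
    · exfalso
      have htP : t ∈ (P : Subgroup G) := g504_centralizer3 h P hP hg1 hg.symm
      have h9 := g504_sylow3_pow h P htP
      have h3 : orderOf t ∣ 9 := orderOf_dvd_of_pow_eq_one h9
      rw [hto] at h3
      revert h3
      decide
    · exact h8
  -- the centralizer has order at most 8
  have hCcard : Nat.card (centralizer ({t} : Set G)) ≤ 8 := by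
    have hpg : IsPGroup 2 (centralizer ({t} : Set G)) := by
      intro g
      refine ⟨3, ?_⟩
      apply Subtype.ext
      have hg := g.2
      rw [mem_centralizer_iff] at hg
      have := hC8 g (hg t rfl).symm
      simpa using this
    obtain ⟨Q, hQ⟩ := hpg.exists_le_sylow
    have h1 := Subgroup.card_le_of_le hQ
    have h2 : Nat.card (Q : Subgroup G) = 8 := by
      have h1' : Nat.card G = 2 ^ 3 * 63 := h.trans (by norm_num)
      simpa using sylow_card_of_eq h1' (by norm_num : ¬ 2 ∣ 63) Q
    omega
  -- the class of `t`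
  have hclass : 63 ≤ (Finset.univ.filter (fun g : G => IsConj t g)).card := by
    have h1 := card_isConj_eq_index t
    rw [Nat.card_eq_fintype_card, Fintype.card_subtype] at h1
    rw [h1]
    have h2 := (centralizer ({t} : Set G)).card_mul_index
    rw [h] at h2
    nlinarith
  have hsub : Finset.univ.filter (fun g : G => IsConj t g) ⊆
      (Finset.univ.filter (fun g : G => g ^ 8 = 1)).erase 1 := by
    intro g hg
    rw [Finset.mem_filter] at hg
    obtain ⟨w, rfl⟩ := isConj_iff.mp hg.2
    rw [Finset.mem_erase, Finset.mem_filter]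
    refine ⟨?_, Finset.mem_univ _, ?_⟩
    · intro h1
      apply ht1
      have h2 : w⁻¹ * (w * t * w⁻¹) * w = w⁻¹ * 1 * w := by rw [h1]
      simpa [mul_assoc] using h2
    · rw [conj_pow, show t ^ 8 = (t ^ 2) ^ 4 by rw [← pow_mul], ht2, one_pow, mul_one,
        mul_inv_cancel]
  have hU := g504_card_two_elements h
  have hUe : ((Finset.univ.filter (fun g : G => g ^ 8 = 1)).erase 1).card ≤ 63 := by
    rw [Finset.card_erase_of_mem (by simp)]
    omega
  have heq : Finset.univ.filter (fun g : G => IsConj t g) =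
      (Finset.univ.filter (fun g : G => g ^ 8 = 1)).erase 1 :=
    Finset.eq_of_subset_of_card_le hsub (by omega)
  by_cases hc1 : c = 1
  · rw [hc1, one_pow]
  · have hcU : c ∈ (Finset.univ.filter (fun g : G => g ^ 8 = 1)).erase 1 := by
      rw [Finset.mem_erase, Finset.mem_filter]
      exact ⟨hc1, Finset.mem_univ _, hC8 c hct⟩
    rw [← heq, Finset.mem_filter] at hcU
    obtain ⟨w, rfl⟩ := isConj_iff.mp hcU.2
    rw [conj_pow, ht2, mul_one, mul_inv_cancel]

end

end Cfsg.Agent.Lib.Helper23
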