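import Mathlib

set_option autoImplicit false

namespace Cfsg.Agent.Lib.Helper48.QB

-- QB-PRED (backup copy by helper23)
theorem prime_red {G : Type*} [Group G] [Finite G] (n : ℕ)
    (hkey : ∀ y : G, (orderOf y).Prime → y ^ n = 1 →
      ∀ a ∈ Subgroup.centralizer {y}, ∀ b ∈ Subgroup.centralizer {y}, a * b = b * a)
    (x : G) (hx : x ≠ 1) (hxn : x ^ n = 1) :
    ∃ y : G, (orderOf y).Prime ∧ y ^ n = 1 ∧
      Subgroup.centralizer {x} = Subgroup.centralizer {y} := by
  have hox : orderOf x ≠ 1 := fun h => hx (orderOf_eq_one_iff.mp h)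
  have hpos : orderOf x ≠ 0 := (orderOf_pos x).ne'
  have hrp : (orderOf x).minFac.Prime := Nat.minFac_prime hox
  have hy : (orderOf (x ^ (orderOf x / (orderOf x).minFac))).Prime := by
    rw [orderOf_pow_orderOf_div hpos (Nat.minFac_dvd _)]
    exact hrp
  have hyn : (x ^ (orderOf x / (orderOf x).minFac)) ^ n = 1 := by
    rw [← pow_mul, mul_comm, pow_mul, hxn, one_pow]
  refine ⟨x ^ (orderOf x / (orderOf x).minFac), hy, hyn, ?_⟩
  apply le_antisymm
  · intro g hg
    rw [Subgroup.mem_centralizer_iff] at hg ⊢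
    intro h hh
    rw [Set.mem_singleton_iff] at hh
    subst hh
    have hc : Commute x g := hg x rfl
    exact (hc.pow_left _).eq
  · intro g hg
    have hxmem : x ∈ Subgroup.centralizer {x ^ (orderOf x / (orderOf x).minFac)} := by
      rw [Subgroup.mem_centralizer_iff]
      intro h hh
      rw [Set.mem_singleton_iff] at hh
      subst hh
      exact ((Commute.refl x).pow_left _).eq
    rw [Subgroup.mem_centralizer_iff]
    intro h hh
    rw [Set.mem_singleton_iff] at hh
    subst hh
    exact hkey _ hy hyn h hxmem g hg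

end Cfsg.Agent.Lib.Helper48.QB
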