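import Mathlib
import Cfsg.Agent.Lib.Helper93.Sl3Defs

/-!
# Piece L12 for S2287 (helper93): `rootData_of_xt`.
-/

set_option autoImplicit false

namespace Cfsg.Agent.Lib.Helper93.Sl3

open Polynomial Matrix

/-- L12 -/
theorem rootData_of_xt {F : Type*} [Field F] (ζ : F) (hζ0 : ζ ≠ 0)
    (hζ : ∀ a : F, a ≠ 0 → ∃ j : ℕ, a = ζ ^ j)
    {P : Type*} [Group P] (u h t c : P) (p : ℕ) (m : (ZMod p)[X]) (x : F → P)
    (hadd : ∀ a b, x (a + b) = x a * x b) (hx1 : x 1 = u)
    (hg : ∀ a, (gC h c)⁻¹ * x a * gC h c = x (ζ * a))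
    (hrel : ∀ r ∈ relsCore p m u h t c, r = 1) : RootData ζ x h t c := by
  have r3 : h * (c * h * c⁻¹) * h⁻¹ * (c * h * c⁻¹)⁻¹ = 1 := hrel _ (by simp [relsCore])
  have r4 : (h⁻¹ * u * h)⁻¹ * Pres.aC u (gC h c) 2 = 1 := hrel _ (by simp [relsCore])
  have r5 : h * (c * h * c⁻¹) * (c⁻¹ * h * c) = 1 := hrel _ (by simp [relsCore])
  have r6 : t * h * t⁻¹ * h = 1 := hrel _ (by simp [relsCore])
  have r7 : u * t⁻¹ * u * t * u * t⁻¹ = 1 := hrel _ (by simp [relsCore])
  have r8 : c ^ 3 = 1 := hrel _ (by simp [relsCore])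
  have r9 : (c * t⁻¹) ^ 2 = 1 := hrel _ (by simp [relsCore])
  have r10 : stRel u h t c 0 0 = 1 := hrel _ (by simp [relsCore])
  have r11 : stRel u h t c 1 0 = 1 := hrel _ (by simp [relsCore])
  have r12 : stRel u h t c 0 1 = 1 := hrel _ (by simp [relsCore])
  have hx0 : x 0 = 1 := by
    have h0 := hadd 0 0
    rw [add_zero] at h0
    exact left_eq_mul.mp h0
  have hx : ∀ j : ℕ, x (ζ ^ j) = Pres.aC u (gC h c) j := by
    intro j
    induction j with
    | zero => rw [pow_zero, hx1, Pres.aC_zero]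
    | succ j ih => rw [pow_succ', ← hg, ih, Pres.aC_succ]
  have hhk : h * (c * h * c⁻¹) = c * h * c⁻¹ * h := by
    calc h * (c * h * c⁻¹)
        = (h * (c * h * c⁻¹) * h⁻¹ * (c * h * c⁻¹)⁻¹) * (c * h * c⁻¹ * h) := by group
      _ = c * h * c⁻¹ * h := by rw [r3, one_mul]
  have hcg : Commute h (gC h c) := by
    have e : gC h c = (c * h * c⁻¹)⁻¹ := by unfold gC; group
    rw [e]
    exact (show Commute h (c * h * c⁻¹) from hhk).inv_right
  have hu2 : h⁻¹ * u * h = Pres.aC u (gC h c) 2 := by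
    have := inv_mul_eq_one.mp r4
    exact this
  have x0 : Pres.aC u (gC h c) 0 = x 1 := by rw [Pres.aC_zero, hx1]
  have x1 : Pres.aC u (gC h c) 1 = x ζ := by rw [← hx 1, pow_one]
  refine
    { add := hadd
      gconj := hg
      hconj := ?_
      hh := hhk
      hprod := r5
      th := eq_inv_of_mul_eq_one_left r6
      w1 := ?_
      c3 := r8
      ct := r9
      st00 := ?_
      st10 := ?_
      st01 := ?_ }
  · intro a
    by_cases ha : a = 0
    · rw [ha, mul_zero, hx0]; group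
    · obtain ⟨j, rfl⟩ := hζ a ha
      rw [← pow_add, hx, hx, Pres.aC_add u (gC h c) 2 j, ← hu2]
      unfold Pres.aC
      have c1 : Commute h⁻¹ ((gC h c)⁻¹ ^ j) := (hcg.inv_left.inv_right).pow_right j
      have c2 : Commute h (gC h c ^ j) := hcg.pow_right j
      calc h⁻¹ * ((gC h c)⁻¹ ^ j * u * gC h c ^ j) * h
          = (h⁻¹ * (gC h c)⁻¹ ^ j) * u * (gC h c ^ j * h) := by simp only [mul_assoc]
        _ = ((gC h c)⁻¹ ^ j * h⁻¹) * u * (h * gC h c ^ j) := by rw [c1.eq, c2.eq]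
        _ = (gC h c)⁻¹ ^ j * (h⁻¹ * u * h) * gC h c ^ j := by simp only [mul_assoc]
  · rw [hx1]
    exact mul_inv_eq_one.mp r7
  · unfold stRel at r10
    rw [add_zero, x0] at r10
    exact mul_inv_eq_one.mp r10
  · unfold stRel at r11
    rw [add_zero, x0, x1] at r11
    exact mul_inv_eq_one.mp r11
  · unfold stRel at r12
    rw [zero_add, x0, x1] at r12
    exact mul_inv_eq_one.mp r12

end Cfsg.Agent.Lib.Helper93.Sl3
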