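import Mathlib
import Cfsg.Agent.Lib.Helper93.Sl3Defs

/-!
# Piece MOVES for S2287 (helper93): `moves`.
-/

set_option autoImplicit false

namespace Cfsg.Agent.Lib.Helper93.Sl3

open Polynomial Matrix

section level2

variable {F : Type*} [Field F] {P : Type*} [Group P] {ζ : F} {x : F → P} {h t c : P}

/-- MOVES -/
theorem moves (D : RootData ζ x h t c) (R : TorRel h t c) (hζ0 : ζ ≠ 0)
    (ht2 : t ^ 2 ∈ Subgroup.zpowers h) : Moves ζ x h t c := by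
  have gx : ∀ a, gC h c * x a * (gC h c)⁻¹ = x (ζ⁻¹ * a) := by
    intro a
    have e := D.gconj (ζ⁻¹ * a)
    have e2 : ζ * (ζ⁻¹ * a) = a := by field_simp
    rw [e2] at e
    rw [← e]; group
  have h12 : ∀ a, h * x a * h⁻¹ = x (ζ⁻¹ ^ 2 * a) := by
    intro a
    have e := D.hconj (ζ⁻¹ ^ 2 * a)
    have e2 : ζ ^ 2 * (ζ⁻¹ ^ 2 * a) = a := by field_simp
    rw [e2] at e
    rw [← e]; group
  have k12 : ∀ a, c * h * c⁻¹ * x a * (c * h * c⁻¹)⁻¹ = x (ζ * a) := by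
    intro a
    rw [← D.gconj a]; unfold gC; group
  have hh3 : ∀ b, (c⁻¹ * h * c) * x b * (c⁻¹ * h * c)⁻¹ = x (ζ * b) := by
    intro b
    rw [R.h3]
    calc (h * (c * h * c⁻¹))⁻¹ * x b * ((h * (c * h * c⁻¹))⁻¹)⁻¹
        = gC h c * (h⁻¹ * x b * h) * (gC h c)⁻¹ := by unfold gC; group
      _ = gC h c * x (ζ ^ 2 * b) * (gC h c)⁻¹ := by rw [D.hconj]
      _ = x (ζ⁻¹ * (ζ ^ 2 * b)) := gx _
      _ = x (ζ * b) := by congr 1; field_simp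
  have h23 : ∀ b, h * (c * x b * c⁻¹) * h⁻¹ = c * x (ζ * b) * c⁻¹ := by
    intro b
    calc h * (c * x b * c⁻¹) * h⁻¹
        = c * ((c⁻¹ * h * c) * x b * (c⁻¹ * h * c)⁻¹) * c⁻¹ := by group
      _ = c * x (ζ * b) * c⁻¹ := by rw [hh3]
  have k23 : ∀ b, c * h * c⁻¹ * (c * x b * c⁻¹) * (c * h * c⁻¹)⁻¹ =
      c * x (ζ⁻¹ ^ 2 * b) * c⁻¹ := by
    intro b
    calc c * h * c⁻¹ * (c * x b * c⁻¹) * (c * h * c⁻¹)⁻¹
        = c * (h * x b * h⁻¹) * c⁻¹ := by group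
      _ = c * x (ζ⁻¹ ^ 2 * b) * c⁻¹ := by rw [h12]
  have h23' : ∀ d, h⁻¹ * (c * x d * c⁻¹) * h = c * x (ζ⁻¹ * d) * c⁻¹ := by
    intro d
    have e := h23 (ζ⁻¹ * d)
    have e2 : ζ * (ζ⁻¹ * d) = d := by field_simp
    rw [e2] at e
    rw [← e]; group
  have h13 : ∀ d, h * (t * c * x d * c⁻¹ * t⁻¹) * h⁻¹ = t * c * x (ζ⁻¹ * d) * c⁻¹ * t⁻¹ := by
    intro d
    calc h * (t * c * x d * c⁻¹ * t⁻¹) * h⁻¹
        = t * ((t⁻¹ * h * t) * (c * x d * c⁻¹) * (t⁻¹ * h * t)⁻¹) * t⁻¹ := by group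
      _ = t * (h⁻¹ * (c * x d * c⁻¹) * h) * t⁻¹ := by rw [R.th', inv_inv]
      _ = t * (c * x (ζ⁻¹ * d) * c⁻¹) * t⁻¹ := by rw [h23']
      _ = t * c * x (ζ⁻¹ * d) * c⁻¹ * t⁻¹ := by group
  have htk : t⁻¹ * (c * h * c⁻¹) * t = h * (c * h * c⁻¹) := by
    obtain ⟨k, hk⟩ := Subgroup.mem_zpowers_iff.mp ht2
    have c1 : Commute (h * (c * h * c⁻¹)) (t ^ 2) := by
      rw [← hk]
      have ca : Commute h (h ^ k) := (Commute.refl h).zpow_right k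
      have cb : Commute (c * h * c⁻¹) (h ^ k) :=
        (show Commute (c * h * c⁻¹) h from D.hh.symm).zpow_right k
      exact ca.mul_left cb
    calc t⁻¹ * (c * h * c⁻¹) * t
        = (t ^ 2)⁻¹ * (t * (c * h * c⁻¹) * t⁻¹) * t ^ 2 := by group
      _ = (t ^ 2)⁻¹ * (h * (c * h * c⁻¹)) * t ^ 2 := by rw [R.th2]
      _ = (t ^ 2)⁻¹ * (t ^ 2 * (h * (c * h * c⁻¹))) := by rw [mul_assoc, c1.eq]
      _ = h * (c * h * c⁻¹) := by group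
  have k13 : ∀ d, c * h * c⁻¹ * (t * c * x d * c⁻¹ * t⁻¹) * (c * h * c⁻¹)⁻¹ =
      t * c * x (ζ⁻¹ * d) * c⁻¹ * t⁻¹ := by
    intro d
    calc c * h * c⁻¹ * (t * c * x d * c⁻¹ * t⁻¹) * (c * h * c⁻¹)⁻¹
        = t * ((t⁻¹ * (c * h * c⁻¹) * t) * (c * x d * c⁻¹) * (t⁻¹ * (c * h * c⁻¹) * t)⁻¹) * t⁻¹ := by
          group
      _ = t * ((h * (c * h * c⁻¹)) * (c * x d * c⁻¹) * (h * (c * h * c⁻¹))⁻¹) * t⁻¹ := by
          rw [htk]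
      _ = t * (h * (c * h * c⁻¹ * (c * x d * c⁻¹) * (c * h * c⁻¹)⁻¹) * h⁻¹) * t⁻¹ := by group
      _ = t * (h * (c * x (ζ⁻¹ ^ 2 * d) * c⁻¹) * h⁻¹) * t⁻¹ := by rw [k23]
      _ = t * (c * x (ζ * (ζ⁻¹ ^ 2 * d)) * c⁻¹) * t⁻¹ := by rw [h23]
      _ = t * (c * x (ζ⁻¹ * d) * c⁻¹) * t⁻¹ := by
          have e2 : ζ * (ζ⁻¹ ^ 2 * d) = ζ⁻¹ * d := by field_simp
          rw [e2]
      _ = t * c * x (ζ⁻¹ * d) * c⁻¹ * t⁻¹ := by group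
  exact ⟨h12, k12, h23, k23, h13, k13⟩

end level2

end Cfsg.Agent.Lib.Helper93.Sl3
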