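import Mathlib

/-!
# Piece GB for S4923 (helper83)
-/

set_option autoImplicit false

namespace Cfsg.Agent.Lib.Helper23.T23

open scoped Pointwise

/-- A group of order `2^n` with a central element of order `2^(n-1)` is commutative
(stated for a subgroup). -/
theorem gb_comm_of_central {G : Type*} [Group G] [Finite G] (Q : Subgroup G) (n : ℕ) (hn : 1 ≤ n)
    (hQ : Nat.card Q = 2 ^ n) (g : G) (hgQ : g ∈ Q) (ho : orderOf g = 2 ^ (n - 1))
    (hc : ∀ q ∈ Q, q * g = g * q) : ∀ a ∈ Q, ∀ b ∈ Q, a * b = b * a := by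
  have hg0 : (⟨g, hgQ⟩ : Q) ∈ Subgroup.center Q := by
    rw [Subgroup.mem_center_iff]
    intro q
    exact Subtype.ext (hc q q.2)
  have hle : Subgroup.zpowers (⟨g, hgQ⟩ : Q) ≤ Subgroup.center Q :=
    Subgroup.zpowers_le.mpr hg0
  have hcz : Nat.card (Subgroup.zpowers (⟨g, hgQ⟩ : Q)) = 2 ^ (n - 1) := by
    rw [Nat.card_zpowers, ← ho]
    exact Subgroup.orderOf_mk g hgQ
  obtain ⟨c, hc1⟩ := Subgroup.card_dvd_of_le hle
  rw [hcz] at hc1
  have hmul := Subgroup.card_mul_index (Subgroup.center Q)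
  rw [hQ, hc1] at hmul
  have hidx : (Subgroup.center Q).index ∣ 2 := by
    have h2 : 2 ^ n = 2 ^ (n - 1) * 2 := by
      rw [← pow_succ]
      congr 1
      omega
    rw [h2, mul_assoc] at hmul
    have h3 : c * (Subgroup.center Q).index = 2 :=
      Nat.eq_of_mul_eq_mul_left (by positivity) hmul
    exact Dvd.intro_left _ h3
  have hcyc : IsCyclic (Q ⧸ Subgroup.center Q) := by
    have hcard : Nat.card (Q ⧸ Subgroup.center Q) ∣ 2 := hidx
    rcases (Nat.dvd_prime Nat.prime_two).mp hcard with h1 | h2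
    · have : Subsingleton (Q ⧸ Subgroup.center Q) := (Nat.card_eq_one_iff_unique.mp h1).1
      exact isCyclic_of_subsingleton
    · have : Fact (Nat.Prime 2) := ⟨Nat.prime_two⟩
      exact isCyclic_of_prime_card h2
  intro a ha b hb
  have hcm := (QuotientGroup.mk' (Subgroup.center Q)).isMulCommutative_of_isCyclic_of_ker_le_center
    (by rw [QuotientGroup.ker_mk'])
  have h := hcm.is_comm.comm (⟨a, ha⟩ : Q) ⟨b, hb⟩
  exact congrArg Subtype.val h

theorem gb {G : Type*} [Group G] [Finite G] (P : Sylow 2 G) (n : ℕ) (hn : 1 ≤ n)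
    (hP : Nat.card P = 2 ^ n) (g t : G) (hg : g ∈ (P : Subgroup G)) (ht : t ∈ (P : Subgroup G))
    (ho : orderOf g = 2 ^ (n - 1)) (hgt : t * g ≠ g * t) :
    2 ∣ (Subgroup.centralizer ({g} : Set G)).index := by
  by_contra h2
  have : Fact (Nat.Prime 2) := ⟨Nat.prime_two⟩
  set K := Subgroup.centralizer ({g} : Set G) with hK
  have hgK : g ∈ K := by
    rw [hK, Subgroup.mem_centralizer_iff]
    intro h hh
    rw [Set.mem_singleton_iff] at hh
    rw [hh]
  -- the 2-part of `|K|` is `2^n`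
  have hfacG : (Nat.card G).factorization 2 = n := by
    have h1 := P.card_eq_multiplicity
    rw [hP] at h1
    exact (Nat.pow_right_injective (le_refl 2) h1).symm
  have hfacK : (Nat.card K).factorization 2 = n := by
    have h1 := Subgroup.card_mul_index K
    have h3 : (K.index).factorization 2 = 0 := Nat.factorization_eq_zero_of_not_dvd h2
    have h4 : (Nat.card K * K.index).factorization 2 =
        (Nat.card K).factorization 2 + (K.index).factorization 2 := by
      rw [Nat.factorization_mul Nat.card_pos.ne' (Subgroup.index_ne_zero_of_finite)]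
      rfl
    rw [h1, hfacG, h3, add_zero] at h4
    exact h4.symm
  -- a Sylow 2-subgroup of `K` containing `g`
  have hpg : IsPGroup 2 (Subgroup.zpowers (⟨g, hgK⟩ : K)) := by
    apply IsPGroup.of_card (n := n - 1)
    rw [Nat.card_zpowers, ← ho]
    exact Subgroup.orderOf_mk g hgK
  obtain ⟨Q', hQ'⟩ := hpg.exists_le_sylow
  have hQ'card : Nat.card Q' = 2 ^ n := by
    rw [Q'.card_eq_multiplicity, hfacK]
  set Q : Subgroup G := (Q' : Subgroup K).map K.subtype with hQ
  have hQcard : Nat.card Q = 2 ^ n := by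
    rw [hQ, Subgroup.card_map_of_injective K.subtype_injective]
    exact hQ'card
  have hgQ : g ∈ Q := ⟨⟨g, hgK⟩, hQ' (Subgroup.mem_zpowers _), rfl⟩
  have hQc : ∀ q ∈ Q, q * g = g * q := by
    rintro _ ⟨k, -, rfl⟩
    have hk : (k : G) ∈ Subgroup.centralizer ({g} : Set G) := k.2
    rw [Subgroup.mem_centralizer_iff] at hk
    exact (hk g (Set.mem_singleton g)).symm
  have hQab := gb_comm_of_central Q n hn hQcard g hgQ ho hQc
  -- `Q` is a Sylow 2-subgroup, conjugate to `P`
  let Q₁ : Sylow 2 G := Sylow.ofCard Q (by rw [hQcard, hfacG])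
  obtain ⟨x, hx⟩ := MulAction.exists_smul_eq G P Q₁
  have hconj : ∀ y ∈ (P : Subgroup G), x * y * x⁻¹ ∈ Q := by
    intro y hy
    have h1 : MulAut.conj x • y ∈ MulAut.conj x • (P : Subgroup G) :=
      Subgroup.smul_mem_pointwise_smul y (MulAut.conj x) (P : Subgroup G) hy
    have h2 : ((x • P : Sylow 2 G) : Subgroup G) = Q := by rw [hx]; rfl
    rw [Sylow.coe_subgroup_smul] at h2
    rw [h2] at h1
    exact h1
  have h3 := hQab _ (hconj t ht) _ (hconj g hg)
  apply hgt
  have h4 : x * (t * g) * x⁻¹ = x * (g * t) * x⁻¹ := by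
    calc x * (t * g) * x⁻¹ = (x * t * x⁻¹) * (x * g * x⁻¹) := by group
      _ = (x * g * x⁻¹) * (x * t * x⁻¹) := h3
      _ = x * (g * t) * x⁻¹ := by group
  exact mul_left_cancel (mul_right_cancel h4)

end Cfsg.Agent.Lib.Helper23.T23
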