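import Mathlib

/-!
# Piece GC1 for S4923 (helper83)
-/

set_option autoImplicit false

namespace Cfsg.Agent.Lib.Helper23.T23

theorem gc1 {G : Type*} [Group G] [Finite G] (g x : G) (k : ℕ)
    (hk2 : g ^ (k * k) = g) (hx : x * g * x⁻¹ = g ^ k) :
    ∃ s : G, (∃ e : ℕ, orderOf s = 2 ^ e) ∧ s * g * s⁻¹ = g ^ k := by
  have hx0 : orderOf x ≠ 0 := (orderOf_pos x).ne'
  obtain ⟨e, m, hm, hxm⟩ := Nat.exists_eq_two_pow_mul_odd hx0
  have hconj : ∀ a : ℕ, x ^ a * g * (x ^ a)⁻¹ = g ^ (k ^ a) := by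
    intro a
    induction a with
    | zero => simp
    | succ a ih =>
      have e1 : x ^ (a + 1) * g * (x ^ (a + 1))⁻¹ = x * (x ^ a * g * (x ^ a)⁻¹) * x⁻¹ := by
        rw [pow_succ']
        group
      rw [e1, ih, ← conj_pow, hx, ← pow_mul, ← pow_succ']
  have hb : ∀ b : ℕ, g ^ ((k * k) ^ b) = g := by
    intro b
    induction b with
    | zero => simp
    | succ b ih => rw [pow_succ, pow_mul, ih, hk2]
  obtain ⟨b, rfl⟩ := hm
  refine ⟨x ^ (2 * b + 1), ⟨e, ?_⟩, ?_⟩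
  · rw [orderOf_pow' _ (by omega), hxm, Nat.gcd_eq_right (Dvd.intro_left _ rfl)]
    exact Nat.mul_div_cancel _ (by omega)
  · rw [hconj]
    have e2 : k ^ (2 * b + 1) = (k * k) ^ b * k := by
      rw [pow_succ, pow_mul, pow_two]
    rw [e2, pow_mul, hb]

end Cfsg.Agent.Lib.Helper23.T23
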