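import Mathlib

set_option autoImplicit false

namespace Cfsg.Agent.Lib.Helper23.TwoPr

open Equiv Equiv.Perm MulAction

theorem h23_invol_support {Ω : Type*} [Fintype Ω] [DecidableEq Ω] (hΩ : Fintype.card Ω = 6)
    (t : Perm Ω) (ht : t ∈ alternatingGroup Ω) (h2 : orderOf t = 2) : t.support.card = 4 := by
  obtain ⟨n, hn⟩ := Equiv.Perm.cycleType_prime_order (σ := t) (by rw [h2]; exact Nat.prime_two)
  rw [h2] at hn
  have hsum : t.support.card = 2 * (n + 1) := by
    rw [← Equiv.Perm.sum_cycleType, hn, Multiset.sum_replicate, smul_eq_mul, mul_comm]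
  have hle : t.support.card ≤ 6 := by rw [← hΩ]; exact Finset.card_le_univ _
  have hsign : sign t = 1 := Equiv.Perm.mem_alternatingGroup.mp ht
  rw [Equiv.Perm.sign_of_cycleType, hn, Multiset.sum_replicate, Multiset.card_replicate,
    smul_eq_mul] at hsign
  have hn2 : n ≤ 2 := by omega
  interval_cases n
  · exfalso; revert hsign; decide
  · omega
  · exfalso; revert hsign; decide

theorem h23_six_core {Ω : Type*} [Fintype Ω] [DecidableEq Ω] (hΩ : Fintype.card Ω = 6)
    (K : Subgroup (Perm Ω)) (hKA : K ≤ alternatingGroup Ω)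
    (htr : ∀ x y : Ω, ∃ k ∈ K, k x = y) (hcard : Nat.card K = 60)
    {τ : Perm Ω} (hτK : τ ∈ K) (hτc : τ.IsCycle) (hτ5 : τ.support.card = 5)
    (M : Subgroup (Perm Ω)) (hMK : M ≤ K) (hnorm : ∀ k ∈ K, ∀ n ∈ M, k * n * k⁻¹ ∈ M)
    (hM : M ≠ ⊥) : M = K := by
  classical
  have hc1 : (τ.supportᶜ).card = 1 := by rw [Finset.card_compl, hΩ, hτ5]
  obtain ⟨w, hw⟩ := Finset.card_eq_one.mp hc1
  have hτw : τ w = w := by
    have : w ∈ τ.supportᶜ := by rw [hw]; exact Finset.mem_singleton_self w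
    simpa using this
  have hsupp : ∀ x, x ≠ w → τ x ≠ x := by
    intro x hx h
    apply hx
    have : x ∈ τ.supportᶜ := by simp [h]
    rw [hw] at this
    exact Finset.mem_singleton.mp this
  have hτpow : ∀ i : ℤ, (τ ^ i) w = w := fun i =>
    Equiv.Perm.zpow_apply_eq_self_of_apply_eq_self hτw i
  have hmove : ∃ n ∈ M, n w ≠ w := by
    by_contra hcon
    push Not at hcon
    apply hM
    rw [Subgroup.eq_bot_iff_forall]
    intro n hn
    ext y
    obtain ⟨k, hk, hky⟩ := htr w y
    have h1 : k⁻¹ * n * k⁻¹⁻¹ ∈ M := hnorm k⁻¹ (K.inv_mem hk) n hn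
    have h2 := hcon _ h1
    rw [inv_inv] at h2
    rw [← hky]
    have h3 : n (k w) = k ((k⁻¹ * n * k) w) := by simp [Perm.mul_apply]
    rw [h3, h2]; simp
  obtain ⟨n0, hn0, hn0w⟩ := hmove
  have htrM : ∀ y, ∃ n ∈ M, n w = y := by
    intro y
    by_cases hy : y = w
    · exact ⟨1, M.one_mem, by simp [hy]⟩
    · obtain ⟨i, hi⟩ := hτc.exists_zpow_eq (hsupp _ hn0w) (hsupp y hy)
      refine ⟨τ ^ i * n0 * (τ ^ i)⁻¹, hnorm _ (K.zpow_mem hτK i) n0 hn0, ?_⟩
      rw [Perm.mul_apply, Perm.mul_apply, ← zpow_neg, hτpow, hi]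
  have horb : MulAction.orbit M w = Set.univ := by
    ext y
    simp only [Set.mem_univ, iff_true]
    obtain ⟨n, hn, hny⟩ := htrM y
    exact ⟨⟨n, hn⟩, hny⟩
  have hcardM : Nat.card M = Nat.card (MulAction.stabilizer M w) * 6 := by
    have hΩ' : Nat.card Ω = 6 := by rw [Nat.card_eq_fintype_card, hΩ]
    rw [← Subgroup.card_mul_index (MulAction.stabilizer M w), MulAction.index_stabilizer, horb,
      Set.ncard_univ, hΩ']
  have hdvd : Nat.card M ∣ 60 := by rw [← hcard]; exact Subgroup.card_dvd_of_le hMK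
  obtain ⟨s, hs⟩ : ∃ s, s = Nat.card (MulAction.stabilizer M w) := ⟨_, rfl⟩
  rw [← hs] at hcardM
  have hs10 : s ∣ 10 := by
    rw [hcardM] at hdvd
    exact Nat.dvd_of_mul_dvd_mul_right (by norm_num : 0 < 6) (by simpa using hdvd)
  have hinv : ∀ t ∈ M, orderOf t = 2 → 2 ∣ s := by
    intro t ht h2
    have h4 := h23_invol_support hΩ t (hKA (hMK ht)) h2
    have hc2 : (t.supportᶜ).card = 2 := by rw [Finset.card_compl, hΩ, h4]
    obtain ⟨x, hx⟩ := Finset.card_pos.mp (by rw [hc2]; norm_num : 0 < (t.supportᶜ).card)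
    have htx : t x = x := by simpa using hx
    obtain ⟨n, hn, hnx⟩ := htrM x
    have hmem : n⁻¹ * t * n ∈ M := M.mul_mem (M.mul_mem (M.inv_mem hn) ht) hn
    have hfix : (n⁻¹ * t * n) w = w := by
      simp only [Perm.mul_apply]; rw [hnx, htx, ← hnx]; simp
    have hord : orderOf (⟨⟨n⁻¹ * t * n, hmem⟩, hfix⟩ : MulAction.stabilizer M w) = 2 := by
      rw [← Subgroup.orderOf_coe, ← Subgroup.orderOf_coe]
      have h5 := orderOf_injective (MulAut.conj n⁻¹).toMonoidHom (MulAut.conj n⁻¹).injective t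
      have h6 : (MulAut.conj n⁻¹).toMonoidHom t = n⁻¹ * t * n := by
        simp
      rw [h6] at h5
      rw [← h2, ← h5]
    rw [hs, ← hord]; exact orderOf_dvd_natCard _
  have hcauchy : 2 ∣ Nat.card M → 2 ∣ s := by
    intro h2
    have : Fact (Nat.Prime 2) := ⟨Nat.prime_two⟩
    obtain ⟨t, ht⟩ := exists_prime_orderOf_dvd_card' (G := M) 2 h2
    exact hinv t.1 t.2 (by rw [Subgroup.orderOf_coe]; exact ht)
  have hmem10 : s ∈ Nat.divisors 10 := Nat.mem_divisors.mpr ⟨hs10, by norm_num⟩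
  have hd10 : Nat.divisors 10 = {1, 2, 5, 10} := by decide
  rw [hd10] at hmem10
  simp only [Finset.mem_insert, Finset.mem_singleton] at hmem10
  rcases hmem10 with h1 | h1 | h1 | h1
  · exfalso
    have := hcauchy (by rw [hcardM, h1]; norm_num)
    rw [h1] at this; omega
  · exfalso
    have hS2 : Nat.card (MulAction.stabilizer M w) = 2 := by rw [← hs, h1]
    obtain ⟨t, ht1, htuniq⟩ := (Nat.card_eq_two_iff' (1 : MulAction.stabilizer M w)).mp hS2
    obtain ⟨tt, htt⟩ : ∃ tt : Perm Ω, tt = ((t : M) : Perm Ω) := ⟨_, rfl⟩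
    have htM : tt ∈ M := by rw [htt]; exact (t : M).2
    have htw : tt w = w := by rw [htt]; exact t.2
    have htne : tt ≠ 1 := by
      intro h; apply ht1
      apply Subtype.ext; apply Subtype.ext
      rw [← htt, h]; rfl
    have ht2 : tt ^ 2 = 1 := by
      have h5 := pow_card_eq_one' (G := MulAction.stabilizer M w) (x := t)
      rw [hS2] at h5
      have h6 := congrArg (fun z : MulAction.stabilizer M w => ((z : M) : Perm Ω)) h5
      simpa [htt] using h6
    have hord : orderOf tt = 2 := orderOf_eq_prime ht2 htne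
    have hcM : τ * tt * τ⁻¹ ∈ M := hnorm τ hτK tt htM
    have hτiw : τ⁻¹ w = w := by rw [Perm.inv_eq_iff_eq]; exact hτw.symm
    have hcw : (τ * tt * τ⁻¹) w = w := by
      simp only [Perm.mul_apply]
      rw [hτiw, htw, hτw]
    have hcne : τ * tt * τ⁻¹ ≠ 1 := by
      intro h; apply htne
      have h7 : tt = τ⁻¹ * (τ * tt * τ⁻¹) * τ := by group
      rw [h7, h]; group
    have hceq : τ * tt * τ⁻¹ = tt := by
      have h8 := htuniq ⟨⟨τ * tt * τ⁻¹, hcM⟩, hcw⟩ (by
        intro h; apply hcne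
        have h9 := congrArg (fun z : MulAction.stabilizer M w => ((z : M) : Perm Ω)) h
        simpa using h9)
      have h9 := congrArg (fun z : MulAction.stabilizer M w => ((z : M) : Perm Ω)) h8
      simp only at h9
      rw [← htt] at h9
      exact h9
    have hcomm : τ * tt = tt * τ := by
      have h7 : τ * tt = (τ * tt * τ⁻¹) * τ := by group
      rw [h7, hceq]
    have h4 := h23_invol_support hΩ tt (hKA (hMK htM)) hord
    have hc2 : (tt.supportᶜ).card = 2 := by rw [Finset.card_compl, hΩ, h4]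
    have hwc : w ∈ tt.supportᶜ := by simp [htw]
    obtain ⟨γ, hγ, hγw⟩ := Finset.exists_mem_ne (by rw [hc2]; norm_num : 1 < (tt.supportᶜ).card) w
    have htγ : tt γ = γ := by simpa using hγ
    have hτγ : tt (τ γ) = τ γ := by
      have h7 := congrArg (fun f : Perm Ω => f γ) hcomm
      simp only [Perm.mul_apply] at h7
      rw [← h7, htγ]
    have hτγw : τ γ ≠ w := by
      intro h
      apply hγw
      apply τ.injective
      rw [h, hτw]
    have hτγγ : τ γ ≠ γ := hsupp γ hγw
    have hsub : ({w, γ, τ γ} : Finset Ω) ⊆ tt.supportᶜ := by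
      intro z hz
      simp only [Finset.mem_insert, Finset.mem_singleton] at hz
      rcases hz with rfl | rfl | rfl
      · exact hwc
      · exact hγ
      · simp [hτγ]
    have h3 : ({w, γ, τ γ} : Finset Ω).card = 3 := by
      rw [Finset.card_insert_of_notMem, Finset.card_insert_of_notMem, Finset.card_singleton]
      · simp [hτγγ.symm]
      · simp [hγw.symm, hτγw.symm]
    have h10 := Finset.card_le_card hsub
    omega
  · exfalso
    have := hcauchy (by rw [hcardM, h1]; norm_num)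
    rw [h1] at this; omega
  · exact Subgroup.eq_of_le_of_card_ge hMK (by rw [hcard, hcardM, h1])

/-- TP-SIX-S -/
theorem six_simple {Ω : Type*} [Fintype Ω] [DecidableEq Ω] (hΩ : Fintype.card Ω = 6)
    (K : Subgroup (Perm Ω)) (hKA : K ≤ alternatingGroup Ω)
    [IsPretransitive K Ω] (hcard : Nat.card K = 60)
    {τ : Perm Ω} (hτK : τ ∈ K) (hτc : τ.IsCycle) (hτ5 : τ.support.card = 5) :
    IsSimpleGroup K := by
  have htr : ∀ x y : Ω, ∃ k ∈ K, k x = y := by
    intro x y
    obtain ⟨g, hg⟩ := MulAction.exists_smul_eq K x y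
    exact ⟨g.1, g.2, hg⟩
  have hnt : Nontrivial K := by
    refine ⟨⟨⟨τ, hτK⟩, 1, ?_⟩⟩
    intro h
    have h1 : τ = 1 := congrArg Subtype.val h
    rw [h1] at hτ5
    simp at hτ5
  refine { toNontrivial := hnt, eq_bot_or_eq_top_of_normal := ?_ }
  intro N hN
  by_cases hbot : N = ⊥
  · exact Or.inl hbot
  · right
    have hM := h23_six_core hΩ K hKA htr hcard hτK hτc hτ5 (N.map K.subtype)
      (Subgroup.map_subtype_le N) ?_ ?_
    · rw [eq_top_iff]
      intro x _
      have hx : (x : Perm Ω) ∈ N.map K.subtype := by rw [hM]; exact x.2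
      obtain ⟨n, hn, hnx⟩ := hx
      have : n = x := Subtype.ext hnx
      rw [← this]; exact hn
    · intro k hk n hn
      obtain ⟨n', hn', rfl⟩ := hn
      exact ⟨⟨k, hk⟩ * n' * ⟨k, hk⟩⁻¹, hN.conj_mem n' hn' ⟨k, hk⟩, rfl⟩
    · intro h
      apply hbot
      exact (Subgroup.map_eq_bot_iff_of_injective N K.subtype_injective).mp h

end Cfsg.Agent.Lib.Helper23.TwoPr
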