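import Mathlib
import Cfsg.Agent.Lib.Helper9.Zassenhaus
import Cfsg.Agent.Lib.Helper23.ZassSimple
import Cfsg.Agent.Lib.Helper23.ZassAbel

/-!
# The structure equation of a Zassenhaus group with abelian 2-kernel

Given Feit's theorem (S0885, passed as a hypothesis): if the regular normal subgroup `U` of a
point stabilizer `G_a` is an abelian 2-group, then a two-point stabilizer acts regularly on
`U ∖ 1`, so `U` is elementary abelian, and for an involution `v` moving `a` the element `u₀` of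
`U` taking `v a` to the fixed point of `v` satisfies `(v u₀)³ = 1`.
-/

set_option autoImplicit false

namespace Cfsg.Agent.Lib.Helper23

open Cfsg MulAction

universe u v

/-- S1167, given Feit's theorem (S0885). -/
theorem zass_struct_eq {G : Type u} [Group G] [Finite G] {Ω : Type v} [MulAction G Ω]
    [Fintype Ω] (hZ : IsZassenhausGroup G Ω) {a : Ω}
    (U : Subgroup G) (hUle : U ≤ stabilizer G a)
    (hUn : ∀ h ∈ stabilizer G a, ∀ u ∈ U, h * u * h⁻¹ ∈ U)
    (hreg : ∀ c d : Ω, c ≠ a → d ≠ a → ∃! u : U, (u : G) • c = d)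
    (hU2 : IsPGroup 2 U) (hUab : ∀ u ∈ U, ∀ u' ∈ U, u * u' = u' * u)
    (v : G) (hv1 : v ≠ 1) (hv2 : v * v = 1) (hva : v • a ≠ a)
    (h885 : ∀ {b : Ω}, a ≠ b → ∀ (h e : ℕ), Fintype.card Ω = h + 1 →
      Nat.card ↥(stabilizer G a ⊓ stabilizer G b : Subgroup G) = e → Odd e →
      ∀ H : Subgroup G, H ≤ stabilizer G a → Nat.card H + 1 = Fintype.card Ω →
      (∀ u ∈ H, u ≠ 1 → ∀ c : Ω, u • c = c → c = a) →
      h - 1 ≤ 2 * e ∨ (IsPGroup 2 H ∧ (∃ u v : H, u * v ≠ v * u) ∧
        (commutator H).index ≤ 4 * e ^ 2 + 1)) :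
    ∃! u₀ : G, u₀ ∈ U ∧ u₀ ≠ 1 ∧ v * u₀ * v = u₀ * v * u₀ := by
  classical
  have three := hZ.2.2.1
  have hzd := Cfsg.Agent.Lib.Helper9.zdata_of_zassenhaus hZ
  have h3 : 3 ≤ Fintype.card Ω := Cfsg.Agent.Lib.Helper21.zass_three_le_card hZ
  have hab : a ≠ v • a := Ne.symm hva
  have hvb : v • (v • a) = a := by rw [← mul_smul, hv2, one_smul]
  obtain ⟨hUcard, hUfix⟩ := kernel_of_reg hab U hUle hreg
  have hUa : ∀ u ∈ U, u • a = a := fun u hu => mem_stabilizer_iff.mp (hUle hu)
  obtain ⟨m, hm⟩ := hU2.exists_card_eq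
  have hm0 : m ≠ 0 := by
    rintro rfl
    rw [pow_zero] at hm
    omega
  have hUeven : 2 ∣ Nat.card U := by
    rw [hm]
    exact dvd_pow_self 2 hm0
  have hΩodd : Odd (Nat.card Ω) := by
    rw [Nat.card_eq_fintype_card, ← hUcard]
    exact Even.add_one (even_iff_two_dvd.mpr hUeven)
  -- the order of the two-point stabilizer
  have hdvd := zass_twoStab_dvd hZ hab
  obtain ⟨k, hk⟩ := hdvd
  have hepos : 0 < Nat.card ↥(stabilizer G a ⊓ stabilizer G (v • a) : Subgroup G) := Nat.card_pos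
  have hprododd : Odd (Fintype.card Ω - 2) := by
    have h1 : Fintype.card Ω - 2 = Nat.card U - 1 := by omega
    rw [h1]
    obtain ⟨j, hj⟩ := hUeven
    exact ⟨j - 1, by omega⟩
  have heodd : Odd (Nat.card ↥(stabilizer G a ⊓ stabilizer G (v • a) : Subgroup G)) := by
    rw [hk] at hprododd
    exact (Nat.odd_mul.mp hprododd).1
  have hkodd : Odd k := by
    rw [hk] at hprododd
    exact (Nat.odd_mul.mp hprododd).2
  have hle : Fintype.card Ω - 2 ≤
      2 * Nat.card ↥(stabilizer G a ⊓ stabilizer G (v • a) : Subgroup G) := by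
    rcases h885 hab (Fintype.card Ω - 1) _ (by omega) rfl heodd U hUle hUcard hUfix with
      h1 | ⟨-, ⟨x, y, hxy⟩, -⟩
    · omega
    · exact absurd (Subtype.ext (hUab x x.2 y y.2)) hxy
  have hk1 : k = 1 := by
    obtain ⟨j, hj⟩ := hkodd
    rcases j with _ | j
    · omega
    · exfalso
      rw [hk, hj] at hle
      have : Nat.card ↥(stabilizer G a ⊓ stabilizer G (v • a) : Subgroup G) * 3 ≤
          Nat.card ↥(stabilizer G a ⊓ stabilizer G (v • a) : Subgroup G) * (2 * (j + 1) + 1) :=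
        Nat.mul_le_mul_left _ (by omega)
      omega
  rw [hk1, mul_one] at hk
  -- an involution in `U`
  have : Fact (Nat.Prime 2) := ⟨Nat.prime_two⟩
  obtain ⟨t, ht⟩ := exists_prime_orderOf_dvd_card' 2 hUeven
  have ht1 : (t : G) ≠ 1 := by
    intro h
    have : t = 1 := Subtype.ext h
    rw [this, orderOf_one] at ht
    omega
  have ht2 : (t : G) * (t : G) = 1 := by
    have h1 : t ^ 2 = 1 := by
      rw [← ht]
      exact pow_orderOf_eq_one t
    have h2 : ((t ^ 2 : U) : G) = 1 := by rw [h1]; rfl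
    rw [← pow_two]
    exact h2
  -- the two-point stabilizer is transitive on `U ∖ 1` by conjugation
  have hconjmem : ∀ x : ↥(stabilizer G a ⊓ stabilizer G (v • a) : Subgroup G),
      (x : G) * (t : G) * (x : G)⁻¹ ∈ U ∧ (x : G) * (t : G) * (x : G)⁻¹ ≠ 1 := by
    intro x
    refine ⟨hUn x (Subgroup.mem_inf.mp x.2).1 t t.2, ?_⟩
    exact Cfsg.Agent.Lib.Helper21.conj_ne_one ht1
  let φ : ↥(stabilizer G a ⊓ stabilizer G (v • a) : Subgroup G) → {u : U // u ≠ 1} :=
    fun x => ⟨⟨(x : G) * (t : G) * (x : G)⁻¹, (hconjmem x).1⟩,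
      fun h => (hconjmem x).2 (congrArg Subtype.val h)⟩
  have hφinj : Function.Injective φ := by
    intro x y hxy
    have h1 : (x : G) * (t : G) * (x : G)⁻¹ = (y : G) * (t : G) * (y : G)⁻¹ :=
      congrArg (fun w : {u : U // u ≠ 1} => ((w : U) : G)) hxy
    -- `y⁻¹ x` commutes with `t`, hence fixes `a`, `v a`, `t (v a)`
    have hcomm : ((y : G)⁻¹ * (x : G)) * (t : G) = (t : G) * ((y : G)⁻¹ * (x : G)) := by
      have := congrArg (fun w => (y : G)⁻¹ * w * (x : G)) h1
      simp only [mul_assoc, inv_mul_cancel, mul_one, inv_mul_cancel_left] at this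
      rw [mul_assoc]
      exact this
    have hxa : (x : G) • a = a := mem_stabilizer_iff.mp (Subgroup.mem_inf.mp x.2).1
    have hxb : (x : G) • (v • a) = v • a := mem_stabilizer_iff.mp (Subgroup.mem_inf.mp x.2).2
    have hya : (y : G) • a = a := mem_stabilizer_iff.mp (Subgroup.mem_inf.mp y.2).1
    have hyb : (y : G) • (v • a) = v • a := mem_stabilizer_iff.mp (Subgroup.mem_inf.mp y.2).2
    have hza : ((y : G)⁻¹ * (x : G)) • a = a := by
      rw [mul_smul, hxa, inv_smul_eq_iff, hya]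
    have hzb : ((y : G)⁻¹ * (x : G)) • (v • a) = v • a := by
      rw [mul_smul, hxb, inv_smul_eq_iff, hyb]
    have hzc : ((y : G)⁻¹ * (x : G)) • ((t : G) • (v • a)) = (t : G) • (v • a) := by
      rw [← mul_smul, hcomm, mul_smul, hzb]
    have htb : (t : G) • (v • a) ≠ v • a := fun e => hva (hUfix t t.2 ht1 _ e)
    have htba : (t : G) • (v • a) ≠ a := by
      intro e
      have e' : (t : G) • (v • a) = (t : G) • a := e.trans (hUa t t.2).symm
      exact hva (MulAction.injective (t : G) e')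
    have hz1 := three _ a (v • a) ((t : G) • (v • a)) hab (Ne.symm htb) (Ne.symm htba) hza hzb hzc
    exact Subtype.ext (inv_mul_eq_one.mp hz1).symm
  have hcardeq : Nat.card {u : U // u ≠ 1} ≤
      Nat.card ↥(stabilizer G a ⊓ stabilizer G (v • a) : Subgroup G) := by
    have h1 : Nat.card {u : U // u ≠ 1} = Nat.card U - 1 := by
      have := Fintype.ofFinite U
      rw [Nat.card_eq_fintype_card, Nat.card_eq_fintype_card]
      exact Set.card_ne_eq 1
    omega
  have hφsurj : Function.Surjective φ := (hφinj.bijective_of_nat_card_le hcardeq).2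
  have hinv : ∀ u ∈ U, u * u = 1 := by
    intro u hu
    by_cases hu1 : u = 1
    · rw [hu1, mul_one]
    · obtain ⟨x, hx⟩ := hφsurj ⟨⟨u, hu⟩, fun h => hu1 (congrArg Subtype.val h)⟩
      have h1 : (x : G) * (t : G) * (x : G)⁻¹ = u :=
        congrArg (fun w : {u : U // u ≠ 1} => ((w : U) : G)) hx
      rw [← h1]
      have : (x : G) * (t : G) * (x : G)⁻¹ * ((x : G) * (t : G) * (x : G)⁻¹) =
          (x : G) * ((t : G) * (t : G)) * (x : G)⁻¹ := by group
      rw [this, ht2, mul_one, mul_inv_cancel]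
  -- the fixed point of `v`
  obtain ⟨c, hc⟩ := hzd.involution_fix hΩodd v hv2
  have hca : c ≠ a := by
    rintro rfl
    exact hva hc
  have hcb : c ≠ v • a := by
    intro e
    rw [e, hvb] at hc
    exact hab hc
  have hcuniq : ∀ c' : Ω, v • c' = c' → c' = c := by
    intro c' hc'
    by_contra hne
    exact hzd.involution_unique hΩodd v hv2 hv1 hne hc' hc
  obtain ⟨u₀, hu₀, hu₀uniq⟩ := hreg (v • a) c hva hca
  have hu₀1 : (u₀ : G) ≠ 1 := by
    intro h
    rw [h, one_smul] at hu₀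
    exact hcb hu₀.symm
  have hu₀a : (u₀ : G) • a = a := hUa u₀ u₀.2
  have hu₀c : (u₀ : G) • c = v • a := by
    rw [← hu₀, ← mul_smul, hinv u₀ u₀.2, one_smul]
  refine ⟨u₀, ⟨u₀.2, hu₀1, ?_⟩, ?_⟩
  · have hg : v * (u₀ : G) * v * (u₀ : G) * v * (u₀ : G) = 1 := by
      apply three _ a (v • a) c hab (Ne.symm hcb) (Ne.symm hca)
      · simp only [mul_smul]
        rw [hu₀a, hu₀, hc, hu₀c, hvb]
      · simp only [mul_smul]
        rw [hu₀, hc, hu₀c, hvb, hu₀a]
      · simp only [mul_smul]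
        rw [hu₀c, hvb, hu₀a, hu₀, hc]
    have hu₀inv : (u₀ : G)⁻¹ = (u₀ : G) := inv_eq_of_mul_eq_one_left (hinv u₀ u₀.2)
    have hvinv : v⁻¹ = v := inv_eq_of_mul_eq_one_left hv2
    have h1 : v * (u₀ : G) * v = ((u₀ : G) * v * (u₀ : G))⁻¹ := by
      rw [eq_inv_iff_mul_eq_one]
      simpa [mul_assoc] using hg
    rw [h1, mul_inv_rev, mul_inv_rev, hu₀inv, hvinv, mul_assoc]
  · rintro u₁ ⟨hu₁, hu₁1, heq⟩
    have h1 : v • ((u₁ : G) • (v • a)) = (u₁ : G) • (v • a) := by
      have := congrArg (fun g : G => g • a) heq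
      simp only [mul_smul] at this
      rw [hUa u₁ hu₁] at this
      exact this
    have h2 := hcuniq _ h1
    have h3 := hu₀uniq ⟨u₁, hu₁⟩ h2
    exact congrArg Subtype.val h3

end Cfsg.Agent.Lib.Helper23
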